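import Cfsg.Agent.H38.R3Cov
import Cfsg.Agent.H60.Homog

/-! A group of a projective plane that is transitive on points and on lines and contains a
transvection is flag-transitive. -/

set_option autoImplicit false

namespace Cfsg.Agent.H90.R3W1a

open Cfsg.Agent.H79.R3 Cfsg.Agent.H38.R3Cov Module
open scoped Pointwise

universe u

variable {F V : Type u} [Field F] [AddCommGroup V] [Module F V] {Γ : Subgroup (V ≃ₗ[F] V)}
  {c l : Submodule F V}

/-- `Γ` has a transvection with centre `c` and axis `l`. -/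
def R (Γ : Subgroup (V ≃ₗ[F] V)) (c l : Submodule F V) : Prop :=
  ∃ (w : V) (φ : V →ₗ[F] F), w ≠ 0 ∧ φ ≠ 0 ∧ φ w = 0 ∧ Tv Γ w φ ∧ c = F ∙ w ∧ l = LinearMap.ker φ

theorem R.smul (h : R Γ c l) {g : V ≃ₗ[F] V} (hg : g ∈ Γ) : R Γ (g • c) (g • l) := by
  obtain ⟨w, φ, h1, h2, h3, ⟨τ, hτ, e⟩, rfl, rfl⟩ := h
  refine ⟨g w, φ ∘ₗ (g.symm : V →ₗ[F] V), by simpa using h1, fun k => h2 ?_, by simpa using h3,
    ⟨g * τ * g⁻¹, mul_mem (mul_mem hg hτ) (inv_mem hg), fun v => ?_⟩, smul_span g w, ?_⟩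
  · ext v
    simpa using LinearMap.congr_fun k (g v)
  · change g (τ (g.symm v)) = _
    simp [e]
  · ext v
    simp [mem_smul]

theorem R.dm_c (h : R Γ c l) : dm c = 1 := by
  obtain ⟨w, φ, h1, -, -, -, rfl, -⟩ := h
  exact finrank_span_singleton h1

theorem R.dm_l [FiniteDimensional F V] (h : R Γ c l) : dm l + 1 = finrank F V := by
  obtain ⟨w, φ, -, h2, -, -, -, rfl⟩ := h
  exact Module.Dual.finrank_ker_add_one_of_ne_zero h2

theorem R.le (h : R Γ c l) : c ≤ l := by
  obtain ⟨w, φ, -, -, h3, -, rfl, rfl⟩ := h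
  exact (Submodule.span_singleton_le_iff_mem _ _).2 h3

theorem R.tau [FiniteDimensional F V] (h : R Γ c l) : ∃ τ ∈ Γ, τ ^ ringChar F = 1 ∧
    ∀ A : Submodule F V, τ • A = A ↔ A ≤ l ∨ c ≤ A := by
  obtain ⟨w, φ, -, -, h3, ⟨τ, hτ, e⟩, rfl, rfl⟩ := h
  refine ⟨τ, hτ, ?_, fun A => ⟨fun hA => ?_, fun hA => ?_⟩⟩
  · have h1 : ∀ (k : ℕ) v, (τ ^ k) v = v + (k * φ v) • w := fun k v => by
      induction k with
      | zero => simp
      | succ k ih =>
        rw [pow_succ', LinearEquiv.mul_apply, ih, e]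
        simp [h3, add_mul, add_smul, add_assoc]
    ext v
    simp [h1]
  · refine or_iff_not_imp_left.2 fun hn => (Submodule.span_singleton_le_iff_mem _ _).2 ?_
    obtain ⟨v, hv, h0⟩ := SetLike.not_le_iff_exists.1 hn
    have h1 : τ v ∈ A := hA ▸ smul_mem_smul.2 hv
    rw [e, A.add_mem_iff_right hv] at h1
    exact (A.smul_mem_iff h0).1 h1
  · refine Submodule.eq_of_le_of_finrank_eq ?_ (dm_smul τ A)
    rintro _ ⟨v, hv, rfl⟩
    change τ v ∈ A
    rw [e]
    rcases hA with hA | hA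
    · rwa [show φ v = 0 from hA hv, zero_smul, add_zero]
    · exact A.add_mem hv (A.smul_mem _ (hA (Submodule.mem_span_singleton_self w)))

theorem two [FiniteDimensional F V] (hn : finrank F V = 3) (h1 : Tr1 Γ 1) (h2 : Tr1 Γ 2)
    (h : HasTv Γ) {y : Submodule F V} (hy : dm y = 1) (L : Submodule F V) :
    ∃ l, l ≠ L ∧ R Γ y l := by
  obtain ⟨w, φ, a1, a2, a3, a4⟩ := h
  have r0 : R Γ (F ∙ w) (LinearMap.ker φ) := ⟨w, φ, a1, a2, a3, a4, rfl, rfl⟩
  have dl : ∀ {c l : Submodule F V}, R Γ c l → dm l = 2 := fun r => by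
    have := r.dm_l
    omega
  by_contra hc
  have hc : ∀ l, R Γ y l → l = L := fun l r => by_contra fun e => hc ⟨l, e, r⟩
  have uq : ∀ {c l l' : Submodule F V}, R Γ c l → R Γ c l' → l = l' := fun r r' => by
    obtain ⟨g, hg, e⟩ := h1 _ _ r.dm_c hy
    exact MulAction.injective g ((hc _ (e ▸ r.smul hg)).trans (hc _ (e ▸ r'.smul hg)).symm)
  obtain ⟨g, hg, e⟩ := h1 _ _ r0.dm_c hy
  have r1 := r0.smul hg
  rw [e] at r1
  obtain rfl := hc _ r1
  obtain ⟨m, ⟨m1, -, m2⟩, m3⟩ := exists_cov_not (A := y) (D := ⊤) le_top r1.le (by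
    rw [dl r1, dm, finrank_top, hn]; norm_num)
  rw [hy] at m2
  obtain ⟨k, hk, e'⟩ := h2 _ _ (dl r0) m2
  have r2 := r0.smul hk
  rw [e'] at r2
  obtain ⟨τ, hτ, -, t⟩ := r2.tau
  have r3 := r1.smul hτ
  rw [(t y).2 (Or.inl m1)] at r3
  refine m3 (ge_of_eq ?_)
  rcases (t _).1 (uq r3 r1) with a | a
  · exact eq_of_dm a (by rw [m2, dl r1])
  · by_cases b : k • (F ∙ w) = y
    · exact uq r1 (b ▸ r2)
    · have z : dm (⊥ : Submodule F V) = 0 := finrank_bot F V
      exact (sup_eq_line bot_le (by rw [z, r2.dm_c]) bot_le (by rw [z, hy]) b a r1.le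
        (by rw [z, dl r1])).symm.trans (sup_eq_line bot_le (by rw [z, r2.dm_c]) bot_le
          (by rw [z, hy]) b r2.le m1 (by rw [z, m2]))

theorem w1a : W1aStmt.{u} := by
  intro F V _ _ _ _ _ Γ hn h1 h2 h
  have : Finite (Submodule F V) := finSub
  have : FiniteDimensional F V := Module.Finite.of_finite
  have hp : (ringChar F).Prime := CharP.char_is_prime F _
  have main : ∀ L y z : Submodule F V, dm L = 2 → dm y = 1 → y ≤ L → dm z = 1 → z ≤ L →
      ∃ g ∈ Γ, g • L = L ∧ g • y = z := by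
    intro L y z hL hy yL hz zL
    by_contra hc
    let O : Set (Submodule F V) := {x | ∃ g ∈ Γ, g • L = L ∧ g • y = x}
    have key : ∀ c, dm c = 1 → c ≤ L → O.ncard ≡ (O ∩ {c}).ncard [MOD ringChar F] := by
      intro c d1 cL
      obtain ⟨l, hl, r⟩ := two hn h1 h2 h d1 L
      obtain ⟨τ, hτ, t1, t⟩ := r.tau
      have hP : IsPGroup (ringChar F) (Subgroup.zpowers τ) := fun x => ⟨1, Subtype.ext (by
        obtain ⟨_, k, rfl⟩ := x
        change (τ ^ k) ^ ringChar F ^ 1 = 1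
        rw [pow_one, ← zpow_natCast, ← zpow_mul, mul_comm, zpow_mul, zpow_natCast, t1, one_zpow])⟩
      have f : ∀ A : Submodule F V, τ • A = A → ∀ g ∈ Subgroup.zpowers τ, g • A = A :=
        fun A e => (Subgroup.zpowers_le (H := MulAction.stabilizer _ A)).2 e
      have e1 := H60.ncard_modEq_of_isPGroup hp _ hP O (by
        rintro g hg _ ⟨k, hk, k1, rfl⟩
        exact ⟨g * k, mul_mem (Subgroup.zpowers_le.2 hτ hg) hk, by
          rw [mul_smul, k1, f L ((t L).2 (Or.inr cL)) g hg], mul_smul _ _ _⟩)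
      rwa [show O ∩ MulAction.fixedPoints (Subgroup.zpowers τ) (Submodule F V) = O ∩ {c} by
        ext x
        refine and_congr_right ?_
        rintro ⟨k, -, k1, rfl⟩
        refine ⟨fun hx => ?_, fun hx g => ?_⟩
        · have x1 : dm (k • y) = 1 := (dm_smul k y).trans hy
          rcases (t _).1 (hx ⟨τ, Subgroup.mem_zpowers τ⟩) with a | a
          · have d2 := r.dm_l
            have d3 := dm_inf_of_ne (L := l) (M := L) (E := ⊤) le_top le_top
              (by rw [d2, dm, finrank_top]) (by rw [hL, dm, finrank_top, hn]) hl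
            rw [dm, dm, finrank_top, hn] at d3
            have xL : k • y ≤ L := k1 ▸ smul_le_smul.2 yL
            exact (eq_of_dm (le_inf a xL) (by rw [x1, dm]; omega)).trans
              (eq_of_dm (le_inf r.le cL) (by rw [d1, dm]; omega)).symm
          · exact (eq_of_dm a (by rw [x1, d1])).symm
        · rw [show k • y = c from hx]
          exact f c ((t c).2 (Or.inr le_rfl)) g g.2] at e1
    have k1 := key y hy yL
    have k2 := key z hz zL
    rw [Set.inter_singleton_of_mem (show y ∈ O from ⟨1, one_mem _, one_smul _ _, one_smul _ _⟩),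
      Set.ncard_singleton] at k1
    rw [Set.inter_singleton_of_notMem (show z ∉ O from hc), Set.ncard_empty] at k2
    exact hp.one_lt.ne' (Nat.dvd_one.1 ((Nat.modEq_zero_iff_dvd).1 (k1.symm.trans k2)))
  intro A B A' B' l a b l' a' b'
  obtain ⟨g, hg, e⟩ := h2 B B' b b'
  obtain ⟨k, hk, k1, k2⟩ := main B' (g • A) A' b' ((dm_smul g A).trans a) (e ▸ smul_le_smul.2 l) a' l'
  exact ⟨k * g, mul_mem hk hg, by rw [mul_smul, k2], by rw [mul_smul, e, k1]⟩

end Cfsg.Agent.H90.R3W1a
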