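import Cfsg.Agent.H79.RbDefs

/-! Project RB, pieces Ab and Swap. -/

set_option autoImplicit false

open Cfsg Equiv Finset

namespace Cfsg.Agent.H90.RbAb

open Cfsg.Agent.H79.RB

theorem abStmt : AbStmt := by
  intro n p k hp
  have := Fact.mk hp
  induction k using Nat.strong_induction_on with
  | _ k ih =>
  intro A hA hc U hU hk
  have com : ∀ σ ∈ A, ∀ τ ∈ A, ∀ x, σ (τ x) = τ (σ x) := fun σ hσ τ hτ x => by
    rw [← Perm.mul_apply, ← Perm.mul_apply]
    exact congrArg (fun g : A => (g : Perm (Fin n)) x) (hc.is_comm.comm ⟨σ, hσ⟩ ⟨τ, hτ⟩)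
  by_cases h1 : ∀ σ ∈ A, ∀ x, σ x = x
  · rw [(Subgroup.eq_bot_iff_forall A).2 fun σ hσ => Perm.ext (h1 σ hσ), Subgroup.card_bot]
    exact Nat.one_le_pow _ _ hp.pos
  push Not at h1
  obtain ⟨σ, hσ, x, hx⟩ := h1
  obtain ⟨a, ha⟩ := hA.card_orbit x
  let O := (MulAction.orbit A x).toFinite.toFinset
  have hO : #O = p ^ a := by rw [← ha, Nat.card_eq_card_finite_toFinset]
  have mO : ∀ y, y ∈ O ↔ ∃ τ ∈ A, τ x = y := fun y => by
    rw [Set.Finite.mem_toFinset]
    exact ⟨fun ⟨τ, e⟩ => ⟨τ, τ.2, e⟩, fun ⟨τ, h, e⟩ => ⟨⟨τ, h⟩, e⟩⟩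
  have OU : O ⊆ U := fun y hy => by
    obtain ⟨τ, hτ, rfl⟩ := (mO y).1 hy
    exact hU σ hσ (Perm.mem_support.2 (by rw [com σ hσ τ hτ]; exact τ.injective.ne hx))
  obtain _ | a := a
  · have : 1 < #O := one_lt_card.2 ⟨_, (mO _).2 ⟨σ, hσ, rfl⟩, _, (mO _).2 ⟨1, one_mem _, rfl⟩, hx⟩
    simp [hO] at this
  have h2 : a + 1 ≤ p ^ a := Nat.lt_pow_self hp.one_lt
  have h3 : p ^ a ≤ k := Nat.le_of_mul_le_mul_left
    (by rw [← pow_succ', ← hO]; exact (card_le_card OU).trans hk) hp.pos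
  have h4 := ih (k - p ^ a) (by omega) (A ⊓ MulAction.stabilizer _ x) hA.to_inf_left
    ⟨⟨fun s t => Subtype.ext (Perm.ext (com _ s.2.1 _ t.2.1))⟩⟩ (U \ O) (fun τ hτ y hy => by
      refine mem_sdiff.2 ⟨hU τ hτ.1 hy, fun h => ?_⟩
      obtain ⟨ρ, hρ, rfl⟩ := (mO y).1 h
      exact Perm.mem_support.1 hy (by rw [com τ hτ.1 ρ hρ]; exact congrArg ρ hτ.2))
    (by rw [card_sdiff_of_subset OU, hO, Nat.mul_sub, pow_succ']; omega)
  have h5 := (MulAction.stabilizer A x).card_mul_index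
  rw [MulAction.index_stabilizer, ← Nat.card_coe_set_eq, ha] at h5
  have h6 : Nat.card (MulAction.stabilizer A x) = Nat.card ↥(A ⊓ MulAction.stabilizer _ x) := by
    rw [← Nat.card_congr (Subgroup.subgroupOfEquivOfLe (inf_le_left :
      A ⊓ MulAction.stabilizer _ x ≤ A)).toEquiv, Subgroup.inf_subgroupOf_left]
    rfl
  calc _ = _ := h5.symm
    _ ≤ p ^ (k - p ^ a) * p ^ (a + 1) := Nat.mul_le_mul_right _ (h6 ▸ h4)
    _ ≤ _ := by rw [← pow_add]; exact Nat.pow_le_pow_right hp.pos (by omega)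

theorem swapStmt : SwapStmt := by
  intro n p k hp hk u hu
  refine ⟨?_, fun g hg => ?_⟩
  · have h1 : ∀ c : u.cycleFactorsFinset, #c.1.support = p := fun c =>
      Multiset.eq_of_mem_replicate (n := k) (by
        rw [← hu, Perm.cycleType_def]; exact Multiset.mem_map.2 ⟨c.1, c.2, rfl⟩)
    have h2 : 1 < #u.cycleFactorsFinset := by
      have := congrArg Multiset.card hu
      rw [Perm.cycleType_def, Multiset.card_map, Multiset.card_replicate] at this
      exact hk.trans this.ge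
    obtain ⟨c, hc, d, hd, e⟩ := one_lt_card.1 h2
    have e' : (⟨c, hc⟩ : u.cycleFactorsFinset) ≠ ⟨d, hd⟩ := fun h => e (congrArg Subtype.val h)
    obtain ⟨a⟩ := Perm.Basis.nonempty u
    let τ : Perm.OnCycleFactors.range_toPermHom' u :=
      ⟨swap ⟨c, hc⟩ ⟨d, hd⟩, fun c => by rw [h1, h1]⟩
    refine ⟨a.ofPermHom τ, ?_, Subgroup.mem_centralizer_singleton_iff.1
      (a.ofPermHom_mem_centralizer τ), ?_⟩
    · have h3 : a.ofPermHom τ ^ 2 = 1 := by
        rw [← map_pow, show τ ^ 2 = 1 from Subtype.ext (by simp [τ, sq]), map_one]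
      have h4 := a.card_ofPermHom_support τ
      have h5 := Perm.cycleType_of_pow_prime_eq_one h3
      simp only [h1, sum_const, τ, Perm.card_support_swap e', smul_eq_mul] at h4
      rw [← Perm.sum_cycleType] at h4
      have h6 := congrArg Multiset.sum h5
      rw [Multiset.sum_replicate, h4, smul_eq_mul] at h6
      rw [Perm.sign_of_cycleType, h4, show (a.ofPermHom τ).cycleType.card = p by omega]
      exact Odd.neg_one_pow (Even.add_odd (even_two_mul p) hp)
    · rw [a.ofPermHom_support]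
      exact biUnion_subset.2 fun c _ => Perm.mem_cycleFactorsFinset_support_le c.2
  · rw [H19.typ_eq, hg.cycleType_mul, hu, Multiset.count_add, Multiset.count_add,
      Multiset.count_replicate_self]
    omega

end Cfsg.Agent.H90.RbAb
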