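import Cfsg.Agent.H71.C3Defs
import Cfsg.Agent.H15.GWKTor
import Cfsg.Agent.H29.Binary

/-! Explicit facts about `L₂(p)` and `PGL₂(p)` for `p = 7, 13`. -/

set_option autoImplicit false

namespace Cfsg.Agent.H90.C3

open Subgroup Matrix Cfsg.Agent.H29 Cfsg.Agent.H15 Cfsg.Agent.H71.C3
open scoped MatrixGroups

universe u

variable {Y : Type*} [Group Y]

theorem as_of (p : ℕ) [hp : Fact p.Prime] (h7 : p = 7 ∨ p = 13) (f : Y →* PGL(2, ZMod p))
    (hf : Function.Injective f) (hL : Lsub (ZMod p) ≤ f.range)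
    (hj : (IsSimpleGroup Y ∧ Nat.card Y = 168) ∨ aff (-1) (0 : ZMod p) ∈ f.range) : AS Y := by
  have hodd : Odd (Nat.card (ZMod p)) := by
    rw [Nat.card_zmod]
    rcases h7 with rfl | rfl <;> decide
  have h2 : ∀ {a : Y}, orderOf a = 2 → a ≠ 1 ∧ a * a = 1 := fun h =>
    ⟨by rintro rfl; simp at h, by rw [← pow_two, ← h, pow_orderOf_eq_one]⟩
  refine ⟨?_, fun a b c ha hb hne hab h1 h3 => ?_, ?_⟩
  · obtain ⟨a', b', h', ha', hb'⟩ := exists_kpair_L hodd
    obtain ⟨c', hc', e1⟩ := invol_conj_L' ha' hb' h'.a1 h'.b1 h'.aa h'.bb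
    obtain ⟨d', hd', e2⟩ := invol_conj_L' ha' (mul_mem ha' hb') h'.a1 h'.ab1 h'.aa h'.abab
    obtain ⟨a, rfl⟩ := hL ha'
    obtain ⟨b, rfl⟩ := hL hb'
    obtain ⟨c, rfl⟩ := hL hc'
    obtain ⟨d, rfl⟩ := hL hd'
    have h := KPair.of_map hf h'
    exact ⟨a, b, orderOf_eq_prime (by rw [pow_two, h.aa]) h.a1, h.comm, h.ne,
      isConj_iff.2 ⟨c, hf (by simpa using e1)⟩, isConj_iff.2 ⟨d, hf (by simpa using e2)⟩⟩
  · have h : KPair a b := ⟨(h2 ha).1, (h2 hb).1, hne, (h2 ha).2, (h2 hb).2, hab⟩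
    have h4 := (h.map hf).mem_of_commute hodd (g := f c) (by rw [← map_mul, h1, map_mul])
      (by rw [← map_mul, h3, map_mul])
    rw [← klein_map, mem_map_iff_mem hf] at h4
    exact h.mem_klein.1 h4
  · obtain ⟨a, ha⟩ : ∃ a : (ZMod p)ˣ, orderOf a = 3 :=
      haveI : Fact (Nat.Prime 3) := ⟨Nat.prime_three⟩
      exists_prime_orderOf_dvd_card' 3 (by
        rw [Nat.card_units, Nat.card_zmod]
        rcases h7 with rfl | rfl <;> decide)
    have a3 : a ^ 3 = 1 := ha ▸ pow_orderOf_eq_one a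
    obtain ⟨u, hu⟩ := hL ((aff_mem_L 1 (1 : ZMod p)).2 (by simp))
    obtain ⟨x, hx⟩ := hL ((aff_mem_L a (0 : ZMod p)).2 ⟨a * a, by
      rw [← Units.val_mul, ← Units.val_mul, show a * a * (a * a) = a ^ 3 * a by
        simp only [pow_succ, pow_zero, one_mul, mul_assoc], a3, one_mul]⟩)
    have ou : orderOf u = p := by
      rw [← orderOf_injective f hf, hu]
      exact orderOf_eq_prime (by rw [aff_one_pow]; simp [aff_one_zero]) (aff_one_ne_one one_ne_zero)
    refine ⟨u, x, ou ▸ h7, ?_, ⟨(a : ZMod p).val, hf ?_⟩, hj.imp id fun ⟨j, hj⟩ => ⟨j, ?_, hf ?_, hf ?_⟩⟩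
    · rw [← orderOf_injective f hf, hx, ← diagHom_apply, orderOf_injective _ diagHom_injective, ha]
    · simp only [zpow_natCast, map_pow, map_mul, map_inv, hu, hx, aff_inv, aff_mul, aff_one_pow]
      rw [aff_inj, ZMod.natCast_zmod_val]
      exact ⟨by group, by ring⟩
    · have : Fact (2 < p) := ⟨by omega⟩
      rw [← orderOf_injective f hf, hj, ← diagHom_apply, orderOf_injective _ diagHom_injective,
        ← orderOf_units, Units.val_neg, Units.val_one, orderOf_neg_one, ZMod.ringChar_zmod_n,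
        if_neg (by omega)]
    · simp [hx, hj, aff_mul]
    · simp [hu, hj, aff_inv, aff_mul]

local instance fact7 : Fact (Nat.Prime 7) := ⟨by norm_num⟩

local instance fact13 : Fact (Nat.Prime 13) := ⟨by norm_num⟩

theorem asStmt : AsStmt.{u} := by
  have key : ∀ {F : Type} [Field F] {Y : Type u} [Group Y] (e : Y ≃* PSL(2, F)),
      (pslp.comp e.toMonoidHom).range = Lsub F := fun e => by
    rw [MonoidHom.range_comp, MonoidHom.range_eq_top.2 e.surjective, ← MonoidHom.range_eq_map,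
      range_pslp]
  rintro Y _ ((⟨⟨e⟩⟩ | ⟨⟨e⟩⟩) | (⟨⟨e⟩⟩ | ⟨⟨e⟩⟩))
  · have : IsSimpleGroup PSL(2, ZMod 7) := ProjectiveSpecialLinearGroup.rank_two_simple (by simp)
    refine as_of 7 (Or.inl rfl) _ (pslp_injective.comp e.injective) (key e).ge
      (Or.inl ⟨e.isSimpleGroup, ?_⟩)
    have h1 := (Lsub (ZMod 7)).card_mul_index
    rw [index_L_of_odd (by rw [Nat.card_zmod]; decide), card_PGL2, Nat.card_zmod] at h1
    rw [Nat.card_congr (e.trans (pslEquiv _)).toEquiv]
    omega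
  · exact as_of 13 (Or.inr rfl) _ (pslp_injective.comp e.injective) (key e).ge
      (Or.inr ((key e).ge ((aff_mem_L _ _).2 ⟨5, by decide⟩)))
  · exact as_of 7 (Or.inl rfl) e.toMonoidHom e.injective (fun g _ => e.surjective g)
      (Or.inr (e.surjective _))
  · exact as_of 13 (Or.inr rfl) e.toMonoidHom e.injective (fun g _ => e.surjective g)
      (Or.inr (e.surjective _))

theorem card_cent_le {F : Type*} [Field F] [Finite F] (hodd : Odd (Nat.card F)) (h3 : (3 : F) ≠ 0)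
    (e : Y ≃* PSL(2, F)) {x : Y} (hx : orderOf x = 3) :
    2 * Nat.card (centralizer ({x} : Set Y)) ≤ Nat.card F + 1 := by
  have := finite_PGL2 (F := F)
  set f := pslp.comp e.toMonoidHom
  have hf : Function.Injective f := pslp_injective.comp e.injective
  rw [← orderOf_injective f hf] at hx
  have x3 : f x ^ 3 = 1 := hx ▸ pow_orderOf_eq_one _
  rcases mem_uni_or_mem_torus (f x) with ⟨z, hz⟩ | ⟨-, T, D, hT, hxT⟩
  · rcases (uni_pow_eq_one_iff hz 3).1 x3 with h | h
    · simp [h] at hx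
    · exact (h3 (by simpa using h)).elim
  have h1 : (centralizer ({x} : Set Y)).map f ≤ T ⊓ Lsub F := by
    rintro _ ⟨y, hy, rfl⟩
    refine ⟨torus_mem_of_comm hT hxT (fun h => ?_)
      (by rw [← map_mul, mem_centralizer_singleton_iff.1 hy, map_mul]), range_pslp.le ⟨_, rfl⟩⟩
    have := orderOf_le_of_pow_eq_one two_pos ((pow_two _).trans h)
    omega
  have h2 := card_le_of_le h1
  rw [card_map_of_injective hf] at h2
  have h4 := torus_two_mul_card hT hodd
  have := hT.card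
  omega

theorem not12 {G : Type*} [Group G] (h : IsL G) {x : G} (hx : orderOf x = 3) :
    Nat.card (centralizer ({x} : Set G)) ≠ 12 := by
  rcases h with ⟨⟨e⟩⟩ | ⟨⟨e⟩⟩ <;>
  · have := card_cent_le (by rw [Nat.card_zmod]; decide) (by decide) e hx
    rw [Nat.card_zmod] at this
    omega

end Cfsg.Agent.H90.C3
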