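import Cfsg.Agent.H45.GdDefs

/-! Project CY, chapter IV: the kit for mixed systems. -/

set_option autoImplicit false
set_option linter.unusedSectionVars false

namespace Cfsg.Agent.H90.CyMk

open Subgroup Cfsg.Agent.H11.Cy Cfsg.Agent.H45.Iv Cfsg.Agent.H45.Gd
open scoped commutatorElement

variable {G : Type} [Group G] {Ω : Type} [MulAction G Ω] {p : ℕ} {A : Ω → Subgroup G}

theorem le_Ms {Ψ : Set Ω} {d : Ω} (hd : d ∈ Ψ) : A d ≤ Ms A Ψ :=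
  le_iSup₂_of_le (f := fun w (_ : w ∈ Ψ) => A w) d hd le_rfl

theorem back (h : MX p A) (g : G) (w : Ω) {a : G} (ha : a ∈ A (g • w)) : g⁻¹ * a * g ∈ A w := by
  simpa using h.bs.eqv g⁻¹ _ a ha

theorem lncj (h : MX p A) (g : G) {x y c : Ω} (hc : c ∈ Ln A x y) :
    g • c ∈ Ln A (g • x) (g • y) := fun a ha => by
  simpa [mul_assoc] using (h.sk.cj g x y _).1 (hc (back h g c ha))

theorem subcj (h : MX p A) (g : G) {Ψ : Set Ω} (s : Sub A Ψ) : Sub A ((fun w => g • w) '' Ψ) := by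
  rintro _ ⟨x, hx, rfl⟩ _ ⟨y, hy, rfl⟩ hne c hc
  refine ⟨g⁻¹ • c, s x hx y hy (fun e => hne (by rw [e])) ?_, smul_inv_smul g c⟩
  simpa using lncj h g⁻¹ hc

theorem necj (g : G) {Ψ : Set Ω} (s : Ψ ≠ Set.univ) : (fun w => g • w) '' Ψ ≠ Set.univ := fun e =>
  s (Set.eq_univ_of_forall fun w => by
    obtain ⟨w', hw, e'⟩ : g • w ∈ (fun w => g • w) '' Ψ := e ▸ trivial
    rwa [← smul_left_cancel g e'])

theorem ext [Finite Ω] (Φ : Set Ω) (s : Sub A Φ) (n : Φ ≠ Set.univ) : ∃ Ψ, Mx A Ψ ∧ Φ ⊆ Ψ := by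
  obtain ⟨Ψ, le, hm⟩ := (Set.toFinite {Ψ : Set Ω | Sub A Ψ ∧ Ψ ≠ Set.univ}).exists_le_maximal
    (a := Φ) ⟨s, n⟩
  exact ⟨Ψ, ⟨hm.1.1, hm.1.2, fun Φ' s' n' le' => le_antisymm (hm.2 ⟨s', n'⟩ le') le'⟩, le⟩

theorem ne (h : MX p A) (Ψ : Set Ω) (m : Mx A Ψ) : Ψ.Nonempty := by
  obtain ⟨x, y, hxy⟩ := h.bs.nt
  by_contra e
  rw [Set.not_nonempty_iff_eq_empty] at e
  have := m.2.2 {x} (fun a ha b hb hab => absurd (ha.trans hb.symm) hab)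
    (fun e' => hxy (show y ∈ ({x} : Set Ω) from e' ▸ trivial).symm) (e ▸ Set.empty_subset _)
  exact Set.singleton_ne_empty x (this.trans e)

theorem fx (h : MX p A) (Ψ : Set Ω) (m : Mx A Ψ) (z : G) (hz : z ∈ Es A Ψ) (z1 : z ≠ 1) (w : Ω) :
    z • w = w ↔ w ∈ Ψ := by
  obtain ⟨d, hd⟩ := ne h Ψ m
  have cd := (h.sk.cs Ψ z).1 hz.2 d hd
  have cw : ∀ w, z • w = w → z ∈ centralizer (A w : Set G) := fun w hw => by
    by_cases e : d = w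
    · exact e ▸ cd
    · exact centralizer_le (show A w ≤ Fl A d w from le_sup_right)
        (h.ep.eps d w e z ⟨h.sk.csfix Ψ z hz.2 d hd, hw⟩ cd)
  have e := m.2.2 (Fx Ω z) (fun x hx y hy hxy c hc =>
      (h.ep.kfix x y hxy z).1 (h.ep.eps x y hxy z ⟨hx, hy⟩ (cw x hx)) c hc)
    (fun e => z1 ?_) (h.sk.csfix Ψ z hz.2)
  · rw [← e]; rfl
  · have h1 : z ∈ Cs A Set.univ := (h.sk.cs _ z).2 fun w hw => cw w (show w ∈ Fx Ω z from e ▸ hw)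
    rw [Cs, h.bs.top] at h1
    have h2 : z * z = 1 := (h.pg Ψ m.1 (Set.subset_univ _) m.2.1).2.1 z hz
    have hn : (zpowers z).Normal := ⟨fun n hn g => by
      obtain ⟨k, rfl⟩ := hn
      have c : Commute g (z ^ k) := Commute.zpow_right (h1 g trivial) k
      simp only [c.eq, mul_inv_cancel_right]
      exact zpow_mem (mem_zpowers z) k⟩
    refine zpowers_eq_bot.1 (h.bs.o2 _ hn ?_)
    rintro ⟨_, k, rfl⟩
    refine ⟨1, Subtype.ext ?_⟩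
    change (z ^ k) ^ 2 ^ 1 = 1
    rw [pow_one, ← zpow_natCast, ← zpow_mul, mul_comm, zpow_mul, zpow_natCast, pow_two, h2,
      one_zpow]

theorem mk : MkStmt := by
  intro G _ _ Ω _ _ p A h
  have gd := fun Ψ (m : Mx A Ψ) => h.pg Ψ m.1 (Set.subset_univ _) m.2.1
  refine ⟨ext, fun x y hxy => ext _ (fun z hz w hw hzw => (h.sk.sp x y hxy z hz w hw hzw).2.2.subset)
    fun e => ?_, ne h, gd, fx h, fun Ψ m z hz z1 g c w => ?_, fun Ψ Φ m m' hne z hz hz' => ?_,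
    fun Ψ m x hx y hy hxy z hz => ⟨(h.sk.fle Ψ x hx y hy).2 ((h.ls x y hxy).1.zle hz),
      h.sk.zc Ψ (gd Ψ m).1 x hx y hy hxy hz⟩,
    fun g Ψ m => ⟨⟨subcj h g m.1, necj g m.2.1, fun Φ s n le => ?_⟩, fun z hz => ⟨?_, ?_⟩⟩,
    fun Ψ m t => ?_, fun x y => ?_⟩
  · have h1 : Fl A x y = ⊤ := by
      rw [eq_top_iff, ← h.bs.top]
      exact iSup₂_le fun w hw => show w ∈ Ln A x y from e ▸ hw
    have hn : (Rl A x y).Normal := by rw [Rl, h1]; infer_instance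
    obtain ⟨r, hr, e'⟩ := (h.ls x y hxy).1.tr y (h.sk.ln x y).2
    rw [h.bs.o2 _ hn (h.ls x y hxy).1.r2, mem_bot] at hr
    rw [hr, one_smul] at e'
    exact hxy e'
  · rw [← fx h Ψ m z hz z1, ← fx h Ψ m z hz z1, ← mul_smul, ← c, mul_smul, smul_left_cancel_iff]
  · by_contra z1
    exact hne (Set.ext fun w => by rw [← fx h Ψ m z hz z1, fx h Φ m' z hz' z1])
  · have e := m.2.2 _ (subcj h g⁻¹ s) (necj g⁻¹ n) fun w hw =>
      ⟨g • w, le ⟨w, hw, rfl⟩, inv_smul_smul g w⟩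
    refine Set.Subset.antisymm (fun w hw => ⟨g⁻¹ • w, ?_, smul_inv_smul g w⟩) le
    rw [← e]; exact ⟨w, hw, rfl⟩
  · have h1 : (Ms A Ψ).map (MulAut.conj g).toMonoidHom ≤ Ms A ((fun w => g • w) '' Ψ) :=
      map_le_iff_le_comap.2 (iSup₂_le fun w hw a ha =>
        le_Ms (Ψ := (fun w => g • w) '' Ψ) ⟨w, hw, rfl⟩ (h.bs.eqv g w a ha))
    refine commutator_mono h1 h1 ?_
    rw [← map_commutator]
    exact ⟨z, hz.1, rfl⟩
  · refine (h.sk.cs _ _).2 ?_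
    rintro _ ⟨w, hw, rfl⟩ a ha
    have c := (h.sk.cs Ψ z).1 hz.2 w hw _ (back h g w ha)
    calc a * (g * z * g⁻¹) = g * (g⁻¹ * a * g * z) * g⁻¹ := by group
      _ = g * z * g⁻¹ * a := by rw [c]; group
  · obtain ⟨d, hd⟩ := ne h Ψ m
    refine ⟨2, Subtype.ext ?_⟩
    have := (gd Ψ m).2.1 _ ⟨mul_mem t.2 t.2, ((gd Ψ m).2.2 d hd).sq t t.2⟩
    change (t : G) ^ 2 ^ 2 = 1
    rw [← this]; simp [pow_succ, mul_assoc]
  · by_cases e : x = y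
    · exact ⟨1, by rw [one_smul, e]⟩
    · obtain ⟨r, -, e'⟩ := (h.ls x y e).1.tr y (h.sk.ln x y).2
      exact ⟨r, e'⟩

end Cfsg.Agent.H90.CyMk
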