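import Cfsg.Agent.H45.IvDefs

/-! Project CY, chapter IV: an element acting linearly. -/

set_option autoImplicit false

namespace Cfsg.Agent.H90.CyUex

open Subgroup Cfsg.Agent.H11.Cy Cfsg.Agent.H45.Iv
open scoped commutatorElement

theorem key {U K : Type} [Group U] [Field K] (i : U →* K) (Z : Subgroup U)
    (hz : ∀ z ∈ Z, z * z = 1) {r s : U} (hr : r * r ∈ Z) (hs : s * s ∈ Z) :
    ∃ w, (w = r ∨ w = s ∨ w = r * s) ∧ ∃ z ∈ Z, i (w * z) = 1 := by
  have pm : ∀ z ∈ Z, i z = 1 ∨ i z = -1 := fun z h =>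
    mul_self_eq_one_iff.1 (by rw [← map_mul, hz z h, map_one])
  have h1 := pm _ hr
  have h2 := pm _ hs
  rw [map_mul] at h1 h2
  have one : ∀ w, i w = 1 → ∃ z ∈ Z, i (w * z) = 1 := fun w h => ⟨1, one_mem _, by rwa [mul_one]⟩
  by_cases hJ : ∃ z ∈ Z, i z = -1
  · obtain ⟨z, hzZ, e⟩ := hJ
    have sq : ∀ w, i w * i w = 1 → ∃ z ∈ Z, i (w * z) = 1 := fun w h =>
      (mul_self_eq_one_iff.1 h).elim (one w) fun h' => ⟨z, hzZ, by rw [map_mul, h', e]; ring⟩
    rcases h1 with h1 | h1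
    · exact ⟨r, .inl rfl, sq r h1⟩
    rcases h2 with h2 | h2
    · exact ⟨s, .inr (.inl rfl), sq s h2⟩
    refine ⟨r * s, .inr (.inr rfl), sq _ ?_⟩
    rw [map_mul]
    linear_combination (i s * i s) * h1 - h2
  · have e1 : i r * i r = 1 := h1.resolve_right fun h => hJ ⟨_, hr, by rwa [map_mul]⟩
    have e2 : i s * i s = 1 := h2.resolve_right fun h => hJ ⟨_, hs, by rwa [map_mul]⟩
    rcases mul_self_eq_one_iff.1 e1 with a | a
    · exact ⟨r, .inl rfl, one r a⟩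
    rcases mul_self_eq_one_iff.1 e2 with b | b
    · exact ⟨s, .inr (.inl rfl), one s b⟩
    exact ⟨r * s, .inr (.inr rfl), one _ (by rw [map_mul, a, b]; ring)⟩

/-- action on a cyclic group of prime order -/
theorem act {U Q : Type} [Group U] [Group Q] [Finite Q] (f : U →* Q) (a : Q)
    (ha : (orderOf a).Prime) (hn : ∀ u, f u * a * (f u)⁻¹ ∈ zpowers a) (Z : Subgroup U)
    (hz : ∀ z ∈ Z, z * z = 1) {r s : U} (hr : r * r ∈ Z) (hs : s * s ∈ Z) :
    ∃ w, (w = r ∨ w = s ∨ w = r * s) ∧ ∃ z ∈ Z, Commute a (f (w * z)) := by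
  have hN : ∀ u, f u ∈ normalizer ((zpowers a : Subgroup Q) : Set Q) := fun u =>
    mem_normalizer_fintype (by
      rintro _ ⟨n, rfl⟩
      have := zpow_mem (hn u) n
      rwa [conj_zpow] at this)
  have : Fact (Nat.card (zpowers a)).Prime := ⟨by rwa [Nat.card_zpowers]⟩
  let j : U →* MulAut (zpowers a) := (zpowers a).normalizerMonoidHom.comp (f.codRestrict _ hN)
  let e := IsCyclic.mulAutMulEquiv (zpowers a)
  obtain ⟨w, hw, z, hzZ, h⟩ := key ((Units.coeHom _).comp (e.toMonoidHom.comp j)) Z hz hr hs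
  refine ⟨w, hw, z, hzZ, ?_⟩
  have h1 : e (j (w * z)) = 1 := Units.ext h
  have h2 : f.codRestrict _ hN (w * z) ∈ (zpowers a).normalizerMonoidHom.ker :=
    (map_eq_one_iff e e.injective).1 h1
  rw [normalizerMonoidHom_ker] at h2
  exact h2 a (mem_zpowers a)

theorem uex : UexStmt := by
  intro G _ _ Ω _ _ p A st sk ls Ψ d hd ga x y hxy r hr s hs c nr ns nrs hinv
  obtain ⟨la, lb, lc, -⟩ := ls x y hxy
  have : Fact p.Prime := ⟨st.pp⟩
  have := isCyclic_of_prime_card (st.card d)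
  obtain ⟨a, ha⟩ := IsCyclic.exists_generator (α := A d)
  have AM : A d ≤ Ms A Ψ := le_iSup₂_of_le (f := fun w (_ : w ∈ Ψ) => A w) d hd le_rfl
  have TM : Ts A Ψ ≤ Ms A Ψ := commutator_le.2 fun g hg k hk =>
    mul_mem (mul_mem (mul_mem hg hk) (inv_mem hg)) (inv_mem hk)
  have MN : Ms A Ψ ≤ normalizer (Ts A Ψ : Set G) := fun m hm => mem_normalizer_fintype fun t ht => by
    have := (Ts A Ψ).mul_mem (commutator_mem_commutator hm (TM ht)) ht
    simpa [commutatorElement_def] using this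
  let U : Subgroup G := Rl A x y ⊓ centralizer {r}
  have mU : ∀ u ∈ U, r * u = u * r := fun u hu => (mem_centralizer_singleton_iff.1 hu.2).symm
  have nU : ∀ u ∈ U, _ := fun u hu => sk.nrm Ψ u (hinv u hu.1 (mU u hu))
  have UN : U ≤ normalizer (Ts A Ψ : Set G) := fun u hu => mem_normalizer_fintype (nU u hu).2.1
  let π := QuotientGroup.mk' ((Ts A Ψ).subgroupOf (normalizer (Ts A Ψ : Set G)))
  have kπ : ∀ n, π n = 1 ↔ (n : G) ∈ Ts A Ψ := fun n => QuotientGroup.eq_one_iff n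
  let ι : A d →* normalizer (Ts A Ψ : Set G) := inclusion (AM.trans MN)
  have zA : ∀ b : A d, π (ι b) ∈ zpowers (π (ι a)) := fun b => by
    obtain ⟨n, rfl⟩ := ha b
    rw [map_zpow, map_zpow]
    exact zpow_mem (mem_zpowers _) n
  have rU : r ∈ U := ⟨hr, mem_centralizer_singleton_iff.2 rfl⟩
  have sU : s ∈ U := ⟨hs, mem_centralizer_singleton_iff.2 c.symm⟩
  have fin : ∀ u : U, Commute (π (ι a)) (π (inclusion UN u)) → ∀ b ∈ A d, ⁅(u : G), b⁆ ∈ Ts A Ψ := by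
    intro u h b hb
    obtain ⟨n, hn⟩ := zA ⟨b, hb⟩
    refine (kπ ⁅inclusion UN u, ι ⟨b, hb⟩⁆).1 ?_
    rw [map_commutatorElement, commutatorElement_eq_one_iff_commute, ← hn]
    exact (h.zpow_left n).symm
  by_cases h1 : π (ι a) = 1
  · exact ⟨r, hr, nr, rfl, fin ⟨r, rU⟩ (h1 ▸ Commute.one_left _)⟩
  have ho : orderOf (π (ι a)) = p := orderOf_eq_prime (by
    rw [← map_pow, ← map_pow, ← st.card d, pow_card_eq_one', map_one, map_one]) h1
  obtain ⟨w, hw, z, hz, h⟩ := act (π.comp (inclusion UN)) (π (ι a)) (ho ▸ st.pp) (fun u => by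
      obtain ⟨t, ht, b, hb, e⟩ := ga.dec _ ((nU u u.2).1 a (AM a.2))
      have e' : inclusion UN u * ι a * (inclusion UN u)⁻¹ = ⟨t, MN (TM ht)⟩ * ι ⟨b, hb⟩ :=
        Subtype.ext e
      rw [MonoidHom.comp_apply, ← map_inv, ← map_mul, ← map_mul, e', map_mul,
        (kπ ⟨t, MN (TM ht)⟩).2 ht, one_mul]
      exact zA _)
    ((Zl A x y).subgroupOf U) (fun z hz => Subtype.ext (lc.zsq z hz))
    (r := ⟨r, rU⟩) (s := ⟨s, sU⟩) (lb.sq r hr) (lb.sq s hs)
  refine ⟨(w * z : U), (w * z).2.1, fun hm => ?_, mU _ (w * z).2, fin _ h⟩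
  have hw' : (w : G) ∈ Zl A x y := (mul_mem_cancel_right (show (z : G) ∈ Zl A x y from hz)).1 hm
  rcases hw with rfl | rfl | rfl
  exacts [nr hw', ns hw', nrs hw']

end Cfsg.Agent.H90.CyUex
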