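import Cfsg.Agent.H50.E72Defs

/-! E72-FROB: the Frobenius map permutes the simultaneous eigenspaces. -/

set_option autoImplicit false

namespace Cfsg.Agent.H90.E72Frob

open Cfsg.Agent.H50.E72 Module
open scoped Matrix

theorem act_frob {n : Type} [Fintype n] [DecidableEq n] (π : G0 →* Matrix n n (ZMod 2)) (g : G0)
    (v : n → K) : act π g (fun i => frobeniusEquiv K 2 (v i)) =
      fun i => frobeniusEquiv K 2 (act π g v i) := by
  funext i
  have e : (frobeniusEquiv K 2 : K →+* K).comp (algebraMap (ZMod 2) K) = algebraMap (ZMod 2) K :=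
    Subsingleton.elim _ _
  rw [act_apply, act_apply]
  have := RingHom.map_mulVec (frobeniusEquiv K 2 : K →+* K)
    ((π g).map (algebraMap (ZMod 2) K)) v i
  rw [Matrix.map_map, ← RingHom.coe_comp, e] at this
  exact this.symm

theorem frob : FrobStmt := by
  intro n _ _ π I x η
  let j : (n → K) ≃+ (n → K) := AddEquiv.piCongrRight fun _ => (frobeniusEquiv K 2).toAddEquiv
  have hj : ∀ (r : K) v, j (r • v) = frobeniusEquiv K 2 r • j v := fun r v =>
    funext fun i => map_mul (frobeniusEquiv K 2) r (v i)
  have k : ∀ v, v ∈ (⨅ i, eig π (x i) (η i) : Submodule K _) ↔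
      j v ∈ (⨅ i, eig π (x i) (η i ^ 2) : Submodule K _) := fun v => by
    simp only [Submodule.mem_iInf, mem_eig]
    refine forall_congr' fun i => ?_
    have h1 : act π (x i) (j v) = j (act π (x i) v) := act_frob π (x i) v
    have h2 : η i ^ 2 • j v = j (η i • v) := (hj _ _).symm
    rw [h1, h2, j.injective.eq_iff]
  let j' : (⨅ i, eig π (x i) (η i) : Submodule K _) ≃+
      (⨅ i, eig π (x i) (η i ^ 2) : Submodule K _) :=
    { j.toEquiv.subtypeEquiv k with map_add' := fun a b => Subtype.ext (j.map_add a.1 b.1) }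
  exact congrArg Cardinal.toNat (rank_eq_of_equiv_equiv (frobeniusEquiv K 2) j'
    (frobeniusEquiv K 2).bijective fun r m => Subtype.ext (hj r m.1))

end Cfsg.Agent.H90.E72Frob
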