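import Cfsg.Agent.H99.E72Defs

/-! E72-P5A: relations between three words in the root elements of `E₇(2)`. -/

set_option autoImplicit false

namespace Cfsg.Agent.H90.E72P5a

open Cfsg.Agent.H99.E72

/-- the vector with the given bits -/
def dec (n : ℕ) : V := fun a => if n.testBit a then 1 else 0

/-- collect the bits of `n` at the listed places -/
def mk (n : ℕ) : List ℕ → ℕ
  | [] => 0
  | b :: l => Nat.bit (decide (b < 56) && n.testBit b) (mk n l)

/-- a root element on codes -/
def ev (k n : ℕ) : ℕ := n ^^^ mk n (srcT.getD k [])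

/-- a word on codes -/
def evw (w : List ℕ) (n : ℕ) : ℕ := w.foldr ev n

/-- a power of a word -/
def rep (i : ℕ) (w : List ℕ) : List ℕ := (List.replicate i w).flatten

theorem mk_bit (n : ℕ) (l : List ℕ) (a : ℕ) :
    (mk n l).testBit a = (decide (l.getD a 56 < 56) && n.testBit (l.getD a 56)) := by
  induction l generalizing a with
  | nil => simp [mk]
  | cons b l ih =>
    cases a with
    | zero => rw [mk, Nat.testBit_bit_zero]; rfl
    | succ a => rw [mk, Nat.testBit_bit_succ, ih]; rfl

theorem dec_ev (k n : ℕ) : dec (ev k n) = (1 + En k) (dec n) := by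
  funext a
  rw [LinearMap.add_apply, Module.End.one_apply, Pi.add_apply, En_apply]
  simp only [dec, ev, Nat.testBit_xor, mk_bit]
  change (if (n.testBit a ^^ (decide (src k a < 56) && n.testBit (src k a))) = true then _ else _) = _
  by_cases h : src k a < 56
  · have e : ∀ p q : Bool, (if (p ^^ q) = true then (1 : ZMod 2) else 0) =
        (if p = true then 1 else 0) + if q = true then 1 else 0 := by decide
    rw [dif_pos h, decide_eq_true h, Bool.true_and]
    exact e _ _
  · rw [dif_neg h, decide_eq_false h]
    cases n.testBit a <;> simp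

theorem dec_evw (w : List ℕ) (n : ℕ) : dec (evw w n) = wd w (dec n) := by
  induction w with
  | nil => rfl
  | cons k w ih =>
    rw [evw, List.foldr_cons, dec_ev, wd, List.map_cons, List.prod_cons, Module.End.mul_apply]
    exact congrArg _ ih

theorem wd_append (w w' : List ℕ) : wd (w ++ w') = wd w * wd w' := by
  rw [wd, List.map_append, List.prod_append]; rfl

theorem wd_rep (i : ℕ) (w : List ℕ) : wd (rep i w) = wd w ^ i := by
  induction i with
  | zero => rfl
  | succ i ih => rw [rep, List.replicate_succ, List.flatten_cons, wd_append, pow_succ', ← ih]; rfl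

theorem dec_pow (b : Fin 56) : dec (2 ^ (b : ℕ)) = Pi.single b 1 := by
  funext a
  simp only [dec, Nat.testBit_two_pow, decide_eq_true_eq, Pi.single_apply, Fin.val_inj]
  simp only [eq_comm]

theorem wd_eq {w w' : List ℕ}
    (h : ((List.range 56).all fun b => evw w (2 ^ b) == evw w' (2 ^ b)) = true) : wd w = wd w' := by
  refine (Pi.basisFun (ZMod 2) (Fin 56)).ext fun b => ?_
  rw [Pi.basisFun_apply, ← dec_pow, ← dec_evw, ← dec_evw,
    beq_iff_eq.1 (List.all_eq_true.1 h b (List.mem_range.2 b.2))]

theorem dec_inj {n m : ℕ} (h : dec n = dec m) :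
    ((List.range 56).all fun a => n.testBit a == m.testBit a) = true :=
  List.all_eq_true.2 fun a ha => by
    have := congrFun h ⟨a, List.mem_range.1 ha⟩
    simp only [dec] at this
    revert this
    cases n.testBit a <;> cases m.testBit a <;> decide

theorem p5a : P5aStmt := by
  refine ⟨⟨?_, ?_, ?_, fun i hi j hj e => ?_⟩, ?_, ?_⟩
  · rw [← wd_rep]; exact wd_eq (w' := []) (by decide +kernel)
  · rw [← wd_rep]; exact wd_eq (w' := []) (by decide +kernel)
  · rw [← wd_append, ← wd_append]; exact wd_eq (by decide +kernel)
  · have k : ∀ i < 5, ∀ j < 5, ((List.range 56).all fun a =>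
        (evw (rep i wx ++ rep j wy) 19).testBit a == (19 : ℕ).testBit a) = true →
        i = 0 ∧ j = 0 := by decide +kernel
    refine k i hi j hj (dec_inj ?_)
    rw [dec_evw, wd_append, wd_rep, wd_rep, e, Module.End.one_apply]
  · rw [← wd_append, ← wd_append]; exact wd_eq (by decide +kernel)
  · rw [← wd_rep, ← wd_append, ← wd_append]; exact wd_eq (by decide +kernel)

end Cfsg.Agent.H90.E72P5a
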