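import Cfsg.Agent.H6.E82Defs

/-! Project E82, piece ZZ: the number of trivial composition factors of a module of `SL₂(64)`. -/

set_option autoImplicit false

namespace Cfsg.Agent.H90.E82Zz

open Cfsg.Agent.H6.E82 Module Finset H82 H50.SL2S

theorem se63 (m : ℕ → ℕ) : SE m 63 0 = m 0 + 2 * m 63 := by
  have h : ∀ r < 64, EE 63 r 0 = (if r = 0 then 1 else 0) + if r = 63 then 2 else 0 := by
    decide +kernel
  rw [SE, sum_congr rfl fun r hr => by rw [h r (mem_range.1 hr)]]
  simp only [mul_add, mul_ite, mul_zero, sum_add_distrib, sum_ite_eq', mem_range]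
  norm_num [mul_comm]

theorem eps_eq (r : ℕ) : eps r = 2 * (if r = 63 then 1 else 0) + pw fun s => if r = s then 1 else 0 := by
  by_cases h : r < 64
  · revert r
    decide +kernel
  · have e : ∀ s < 64, r ≠ s := fun s hs => by omega
    simp [eps, pw, e]

theorem sum_eps (L : List ℕ) : (L.map eps).sum = 2 * L.count 63 + pw fun r => L.count r := by
  induction L with
  | nil => rfl
  | cons r L ih =>
    rw [List.map_cons, List.sum_cons, ih, eps_eq]
    simp only [pw, List.count_cons, beq_iff_eq]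
    omega

theorem zz (par : ParStmt) (mult : MultStmt) (ser : SerStmt) (z1 : Z1Stmt) : ZzStmt := by
  intro p W _ _ _ ρ U L hS
  have hI := ((ser p W ρ).2.1 U L hS).1
  have h1 := (mult p W ρ U L hS).1.2 0 (by norm_num)
  have h2 := z1 p W ρ U L hS
  rw [se63, pow_zero, dm] at h1
  rw [sum_eps] at h2
  set T : Submodule K W := U ⊓ Module.End.eigenspace (ρ (t0 p)) 1 with hT
  let Θ : W →ₗ[K] (SL → W) := LinearMap.pi fun g => ρ g - 1
  have hΘ : ∀ v g, Θ v g = ρ g v - v := fun _ _ => rfl
  have h3 := (Θ ∘ₗ T.subtype).finrank_range_add_finrank_ker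
  have h4 : finrank K (LinearMap.range (Θ ∘ₗ T.subtype)) ≤ finrank K (Zc ρ U) := by
    refine Submodule.finrank_mono ?_
    rintro _ ⟨⟨v, hv, ht⟩, rfl⟩
    have ht' : ρ (t0 p) v = v := (Module.End.mem_eigenspace_iff.1 ht).trans (one_smul _ _)
    refine ⟨fun g => U.sub_mem (hI g v hv) hv, fun g h => ?_, fun s hs => ?_⟩
    · show ρ (g * h) v - v = ρ g v - v + ρ g (ρ h v - v)
      rw [map_mul, map_sub, Module.End.mul_apply]
      abel
    · obtain ⟨k, e⟩ := (par.2 p).2.2.2.2 s hs
      show ρ (hh s hs) v - v = 0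
      rw [e, map_pow, Module.End.pow_apply, Function.iterate_fixed ht', sub_self]
  have h5 : finrank K (LinearMap.ker (Θ ∘ₗ T.subtype)) ≤
      finrank K (U ⊓ Fx ρ Set.univ : Submodule K W) := by
    rw [← Submodule.finrank_map_subtype_eq]
    refine Submodule.finrank_mono ?_
    rintro _ ⟨⟨v, hv, ht⟩, h0, rfl⟩
    exact ⟨hv, fun g _ => sub_eq_zero.1 (congrFun h0 g)⟩
  omega

end Cfsg.Agent.H90.E82Zz
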