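import Cfsg.Agent.H50.E83Mu

/-! Involutions and four-groups with trace `-8` are toral with the standard labels. -/

set_option autoImplicit false
set_option maxRecDepth 20000

namespace Cfsg.Agent.H90.E83Tor2

open Equiv Cfsg.Lie H37 H40 H34 H29 Module Cfsg.Agent.H50.E83

theorem tau_conj (m : MuStmt) (g t : GK) : tau (g * t * g⁻¹) = tau t := by
  have h : IsConj t (g * t * g⁻¹) := isConj_iff.2 ⟨g, rfl⟩
  rw [tau, tau, m.1 _ _ _ h, m.1 _ _ _ h]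

theorem z0_of (m : MuStmt) {t : GK} {f : Rt → ℤ} (hf : Lab C8 (-1) t f) (h : tau t = -8) :
    z0 2 f = 112 := by
  have := m.2.2.2.1 t f hf
  omega

theorem sq_conj {G : Type*} [Group G] {t : G} (h : t * t = 1) (g : G) :
    (g * t * g⁻¹) ^ 2 = 1 := by
  rw [conj_pow, sq, h, mul_one, mul_inv_cancel]

theorem add1 : IsAdd C8.R f1 := isAdd_vN C8 _

theorem add2 : IsAdd C8.R f2 := isAdd_vN C8 _

theorem inv0 (m : MuStmt) (t1 : T1Stmt) (nf1 : Nf1Stmt) : Inv0Stmt := fun t h2 ht => by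
  obtain ⟨g, -, hN, hp⟩ := t1 Empty (fun i => i.elim) (fun i => i.elim) (fun i => i.elim) t h2
    fun i => i.elim
  have hH : g * t * g⁻¹ ∈ P8.H := Split.mem_H_of hN (C8.S.eq_one_of_pos (P8.ν_mem _ hN) fun j =>
    hp _ (fun i => i.elim) (C8.S.pos_α j))
  obtain ⟨f, hf⟩ := exists_lab prim2 two_ne_zero hH (sq_conj h2 g)
  obtain ⟨u, hu, e⟩ := nf1 f hf.1 (z0_of m hf ((tau_conj m g t).trans ht))
  obtain ⟨n, hn, rfl⟩ := P8.exists_lift hu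
  refine ⟨n⁻¹ * g, ?_⟩
  rw [show n⁻¹ * g * t * (n⁻¹ * g)⁻¹ = n⁻¹ * (g * t * g⁻¹) * n by group]
  exact (hf.conj hn).congr prim2 add1 fun r => (e r).symm

theorem tor2 (m : MuStmt) (t1 : T1Stmt) (nf1 : Nf1Stmt) (nf2 : Nf2Stmt) (s2 : S2wStmt) :
    Tor2Stmt := fun s t hs ht hc e1 e2 e3 => by
  obtain ⟨g, hg⟩ := inv0 m t1 nf1 s hs e1
  obtain ⟨k, hk, hN, hp⟩ := t1 Unit (fun _ => g * s * g⁻¹) (fun _ => f1) (fun _ => hg)
    (g * t * g⁻¹) (by rw [← sq, sq_conj ht]) fun _ => hc.conj g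
  have hk : k * (g * s * g⁻¹) * k⁻¹ = g * s * g⁻¹ := by
    rw [← (hk ()).eq, mul_inv_cancel_right]
  have c1 : Commute (g * s * g⁻¹) (k * (g * t * g⁻¹) * k⁻¹) := by
    have := (hc.conj g).conj k
    rwa [hk] at this
  have hH : k * (g * t * g⁻¹) * k⁻¹ ∈ P8.H := Split.mem_H_of hN (s2 _ (P8.ν_mem _ hN)
    (hg.rel_N prim2 hN (by rwa [← c1.eq, mul_inv_cancel_right])) fun r hr => hp r fun _ => hr)
  obtain ⟨f, hf⟩ := exists_lab prim2 two_ne_zero hH (sq_conj (by rw [← sq, sq_conj ht]) k)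
  obtain ⟨u, hu, a1, a2⟩ := nf2 f hf.1
    (z0_of m hf (by rw [tau_conj m, tau_conj m, e2])) (z0_of m (hg.mul hf) (by
      rw [← hk, conj_mul, conj_mul, tau_conj m, tau_conj m, e3]))
  obtain ⟨n, hn, rfl⟩ := P8.exists_lift hu
  refine ⟨n⁻¹ * k * g, ?_, ?_⟩
  · rw [show n⁻¹ * k * g * s * (n⁻¹ * k * g)⁻¹ = n⁻¹ * (k * (g * s * g⁻¹) * k⁻¹) * n by group, hk]
    exact (hg.conj hn).congr prim2 add1 fun r => (a1 r).symm
  · rw [show n⁻¹ * k * g * t * (n⁻¹ * k * g)⁻¹ = n⁻¹ * (k * (g * t * g⁻¹) * k⁻¹) * n by group]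
    exact (hf.conj hn).congr prim2 add2 fun r => (a2 r).symm

end Cfsg.Agent.H90.E83Tor2
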