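import Cfsg.Agent.H11.ElDefs
import Cfsg.Agent.H28.PSL2Small
import Cfsg.Agent.H62.Suborbit

/-! EL-LA: the twelve subgroups of order 11 of `L₂(11)`. -/

set_option autoImplicit false
open Subgroup
open scoped Pointwise

namespace Cfsg.Agent.H90.ElLA

open Cfsg.Agent.H11.EL

universe u

variable {G : Type u} [Group G] [Finite G] {X A B : Subgroup G}

theorem f11 : Fact (Nat.Prime 11) := ⟨by norm_num⟩

attribute [local instance] f11

omit [Finite G] in
theorem card_sub (h : A ≤ X) : Nat.card (A.subgroupOf X) = Nat.card A :=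
  Nat.card_congr (subgroupOfEquivOfLe h).toEquiv

theorem zp (hA : Nat.card A = 11) {a : G} (ha : a ∈ A) (h1 : a ≠ 1) : zpowers a = A := by
  refine eq_of_le_of_card_ge (zpowers_le.2 ha) ?_
  rw [Nat.card_zpowers, hA]
  rcases (Nat.dvd_prime f11.out).1 (hA ▸ orderOf_dvd_natCard A ha) with e | e
  · exact absurd (orderOf_eq_one_iff.1 e) h1
  · exact e.ge

omit [Finite G] in
theorem syl (hX : Nat.card X ∣ 660) (hA : A ∈ Pts X) :
    ∃ P : Sylow 11 X, (P : Subgroup X) = A.subgroupOf X ∧ P.index ∣ 60 := by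
  have c : Nat.card (A.subgroupOf X) = 11 ^ 1 := (card_sub hA.1).trans hA.2
  have d : (A.subgroupOf X).index ∣ 60 := by
    rw [← (A.subgroupOf X).card_mul_index, c] at hX
    exact Nat.dvd_of_mul_dvd_mul_left (by norm_num) (show 11 * _ ∣ 11 * 60 from hX)
  exact ⟨(IsPGroup.of_card c).toSylow fun k => absurd (k.trans d) (by norm_num), rfl, d⟩

theorem ncard_pts (hX : Nat.card X ∣ 660) (hA : A ∈ Pts X) :
    (Pts X).ncard = Nat.card (Sylow 11 X) := by
  obtain ⟨P, hP, -⟩ := syl hX hA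
  have : Pts X = Set.range fun Q : Sylow 11 X => (Q : Subgroup X).map X.subtype := by
    ext E
    constructor
    · intro hE
      obtain ⟨Q, hQ, -⟩ := syl hX hE
      exact ⟨Q, by simp only [hQ]; exact map_subgroupOf_eq_of_le hE.1⟩
    · rintro ⟨Q, rfl⟩
      refine ⟨map_subtype_le _, ?_⟩
      rw [card_map_of_injective X.subtype_injective, Q.card_eq_multiplicity,
        ← P.card_eq_multiplicity, hP, card_sub hA.1, hA.2]
  rw [this, ← Nat.card_coe_set_eq]
  exact Nat.card_range_of_injective fun Q R e =>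
    Sylow.ext (map_injective X.subtype_injective e)

theorem orbit (hX : Nat.card X ∣ 660) (hA : A ∈ Pts X) :
    Nat.card (X ⊓ Nm A : Subgroup G) * (Pts X).ncard = Nat.card X := by
  obtain ⟨P, hP, -⟩ := syl hX hA
  rw [ncard_pts hX hA, P.card_eq_index_normalizer, ← Sylow.coe_coe, hP,
    ← subgroupOf_normalizer_eq hA.1, ← card_sub (inf_le_left : X ⊓ Nm A ≤ X), inf_subgroupOf_left,
    card_mul_index]

theorem nsyl (hX : Nat.card X ∣ 660) (hA : A ∈ Pts X) (h1 : (Pts X).ncard ≠ 1) :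
    (Pts X).ncard = 12 := by
  obtain ⟨P, -, d⟩ := syl hX hA
  rw [ncard_pts hX hA] at h1 ⊢
  have h2 := P.card_dvd_index.trans d
  have h3 : Nat.card (Sylow 11 X) % 11 = 1 := card_sylow_modEq_one 11 X
  have h4 := Nat.le_of_dvd (by norm_num) h2
  generalize Nat.card (Sylow 11 X) = n at *
  interval_cases n <;> omega

theorem semi (hX : Nat.card X ∣ 660) (hA : A ∈ Pts X) (hB : B ∈ Pts X) {a : G} (ha : a ∈ A)
    (h1 : a ≠ 1) (hn : a ∈ Nm B) : B = A := by
  obtain ⟨P, hP, -⟩ := syl hX hA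
  obtain ⟨Q, hQ, -⟩ := syl hX hB
  have k := P.2.inf_normalizer_sylow Q
  have m : (⟨a, hA.1 ha⟩ : X) ∈ P.1 ⊓ normalizer (Q : Set X) := by
    refine ⟨hP ▸ ha, ?_⟩
    rw [← Sylow.coe_coe, hQ, ← subgroupOf_normalizer_eq hB.1]
    exact hn
  rw [k, hQ] at m
  rw [← zp hA.2 ha h1, ← zp hB.2 (a := a) m.2 h1]

theorem tr (hX : Nat.card X ∣ 660) (hA : A ∈ Pts X) (hB : B ∈ Pts X) : ∃ g ∈ X, cj g A = B := by
  obtain ⟨P, hP, -⟩ := syl hX hA
  obtain ⟨Q, hQ, -⟩ := syl hX hB
  obtain ⟨g, e⟩ := MulAction.exists_smul_eq X P Q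
  refine ⟨g, g.2, eq_of_le_of_card_ge ?_ (by rw [card_cj, hA.2, hB.2])⟩
  rintro _ ⟨a, ha, rfl⟩
  have : MulAut.conj g • (⟨a, hA.1 ha⟩ : X) ∈ MulAut.conj g • (P : Subgroup X) :=
    smul_mem_pointwise_smul _ _ _ (hP ▸ ha)
  rw [← Sylow.coe_subgroup_smul, e, hQ] at this
  exact this

omit [Finite G] in
theorem cj_pts (hA : A ∈ Pts X) {g : G} (hg : g ∈ Nm X) : cj g A ∈ Pts X :=
  ⟨(map_mono hA.1).trans (cj_eq_iff.2 hg).le, (card_cj g A).trans hA.2⟩

theorem la_of (c : Nat.card X = 660) (s : IsSimpleGroup X) : LA X := by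
  have hX : Nat.card X ∣ 660 := c.dvd
  have nn : ∀ N : Subgroup X, N.Normal → Nat.card N = 1 ∨ Nat.card N = 660 := fun N hN => by
    rcases hN.eq_bot_or_eq_top with rfl | rfl
    · exact Or.inl card_bot
    · exact Or.inr (card_top.trans c)
  obtain ⟨A0, h0⟩ : ∃ A, A ∈ Pts X := by
    obtain ⟨x, hx⟩ := exists_prime_orderOf_dvd_card' (G := X) 11 (by rw [c]; norm_num)
    exact ⟨zpowers (x : G), zpowers_le.2 x.2, by rw [Nat.card_zpowers, orderOf_coe, hx]⟩
  have np : (Pts X).ncard = 12 := nsyl hX h0 fun e => by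
    have := orbit hX h0
    rw [e, mul_one] at this
    have h2 : X ≤ Nm A0 := inf_eq_left.1 (eq_of_le_of_card_ge inf_le_left this.ge)
    have := nn _ ((normal_subgroupOf_iff_le_normalizer h0.1).2 h2)
    rw [card_sub h0.1, h0.2] at this
    omega
  have cN : ∀ A ∈ Pts X, Nat.card (X ⊓ Nm A : Subgroup G) = 55 := fun A hA => by
    have := orbit hX hA
    rw [np] at this
    omega
  obtain ⟨B0, b0, b1⟩ : ∃ B ∈ Pts X, B ≠ A0 := Set.exists_ne_of_one_lt_ncard (by omega) A0
  have cent : ∀ A ∈ Pts X, ∀ g ∈ X, g ∈ Ct A → g ∈ A := fun A hA g hg hc => by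
    obtain ⟨P, hP, -⟩ := syl hX hA
    have cP : Nat.card P = 11 := by
      have := (card_sub hA.1).trans hA.2
      rwa [← hP] at this
    have n55 : Nat.card (normalizer (P : Set X)) = 55 := by
      have := (normalizer (P : Set X)).card_mul_index
      rw [← P.card_eq_index_normalizer, ← ncard_pts hX hA, np, c] at this
      omega
    have := isCyclic_of_prime_card cP
    have l1 : (P : Subgroup X) ≤ centralizer (P : Set X) := le_centralizer (P : Subgroup X)
    have l2 : centralizer (P : Set X) ≤ normalizer (P : Set X) := centralizer_le_normalizer _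
    have d1 := card_dvd_of_le l1
    have d2 := card_dvd_of_le l2
    rw [n55] at d2
    have h11 : Nat.card (centralizer (P : Set X)) = 11 ∨ Nat.card (centralizer (P : Set X)) = 55 := by
      rw [show Nat.card (P : Subgroup X) = 11 from cP] at d1
      have := Nat.le_of_dvd (by norm_num) d2
      generalize Nat.card (centralizer (P : Set X)) = n at *
      interval_cases n <;> omega
    rcases h11 with e | e
    · have m : (⟨g, hg⟩ : X) ∈ centralizer (P : Set X) := fun y hy =>
        Subtype.ext (hc y (by rw [← Sylow.coe_coe, hP] at hy; exact hy))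
      rw [← eq_of_le_of_card_ge l1 (e.trans cP.symm).le, hP] at m
      exact m
    · have l3 := (eq_of_le_of_card_ge l2 (n55.trans e.symm).le).ge
      have k := (MonoidHom.ker_transferSylow_isComplement' P l3).card_mul_card
      have := nn _ (MonoidHom.normal_ker (MonoidHom.transferSylow P l3))
      rw [show Nat.card (P : Subgroup X) = 11 from cP, c] at k
      omega
  refine ⟨c, s, np, cent, cN, fun A hA B hB B' hB' n1 n2 => ?_, fun A hA B hB n => ?_,
    fun A hA B hB => tr hX hA hB, fun g hg hc => ?_, fun g hg hf => ?_⟩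
  · let f : A → ↥(Pts X \ {A}) := fun a => ⟨cj a B, cj_pts hB (le_normalizer (hA.1 a.2)), fun e =>
      n1 (by rw [← cj_one B, ← inv_mul_cancel (a : G), cj_mul, Set.mem_singleton_iff.1 e]
             exact cj_eq_iff.2 (le_normalizer (inv_mem a.2)))⟩
    have fi : Function.Injective f := fun a b e => by
      have e : cj (a : G) B = cj (b : G) B := congrArg Subtype.val e
      by_contra hab
      refine n1 (semi hX hA hB (mul_mem (inv_mem a.2) b.2)
        (fun k => hab (Subtype.ext (inv_mul_eq_one.1 k))) (cj_eq_iff.1 ?_))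
      rw [cj_mul, ← e, ← cj_mul, inv_mul_cancel, cj_one]
    have fb := fi.bijective_of_nat_card_le (by
      rw [Nat.card_coe_set_eq, Set.ncard_sdiff_singleton_of_mem hA, np, hA.2])
    obtain ⟨a, ha⟩ := fb.2 ⟨B', hB', n2⟩
    refine ⟨a, ⟨a.2, congrArg Subtype.val ha⟩, fun b hb => ?_⟩
    exact congrArg Subtype.val (fi (a₁ := ⟨b, hb.1⟩) ((Subtype.ext hb.2).trans ha.symm))
  · have le : A ⊔ B ≤ X := sup_le hA.1 hB.1
    have d : Nat.card (A ⊔ B : Subgroup G) ∣ 660 := c ▸ card_dvd_of_le le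
    have a1 : A ∈ Pts (A ⊔ B) := ⟨le_sup_left, hA.2⟩
    have b1 : B ∈ Pts (A ⊔ B) := ⟨le_sup_right, hB.2⟩
    have n12 := nsyl d a1 fun e => by
      obtain ⟨E, hE⟩ := Set.ncard_eq_one.1 e
      rw [hE] at a1 b1
      exact n (a1.trans b1.symm)
    have o := orbit d a1
    have d2 := card_dvd_of_le (le_inf le_sup_left le_normalizer : A ≤ (A ⊔ B) ⊓ Nm A)
    rw [hA.2] at d2
    obtain ⟨m, hm⟩ := d2
    rw [n12, hm] at o
    have i := ((A ⊔ B).subgroupOf X).card_mul_index
    rw [card_sub le, c, ← o] at i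
    have h5 : ((A ⊔ B).subgroupOf X).index ∣ 5 := ⟨m, by rw [mul_comm]; linarith⟩
    rcases (Nat.dvd_prime (by norm_num)).1 h5 with e | e
    · exact le_antisymm le (subgroupOf_eq_top.1 (index_eq_one.1 e))
    · have k := H62.normalCore_index_dvd_factorial ((A ⊔ B).subgroupOf X)
      rcases ((A ⊔ B).subgroupOf X).normalCore_normal.eq_bot_or_eq_top with r | r
      · rw [r, index_bot, c, e] at k
        exact absurd k (by decide)
      · exact le_antisymm le (subgroupOf_eq_top.1 (top_le_iff.1 (r ▸ normalCore_le _)))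
  · by_contra h1
    exact b1 (semi hX h0 b0 (cent _ h0 g hg (centralizer_le h0.1 hc)) h1
      (le_normalizer (cent _ b0 g hg (centralizer_le b0.1 hc))))
  · have hK : ((⨅ A ∈ Pts X, Nm A).subgroupOf X).Normal := ⟨fun k hk l => by
      simp only [mem_subgroupOf, mem_iInf, ← cj_eq_iff] at hk ⊢
      intro A hA
      rw [coe_mul, coe_mul, cj_mul, cj_mul, hk _ (cj_pts hA (le_normalizer (l⁻¹).2)), ← cj_mul,
        ← coe_mul, mul_inv_cancel, coe_one, cj_one]⟩
    rcases hK.eq_bot_or_eq_top with r | r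
    · intro l hl
      have m : l⁻¹ * (g * l * g⁻¹) ∈ X := mul_mem (inv_mem hl) ((mem_normalizer_iff.1 hg l).1 hl)
      have : (⟨_, m⟩ : X) ∈ (⨅ A ∈ Pts X, Nm A).subgroupOf X := by
        simp only [mem_subgroupOf, mem_iInf, ← cj_eq_iff]
        intro A hA
        rw [cj_mul, cj_mul, cj_mul, cj_eq_iff.2 (inv_mem (hf A hA)),
          cj_eq_iff.2 (hf _ (cj_pts hA (le_normalizer hl))), ← cj_mul, inv_mul_cancel, cj_one]
      rw [r, mem_bot, Subtype.ext_iff] at this
      exact eq_mul_inv_iff_mul_eq.1 (inv_mul_eq_one.1 this)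
    · obtain ⟨l, hl, e⟩ := tr hX h0 b0
      have := subgroupOf_eq_top.1 r hl
      simp only [mem_iInf, ← cj_eq_iff] at this
      exact absurd (e.symm.trans (this _ h0)) b1

theorem la : LAStmt.{u} := by
  intro G _ _ L ⟨e⟩
  have c : 2 * Nat.card L11 = 1320 := H28.card_PSL2 (ZMod.card 11)
  have s : IsSimpleGroup L11 := Matrix.ProjectiveSpecialLinearGroup.rank_two_simple (by simp)
  exact la_of (by rw [Nat.card_congr e.toEquiv]; omega) e.isSimpleGroup

end Cfsg.Agent.H90.ElLA
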