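import Cfsg.Agent.H73.GagDefs
import Cfsg.Agent.H83.Cores
import Cfsg.Agent.H27.EndKit
import Cfsg.Agent.H11.GroupUtil
import Cfsg.Agent.S2117

/-! Project GAG, piece G7A: two commuting conjugates of `A_t` give a section `SL₂(2^a)`. -/

set_option autoImplicit false
set_option linter.unusedSectionVars false

namespace Cfsg.Agent.H90.G7A

open Subgroup Cfsg Cfsg.Agent.H73.Gag
open Cfsg.Agent.H83 (pCoreOf_le pCoreOf_isPGroup le_norm_pCoreOf le_pCoreOf)
open Cfsg.Agent.H27.End (mem_N_of_conj conj_mem mem_C comm_of_C comm_mem_left)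
open scoped MatrixGroups commutatorElement Cfsg.Agent.H63

universe u

variable {G V : Type u} [Group G] [Finite G] [AddCommGroup V] [DistribMulAction G V]
  {N Q : Subgroup G} {t s x y w : G}

theorem ord_conj (n x : G) : orderOf (n * x * n⁻¹) = orderOf x := (MulAut.conj n).orderOf_eq x

theorem p3 (h : orderOf x = 3) : IsPGroup 3 (zpowers x) :=
  IsPGroup.of_card (n := 1) (by rw [Nat.card_zpowers, h, pow_one])

theorem conj3 (k : K0 2 G) (hx : x ∈ N) (hy : y ∈ N) (ox : orderOf x = 3) (oy : orderOf y = 3) :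
    ∃ n ∈ N, y ∈ zpowers (n * x * n⁻¹) := by
  have : Fact (Nat.Prime 3) := ⟨Nat.prime_three⟩
  obtain ⟨S, hS, hyS⟩ := H8.exists_isSylowIn_ge (p3 oy) (zpowers_le.2 hy)
  obtain ⟨n, hn, hle⟩ := hS.exists_conj_le (p3 ox) (zpowers_le.2 hx)
  have := k.cyc 3 Nat.prime_three (by norm_num) (by norm_num) S hS.isPGroup
  exact ⟨n, hn, H11.mem_zpowers_of_orderOf_dvd S (hyS (mem_zpowers y))
    (hle (H8.conj_mem_conj_smul.2 (mem_zpowers x))) (by rw [oy, ord_conj, ox])⟩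

theorem gen_mem {n : G} (hn : n ∈ N) : n * x * n⁻¹ ∈ ncl N x := subset_closure ⟨n, hn, rfl⟩

theorem self_mem : x ∈ ncl N x := by simpa using gen_mem (x := x) N.one_mem

theorem ncl_le (hx : x ∈ N) : ncl N x ≤ N := (closure_le _).2 (by
  rintro _ ⟨n, hn, rfl⟩
  exact mul_mem (mul_mem hn hx) (inv_mem hn))

theorem le_norm_ncl : N ≤ N[ncl N x] := fun m hm => mem_N_of_conj fun k hk => by
  induction hk using closure_induction with
  | mem k hk =>
    obtain ⟨n, hn, rfl⟩ := hk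
    have := gen_mem (x := x) (mul_mem hm hn)
    rwa [show m * n * x * (m * n)⁻¹ = m * (n * x * n⁻¹) * m⁻¹ by group] at this
  | one => simp
  | mul a b _ _ ha hb => rw [← conj_mul]; exact mul_mem ha hb
  | inv a _ ha => rw [← conj_inv]; exact inv_mem ha

theorem comm_mem_ncl {n : G} (hn : n ∈ N) (hw : w ∈ ncl N x) : ⁅n, w⁆ ∈ ncl N x :=
  mul_mem (conj_mem (le_norm_ncl hn) hw) (inv_mem hw)

theorem not_mem_two (hQ : IsPGroup 2 Q) (h : orderOf x = 3) : x ∉ Q := fun hx => by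
  have := H27.End.eq_one_of_is2 (H27.End.is2_of_mem hQ hx) (by rw [h]; decide)
  rw [this, orderOf_one] at h
  omega

variable (V) in
/-- `y` has order three and acts non-trivially on `A_t`. -/
structure P (t y : G) : Prop where
  ot : orderOf t = 2
  oy : orderOf y = 3
  yn : y ∈ N[AA V t]
  nc : ∃ a ∈ AA V t, ¬ Commute a y

variable (c : Ctx G V)
include c

theorem pA (ht : orderOf t = 2) : IsPGroup 2 (AA V t) := fun a =>
  ⟨1, Subtype.ext (c.ka.sq t ht a a.2)⟩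

theorem norm_of (ht : orderOf t = 2) {a n : G} (ha : a ∈ AA V t) (a1 : a ≠ 1)
    (h : n * a * n⁻¹ ∈ AA V t) : n ∈ N[AA V t] := mem_N_of_conj fun b hb => by
  rw [← c.ka.eq t ht _ h (by simpa using a1), conj_mem_AA, c.ka.eq t ht a ha a1]
  exact hb

theorem ne_top (hQ : IsPGroup 2 Q) (h : Q ≠ ⊥) : N[Q] ≠ ⊤ := fun e => by
  have := c.simple
  have hn := normalizer_eq_top_iff.1 e
  have h1 : Q ≤ pCore 2 G := le_sSup ⟨hn, hQ⟩
  rw [pCore_eq_bot_of_simple c.simple c.three] at h1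
  exact h (le_bot_iff.1 h1)

theorem A_ne (ht : orderOf t = 2) : AA V t ≠ ⊥ := fun e => by
  have := self_mem_AA (V := V) t
  rw [e, mem_bot] at this
  rw [this, orderOf_one] at ht
  omega

theorem P.cop (h : P V t y) (hx : x ∈ C[AA V t]) : ¬ 3 ∣ orderOf x := fun hd => by
  have h1 := pow_mem hx (orderOf x / 3)
  obtain ⟨n, hn, hy⟩ := conj3 c.k0 (centralizer_le_normalizer _ h1) h.yn
    (orderOf_pow_orderOf_div (orderOf_pos x).ne' hd) h.oy
  obtain ⟨a, ha, h2⟩ := h.nc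
  have h3 := conj_mem (H83.normalizer_le_normalizer_centralizer _ hn) h1
  exact h2 (comm_of_C (zpowers_le.2 h3 hy) ha).symm

theorem P.kb (h : P V t y) (hQ : IsPGroup 2 Q) (hy : y ∈ N[Q]) (hA : AA V t ≤ Q) :
    ∀ q ∈ Q, ⁅q, y⁆ ∈ AA V t := fun q hq => by
  obtain ⟨a, ha, h2⟩ := h.nc
  rw [← c.ka.eq t h.ot _ (comm_mem_left h.yn ha) (mt commutatorElement_eq_one_iff_commute.1 h2)]
  exact (c.kb y h.oy Q hQ hy a (hA ha) h2).2 (commutator_mem_commutator hq (mem_zpowers y))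

theorem P.core (fsl : FslStmt) (h : P V t y) (h1 : x ∈ ncl N[AA V t] y) (h2 : x ∈ C[AA V t]) :
    x ∈ pCoreOf 2 N[AA V t] := by
  rcases c.loc _ (ne_top c (pA c h.ot) (A_ne c h.ot)) y h.yn h.oy with
    k | ⟨F, _, _, a, k1, k2, ρ, k3, k4⟩
  · have hN := le_norm_pCoreOf (p := 2) N[AA V t]
    obtain ⟨v, hv, o, ho, rfl⟩ := (coe_mul_of_left_le_normalizer_right _ _
      ((zpowers_le.2 h.yn).trans hN)).subset (k h1)
    have hv' := hN (zpowers_le.2 h.yn hv)
    have v3 : v ^ 3 = 1 := by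
      obtain ⟨i, rfl⟩ := hv
      rw [← h.oy, ← zpow_natCast, ← zpow_mul, mul_comm, zpow_mul, zpow_natCast, pow_orderOf_eq_one,
        one_zpow]
    have h3 : (v * o) ^ 3 ∈ pCoreOf 2 N[AA V t] := by
      rw [show (v * o) ^ 3 = v * o * v⁻¹ * (v * (v * o * v⁻¹) * v⁻¹) * v ^ 3 * o by
        simp only [pow_succ, pow_zero]; group, v3, mul_one]
      exact mul_mem (mul_mem (conj_mem hv' ho) (conj_mem hv' (conj_mem hv' ho))) ho
    have h4 := ((Nat.Prime.coprime_iff_not_dvd Nat.prime_three).2 (h.cop c h2))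
    exact zpowers_le.2 h3 (mem_zpowers_pow_iff.2 h4)
  · have hs := (fsl F a k1 k2).1
    have hn : (C[AA V t].subgroupOf (ncl N[AA V t] y)).Normal := ⟨fun k hk n => mem_subgroupOf.2
      (conj_mem (H83.normalizer_le_normalizer_centralizer _ (ncl_le h.yn n.2)) (mem_subgroupOf.1 hk))⟩
    rcases hs.eq_bot_or_eq_top_of_normal _ (hn.map ρ k3) with e | e
    · have h3 : ρ ⟨x, h1⟩ ∈ (C[AA V t].subgroupOf (ncl N[AA V t] y)).map ρ := mem_map_of_mem ρ h2
      rw [e, mem_bot, ← MonoidHom.mem_ker, k4] at h3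
      exact h3
    · exfalso
      obtain ⟨k, hk, e'⟩ : ρ ⟨y, self_mem⟩ ∈ (C[AA V t].subgroupOf (ncl N[AA V t] y)).map ρ :=
        e ▸ mem_top _
      have h3 : orderOf (ρ ⟨y, self_mem⟩) ∣ 3 := by
        rw [← h.oy]; exact (orderOf_map_dvd ρ _).trans (by rw [orderOf_mk])
      rcases (Nat.dvd_prime Nat.prime_three).1 h3 with h4 | h4
      · rw [orderOf_eq_one_iff, ← MonoidHom.mem_ker, k4] at h4
        exact not_mem_two (pCoreOf_isPGroup _) h.oy h4
      · refine h.cop c (x := (k : G)) hk ?_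
        rw [← h4, ← e', orderOf_coe]
        exact orderOf_map_dvd ρ k

theorem P.step (fsl : FslStmt) (h : P V t y) (hs : orderOf s = 2)
    (hc : ∀ a ∈ AA V t, ∀ b ∈ AA V s, Commute a b) : ∀ b ∈ AA V s, ⁅b, y⁆ ∈ AA V t := by
  have hC : AA V s ≤ C[AA V t] := fun b hb => mem_C fun a ha => (hc a ha b hb).symm
  have hN : AA V s ≤ N[AA V t] := hC.trans (centralizer_le_normalizer _)
  have hO := le_norm_pCoreOf (p := 2) N[AA V t]
  have h1 : ∀ b ∈ AA V s, ⁅b, y⁆ ∈ pCoreOf 2 N[AA V t] := fun b hb =>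
    h.core c fsl (comm_mem_ncl (hN hb) self_mem)
      (comm_mem_left (H83.normalizer_le_normalizer_centralizer _ h.yn) (hC hb))
  have h2 : y ∈ N[AA V s ⊔ pCoreOf 2 N[AA V t]] := mem_N_of_conj fun z hz => by
    obtain ⟨b, hb, o, ho, rfl⟩ := (coe_mul_of_left_le_normalizer_right _ _ (hN.trans hO)).subset hz
    rw [show y * (b * o) * y⁻¹ = ⁅b, y⁆⁻¹ * b * (y * o * y⁻¹) by
      simp only [commutatorElement_def]; group]
    exact mul_mem (mul_mem (inv_mem (mem_sup_right (h1 b hb))) (mem_sup_left hb))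
      (mem_sup_right (conj_mem (hO h.yn) ho))
  exact fun b hb => h.kb c ((pA c hs).to_sup_of_normal_right' (pCoreOf_isPGroup _) (hN.trans hO)) h2
    ((le_pCoreOf le_normalizer le_rfl (pA c h.ot)).trans le_sup_right) b (mem_sup_left hb)

theorem P.not_norm (fsl : FslStmt) (h : P V t y) (h' : P V s w) (hne : AA V s ≠ AA V t)
    (hc : ∀ a ∈ AA V t, ∀ b ∈ AA V s, Commute a b) : y ∉ N[AA V s] := fun hy =>
  h'.cop c (x := y) (mem_C fun b hb => by
    by_contra h1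
    have h2 : ⁅b, y⁆ ≠ 1 := fun e => h1 (commutatorElement_eq_one_iff_commute.1 e).symm
    exact hne ((c.ka.eq s h'.ot _ (comm_mem_left hy hb) h2).symm.trans
      (c.ka.eq t h.ot _ (h.step c fsl h'.ot hc b hb) h2))) (by rw [h.oy])

theorem P.surj (fsl : FslStmt) (h : P V t y) (h' : P V s w) (hne : AA V s ≠ AA V t)
    (hc : ∀ a ∈ AA V t, ∀ b ∈ AA V s, Commute a b) (hk : Nat.card (AA V t) ≤ Nat.card (AA V s)) :
    ∀ a ∈ AA V t, ∃ b ∈ AA V s, ⁅b, y⁆ = a := by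
  let f : AA V s → AA V t := fun b => ⟨⁅b.1, y⁆, h.step c fsl h'.ot hc b b.2⟩
  have hf : Function.Injective f := fun b b' e => by
    by_contra h1
    have h2 : b'.1⁻¹ * b.1 ≠ 1 := fun e => h1 (Subtype.ext (inv_mul_eq_one.1 e).symm)
    have h3 := mul_mem (inv_mem b'.2) b.2
    refine h.not_norm c fsl h' hne hc (norm_of c h'.ot h3 h2 ?_)
    have h4 : b.1 * y * b.1⁻¹ = b'.1 * y * b'.1⁻¹ := mul_right_cancel (congrArg Subtype.val e)
    rwa [show y * (b'.1⁻¹ * b.1) * y⁻¹ = b'.1⁻¹ * (b'.1 * y * b'.1⁻¹) * b.1 * y⁻¹ by group, ← h4,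
      show b'.1⁻¹ * (b.1 * y * b.1⁻¹) * b.1 * y⁻¹ = b'.1⁻¹ * b.1 by group]
  intro a ha
  obtain ⟨b, e⟩ := (hf.bijective_of_nat_card_le hk).2 ⟨a, ha⟩
  exact ⟨b, b.2, congrArg Subtype.val e⟩

omit c in
/-- A group generated by elements of order three, with a perfect quotient by a `2`-group. -/
theorem perfect {S : Type*} [Group S] (oy : orderOf y = 3) (ρ : ncl N y →* S)
    (h1 : Function.Surjective ρ) (h2 : IsPGroup 2 ρ.ker) (h3 : commutator S = ⊤) :
    commutator (ncl N y) = ⊤ := by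
  have k1 : ∀ (k : G) (hk : k ∈ ncl N y), Abelianization.of (⟨k, hk⟩ : ncl N y) ^ 3 = 1 := by
    intro k hk
    induction hk using closure_induction with
    | mem k hk =>
      obtain ⟨n, hn, rfl⟩ := hk
      rw [← map_pow, ← map_one Abelianization.of]
      exact congrArg _ (Subtype.ext (by
        rw [← oy, ← ord_conj n y]; exact pow_orderOf_eq_one _))
    | one => exact (congrArg (· ^ 3) (map_one _)).trans (one_pow 3)
    | mul a b ha hb ia ib =>
      rw [show (⟨a * b, mul_mem ha hb⟩ : ncl N y) = ⟨a, ha⟩ * ⟨b, hb⟩ from rfl, map_mul, mul_pow, ia,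
        ib, one_mul]
    | inv a ha ia =>
      rw [show (⟨a⁻¹, inv_mem ha⟩ : ncl N y) = ⟨a, ha⟩⁻¹ from rfl, map_inv, inv_pow, ia, inv_one]
  refine eq_top_iff.2 fun k _ => ?_
  have h4 := map_commutator_eq _ ρ
  rw [MonoidHom.range_eq_top.2 h1, ← _root_.commutator_def, h3] at h4
  obtain ⟨d, hd, e⟩ := (h4 ▸ mem_top (ρ k) : ρ k ∈ (commutator _).map ρ)
  obtain ⟨m, hm⟩ := h2 ⟨d⁻¹ * k, by rw [MonoidHom.mem_ker, map_mul, map_inv, e, inv_mul_cancel]⟩
  have h5 : Abelianization.of (d⁻¹ * k) ^ 2 ^ m = 1 := by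
    rw [← map_pow, show (d⁻¹ * k) ^ 2 ^ m = 1 from congrArg Subtype.val hm, map_one]
  rw [SetLike.mem_coe] at hd
  rw [← Abelianization.ker_of, MonoidHom.mem_ker] at hd ⊢
  rw [map_mul, map_inv, hd, inv_one, one_mul] at h5
  exact H27.End.eq_one_of_is2 ⟨m, h5⟩
    ((by decide : Odd 3).of_dvd_nat (orderOf_dvd_of_pow_eq_one (k1 k k.2)))

theorem main (fsl : FslStmt) (h : P V t y) (h' : P V s w) (hne : AA V s ≠ AA V t)
    (hc : ∀ a ∈ AA V t, ∀ b ∈ AA V s, Commute a b) (hk : Nat.card (AA V t) = Nat.card (AA V s)) :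
    ∃ K : Subgroup G, Top (AA V t ⊔ AA V s) y K := by
  have hc' : ∀ a ∈ AA V s, ∀ b ∈ AA V t, Commute a b := fun a ha b hb => (hc b hb a ha).symm
  obtain ⟨B, hB⟩ : ∃ B, B = AA V t ⊔ AA V s := ⟨_, rfl⟩
  have tB : AA V t ≤ B := hB ▸ le_sup_left
  have sB : AA V s ≤ B := hB ▸ le_sup_right
  have hN : AA V t ≤ N[AA V s] := fun a ha => centralizer_le_normalizer _ (mem_C (hc a ha))
  have pB : IsPGroup 2 B := hB ▸ (pA c h.ot).to_sup_of_normal_right' (pA c h'.ot) hN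
  have dec : ∀ z ∈ B, ∃ a ∈ AA V t, ∃ b ∈ AA V s, a * b = z := fun z hz =>
    (coe_mul_of_left_le_normalizer_right _ _ hN).subset (hB ▸ hz)
  have yN : y ∈ N[B] := mem_N_of_conj fun z hz => by
    obtain ⟨a, ha, b, hb, rfl⟩ := dec z hz
    rw [show y * (a * b) * y⁻¹ = y * a * y⁻¹ * (⁅b, y⁆⁻¹ * b) by
      simp only [commutatorElement_def]; group]
    exact mul_mem (tB (conj_mem h.yn ha)) (mul_mem (inv_mem (tB (h.step c fsl h'.ot hc b hb))) (sB hb))
  have wN : w ∈ N[B] := mem_N_of_conj fun z hz => by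
    obtain ⟨a, ha, b, hb, rfl⟩ := dec z hz
    rw [show w * (a * b) * w⁻¹ = ⁅a, w⁆⁻¹ * a * (w * b * w⁻¹) by
      simp only [commutatorElement_def]; group]
    exact mul_mem (mul_mem (inv_mem (sB (h'.step c fsl h.ot hc' a ha))) (tB ha)) (sB (conj_mem h'.yn hb))
  have wK : w ∈ ncl N[B] y := by
    obtain ⟨n, hn, e⟩ := conj3 c.k0 yN wN h.oy h'.oy
    exact zpowers_le.2 (gen_mem hn) e
  have tK : AA V t ≤ ncl N[B] y := fun a ha => by
    obtain ⟨b, hb, rfl⟩ := h.surj c fsl h' hne hc hk.le a ha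
    exact comm_mem_ncl (le_normalizer (sB hb)) self_mem
  have sK : AA V s ≤ ncl N[B] y := fun a ha => by
    obtain ⟨b, hb, rfl⟩ := h'.surj c fsl h hne.symm hc' hk.ge a ha
    exact comm_mem_ncl (le_normalizer (tB hb)) wK
  have BK : B ≤ ncl N[B] y := hB.le.trans (sup_le tK sK)
  have BO : B ≤ pCoreOf 2 N[B] := le_pCoreOf le_normalizer le_rfl pB
  have hO := le_norm_pCoreOf (p := 2) N[B]
  have Oy := h.kb c (pCoreOf_isPGroup _) (hO yN) (tB.trans BO)
  rw [← hB]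
  refine ⟨_, self_mem, BK, ncl_le yN, ?_⟩
  rcases c.loc _ (ne_top c pB fun e => A_ne c h.ot (le_bot_iff.1 (e ▸ tB))) y yN h.oy with
    k | ⟨F, _, _, a, k1, k2, ρ, k3, k4⟩
  · exfalso
    refine h'.not_norm c fsl h hne.symm hc' (sup_le (zpowers_le.2 h.yn) (fun o ho => ?_) (k wK))
    obtain ⟨a, ha, h2⟩ := h.nc
    refine norm_of c h.ot (comm_mem_left h.yn ha) (mt commutatorElement_eq_one_iff_commute.1 h2) ?_
    rw [show o * ⁅a, y⁆ * o⁻¹ = ⁅o * a, y⁆ * ⁅o, y⁆⁻¹ by simp only [commutatorElement_def]; group]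
    exact mul_mem (Oy _ (mul_mem ho (BO (tB ha)))) (inv_mem (Oy o ho))
  obtain ⟨f1, f2, -, -, -, f3⟩ := fsl F a k1 k2
  have pk : IsPGroup 2 ρ.ker := k4 ▸ (pCoreOf_isPGroup _).comap_subtype
  have a2 : a ≠ 2 := by
    rintro rfl
    have h3 : orderOf (ρ ⟨y, self_mem⟩) ∣ 3 := by
      rw [← h.oy]; exact (orderOf_map_dvd ρ _).trans (by rw [orderOf_mk])
    have h4 := ((Nat.dvd_prime Nat.prime_three).1 h3).resolve_left fun h4 => by
      rw [orderOf_eq_one_iff, ← MonoidHom.mem_ker, k4] at h4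
      exact not_mem_two (pCoreOf_isPGroup _) h.oy h4
    obtain ⟨R, r1, r2, q, hq, r3⟩ := f3 even_two _ h4
    obtain ⟨q, rfl⟩ := k3 q
    have h5 := h.kb c (Q := (R.comap ρ).map (ncl N[B] y).subtype) ((r1.comap_of_ker_isPGroup ρ pk).map _)
      (mem_N_of_conj (by
        rintro _ ⟨z, hz, rfl⟩
        exact ⟨⟨y, self_mem⟩ * z * ⟨y, self_mem⟩⁻¹, by
          rw [SetLike.mem_coe, mem_comap, map_mul, map_mul, map_inv]
          exact (mem_normalizer_iff.1 r2 _).1 hz, rfl⟩))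
      (fun z hz => ⟨⟨z, tK hz⟩, by
        have : ρ ⟨z, tK hz⟩ = 1 := by
          rw [← MonoidHom.mem_ker, k4]; exact BO (tB hz)
        rw [SetLike.mem_coe, mem_comap, this]
        exact one_mem _, rfl⟩) q ⟨q, hq, rfl⟩
    refine r3 (commutatorElement_eq_one_iff_commute.1 ?_)
    rw [← map_commutatorElement, ← MonoidHom.mem_ker, k4]
    exact BO (tB h5)
  refine ⟨F, _, _, a, k1, by omega, ρ, k3, le_antisymm (fun z hz => ?_) (k4 ▸ subgroupOf_mono _ BO)⟩
  have cen : ∀ k ∈ ncl N[B] y, ∀ o ∈ pCoreOf 2 N[B], ⁅o, k⁆ ∈ B := fun k hk => by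
    induction hk using closure_induction with
    | mem k hk =>
      obtain ⟨n, hn, rfl⟩ := hk
      intro o ho
      rw [show ⁅o, n * y * n⁻¹⁆ = n * ⁅n⁻¹ * o * n⁻¹⁻¹, y⁆ * n⁻¹ by
        simp only [commutatorElement_def]; group]
      exact conj_mem hn (tB (Oy _ (conj_mem (hO (inv_mem hn)) ho)))
    | one => simp
    | mul a b ha _ ia ib =>
      intro o ho
      rw [show ⁅o, a * b⁆ = ⁅o, a⁆ * (a * ⁅o, b⁆ * a⁻¹) by simp only [commutatorElement_def]; group]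
      exact mul_mem (ia o ho) (conj_mem (ncl_le yN ha) (ib o ho))
    | inv a ha ia =>
      intro o ho
      rw [show ⁅o, a⁻¹⁆ = a⁻¹ * ⁅o, a⁆⁻¹ * a⁻¹⁻¹ by simp only [commutatorElement_def]; group]
      exact conj_mem (inv_mem (ncl_le yN ha)) (inv_mem (ia o ho))
  have hn : (B.subgroupOf (ncl N[B] y)).Normal := ⟨fun k hk n =>
    mem_subgroupOf.2 (conj_mem (ncl_le yN n.2) (mem_subgroupOf.1 hk))⟩
  have hle : B.subgroupOf (ncl N[B] y) ≤ ρ.ker := k4 ▸ subgroupOf_mono _ BO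
  have hp : commutator SL(2, F) = ⊤ :=
    (f1.eq_bot_or_eq_top_of_normal _ inferInstance).resolve_left fun e =>
      f2 ⟨⟨fun a b => commutatorElement_eq_one_iff_mul_comm.1
        (mem_bot.1 (e ▸ commutator_mem_commutator (mem_top a) (mem_top b)))⟩⟩
  have hM := S2117.result (F := F)
    (by rw [k1]; exact fun e => a2 (Nat.pow_right_injective le_rfl (e.trans (by norm_num))))
    (by
      rw [k1]
      exact fun e => absurd (e ▸ dvd_pow_self 2 (by omega : a ≠ 0) : 2 ∣ 9) (by norm_num))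
  have h6 := H80.stemKer_eq_bot hM (ξ := QuotientGroup.lift _ ρ hle)
    ⟨fun u => by
      obtain ⟨u, rfl⟩ := k3 u
      exact ⟨u, rfl⟩, fun u hu => mem_center_iff.2 fun v => by
      obtain ⟨u, rfl⟩ := QuotientGroup.mk_surjective u
      obtain ⟨v, rfl⟩ := QuotientGroup.mk_surjective v
      have h7 : u ∈ ρ.ker := hu
      rw [k4] at h7
      refine (commutatorElement_eq_one_iff_mul_comm.1 ?_).symm
      rw [← QuotientGroup.mk'_apply, ← QuotientGroup.mk'_apply, ← map_commutatorElement,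
        QuotientGroup.mk'_apply, QuotientGroup.eq_one_iff]
      exact cen v v.2 u h7⟩
  rw [← QuotientGroup.eq_one_iff, ← mem_bot, ← h6]
  refine ⟨hz, ?_⟩
  have h8 := map_commutator_eq _ (QuotientGroup.mk' (B.subgroupOf (ncl N[B] y)))
  rw [perfect h.oy ρ k3 pk hp, MonoidHom.range_eq_top.2 (QuotientGroup.mk'_surjective _),
    ← _root_.commutator_def] at h8
  exact h8 ▸ mem_map_of_mem _ (mem_top z)

omit c in
theorem g7a (fsl : FslStmt) : G7aStmt.{u} := by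
  intro G V _ _ _ _ c t y g ot oy yn nc hne hc
  refine main c fsl (w := g * y * g⁻¹) ⟨ot, oy, yn, nc⟩
    ⟨by rw [ord_conj, ot], by rw [ord_conj, oy], mem_N_of_conj fun b hb => ?_, ?_⟩ hne hc ?_
  · have h1 : g⁻¹ * b * g ∈ AA V t := (conj_mem_AA (g := g)).1 (by
      rwa [show g * (g⁻¹ * b * g) * g⁻¹ = b by group])
    have h2 := (conj_mem_AA (g := g)).2 (conj_mem yn h1)
    rwa [show g * (y * (g⁻¹ * b * g) * y⁻¹) * g⁻¹ = g * y * g⁻¹ * b * (g * y * g⁻¹)⁻¹ by group] at h2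
  · obtain ⟨a, ha, h1⟩ := nc
    refine ⟨_, conj_mem_AA.2 ha, fun h2 => h1 ?_⟩
    have := h2.map (MulAut.conj g⁻¹)
    simpa [mul_assoc] using this
  · rw [AA_conj, card_map_of_injective (MulAut.conj g).injective]

end Cfsg.Agent.H90.G7A
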