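import Cfsg.Agent.H98.GbL
import Cfsg.Agent.H11.Inner

/-! Project GB, piece SYS: the power sums form an orthogonal system of primitive elements. -/

set_option autoImplicit false
open Cfsg Finset
open scoped ComplexConjugate MatrixGroups

namespace Cfsg.Agent.H90.GbSys

open Cfsg.Agent.H98.GB

universe u

variable {F : Type u} [Field F] [Fintype F] [DecidableEq F] {C : Ctx F}

theorem ev_pa (hB : BRStmt.{u}) (c : ℂ) (a m : ℕ) :
    C.H.ev (c • C.pa a m) = c • (Pi.single m (C.P a m) : Fn F) := by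
  rw [map_smul, Ctx.pa, C.H.ev_sg ((hB F C).1 a m)]

theorem pr_pa (hB : BRStmt.{u}) (c : ℂ) (a : ℕ) {m : ℕ} (hm : 0 < m) :
    C.H.Pr m (c • C.pa a m) := by
  refine ⟨fun n hn => by rw [ev_pa hB, Pi.smul_apply, Pi.single_eq_of_ne hn, smul_zero],
    hm, fun x y h hx hy u v => ?_⟩
  have := ((hB F C).2.1 a m hm).2 x y h hx hy u v
  rw [ev_pa hB, Pi.smul_apply, Pi.single_eq_same]
  simp only [res, Pi.smul_apply, smul_eq_mul, ← mul_sum] at this ⊢
  rw [mul_left_comm, this, mul_zero]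

theorem ip_pa (hB : BRStmt.{u}) (c c' : ℂ) (a b m m' : ℕ) :
    C.H.ip m (c • C.pa a m) (c' • C.pa b m') =
      if m = m' then c * conj c' * classInner (C.P a m) (C.P b m) else 0 := by
  rw [Hall.ip, ev_pa hB, ev_pa hB, Pi.smul_apply, Pi.smul_apply, H11.classInner_smul_left,
    H11.classInner_smul_right, Pi.single_eq_same]
  split_ifs with h
  · subst h
    rw [Pi.single_eq_same, mul_assoc]
  · rw [Pi.single_eq_of_ne h, H11.classInner_zero_right, mul_zero, mul_zero]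

theorem fix_pow {x : C.L} {m : ℕ} (h : C.qL ^ m * x = x) (i : ℕ) :
    C.qL ^ m * (C.qL ^ i * x) = C.qL ^ i * x := by rw [mul_left_comm, h]

theorem ex_pow (L : C.Lab) {x : C.L} {m : ℕ} (h : C.qL ^ m * x = x) (i : ℕ) :
    C.ex (C.qL ^ i * x) m ≡ C.ex x m * Fintype.card F ^ i [MOD Fintype.card F ^ m - 1] := by
  induction i with
  | zero => simp [Nat.ModEq.refl]
  | succ i ih =>
    rw [pow_succ' C.qL, mul_assoc, pow_succ _ i, ← mul_assoc (C.ex x m)]
    exact (L.ex_q _ m (fix_pow h i)).trans (ih.mul_right _)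

theorem cond_iff (L : C.Lab) {x y : C.L} {m : ℕ} (hm : 0 < m) (hx : C.qL ^ m * x = x)
    (hy : C.qL ^ m * y = y) (i : ℕ) :
    C.ex y m * Fintype.card F ^ i ≡ C.ex x m [MOD Fintype.card F ^ m - 1] ↔ C.qL ^ i * y = x :=
  ⟨fun h => L.ex_inj _ _ m hm (fix_pow hy i) hx ((ex_pow L hy i).trans h),
    fun h => h ▸ (ex_pow L hy i).symm⟩

theorem card_dvd {d : ℕ} (hd : 0 < d) (k : ℕ) : #((range (d * k)).filter fun i => d ∣ i) = k := by
  have : (range (d * k)).filter (fun i => d ∣ i) = (range k).image (d * ·) := by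
    ext i
    simp only [mem_filter, mem_range, mem_image]
    exact ⟨fun ⟨h, j, e⟩ => ⟨j, Nat.lt_of_mul_lt_mul_left (e ▸ h), e.symm⟩,
      fun ⟨j, h, e⟩ => ⟨e ▸ Nat.mul_lt_mul_of_pos_left h hd, j, e.symm⟩⟩
  rw [this, card_image_of_injective _ (mul_right_injective₀ hd.ne'), card_range]

theorem sys (hF : FOCKStmt.{u}) (hL : LABStmt.{u}) (hB : BRStmt.{u}) (hG : GRMStmt.{u}) :
    SYSStmt.{u} := by
  intro F _ _ _ C
  have L : C.Lab := hL F C
  have pr : ∀ φ k, 0 < k → C.H.Pr (C.dg φ * k) (C.pp φ k) := fun φ k hk =>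
    pr_pa hB _ _ (Nat.mul_pos (L.dg_pos φ) hk)
  refine ⟨pr, fun n => ⟨L.dg_pos, fun φ k _ hk _ => pr φ k hk, (hF F 1 C.H).hg_one,
    fun φ k _ hk _ => (hF F 1 C.H).D_lt _ (hF F 1 C.H).hg_one (Nat.mul_pos (L.dg_pos φ) hk)⟩,
    fun n φ k φ' k' _ _ hk hk' _ _ => ?_⟩
  have fx : ∀ φ k, C.qL ^ k * C.out φ = C.out φ ↔ C.dg φ ∣ k := fun φ k => by
    rw [L.dg_iff, L.mk_out]
  have hm := Nat.mul_pos (L.dg_pos φ) hk
  rw [Ctx.pp, Ctx.pp, ip_pa hB]
  by_cases e : C.dg φ * k = C.dg φ' * k'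
  · rw [if_pos e, ← e, hG F C _ _ _ hm, filter_congr fun i _ => cond_iff L hm
      ((fx φ _).2 (Dvd.intro _ rfl)) ((fx φ' _).2 (Dvd.intro _ e.symm)) i]
    by_cases e' : φ = φ'
    · subst e'
      obtain rfl := Nat.eq_of_mul_eq_mul_left (L.dg_pos φ) e
      rw [if_pos ⟨rfl, rfl⟩, filter_congr fun i _ => fx φ i, card_dvd (L.dg_pos φ)]
      simp [← mul_pow]
    · rw [if_neg fun h => e' h.1, filter_false_of_mem fun i _ h => e' (by
        rw [← L.mk_out φ, ← L.mk_out φ']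
        exact ((L.mk_eq _ _).2 ⟨i, h.symm⟩).symm)]
      simp
  · rw [if_neg e, if_neg fun h => e (by rw [h.1, h.2])]

end Cfsg.Agent.H90.GbSys
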