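import Mathlib
import Cfsg.Agent.H89.L27Defs
import Cfsg.Agent.H34.Twist4

/-! A Weyl group element of `E₈` multiplying the labelling `f7` by `3` modulo `7` and inducing the
graph automorphism on the component `A₂`. -/

set_option autoImplicit false
set_option maxRecDepth 100000

namespace Cfsg.Agent.H89.L27

open Equiv Cfsg.Lie H37 H40 H34 H29 Module Cfsg.Agent.H50.E83

/-- The word of the Weyl group element. -/
def w1L : List ℕ := [5, 4, 3, 2, 1, 3, 4, 5, 6, 7, 5, 4, 3, 2, 1, 3, 4, 5, 6, 5, 4, 3, 2, 1, 3, 4, 5,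
  0, 2, 3, 4, 1, 3, 2, 0]

theorem w1L_lt : ∀ i ∈ w1L, i < chevE8.rank := by decide +kernel

theorem w1 : W1Stmt := by
  have hv : ∀ r : Rt, (C8.S.word (w1L.pmap Fin.mk w1L_lt) r : ℕ) =
      w1L.foldr chevE8.reflectRoot r := fun r => by
    rw [Cert.word_val (C := C8), List.map_pmap, List.pmap_eq_map, List.map_id']
  have hw := C8.S.word_mem_W (w1L.pmap Fin.mk w1L_lt)
  generalize C8.S.word (w1L.pmap Fin.mk w1L_lt) = w at hv hw
  refine ⟨w, hw, fun r => ?_, fun r p hp e => ?_⟩
  · have h1 : Rp C8 7 [3, 0, 0, 0, 0, 3, 0, 0] fun r => f7 (w r) := fun j => by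
      simp only [f7, vN, rc_eq C8 tabOKE8, hv, C8.simple_val]
      revert j
      decide +kernel
    refine (h1.vN_eq ((isAdd_vN C8 _).comp hw) r).symm.trans ?_
    simp only [f7, vN, Int.cast_sum, Int.cast_mul, Finset.mul_sum]
    refine Finset.sum_congr rfl fun j _ => ?_
    rw [mul_left_comm]
    congr 1
    revert j
    decide +kernel
  · rw [hv, e]
    clear e
    revert p
    decide +kernel

end Cfsg.Agent.H89.L27
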