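import Cfsg.Agent.H50.L81Defs

/-! Project L81: additive eigenfunctions on the field with 81 elements. -/

set_option autoImplicit false

namespace Cfsg.Agent.H90.L81Pol

open Cfsg.Agent.H50.L81 Cfsg.Agent.H50.E83 Polynomial

/-- a ring homomorphism as a homomorphism of algebras over the prime field -/
noncomputable def toAlg (φ : F →+* K) : F →ₐ[ZMod 3] K :=
  { φ with
    commutes' := fun r => DFunLike.congr_fun
      (RingHom.ext_zmod (φ.comp (algebraMap (ZMod 3) F)) (algebraMap (ZMod 3) K)) r }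

/-- the four embeddings -/
noncomputable def fk (p : Par) (k : Fin 4) : F →ₐ[ZMod 3] K :=
  toAlg ((iterateFrobenius K 3 k).comp p.κ)

theorem fk_apply (p : Par) (k : Fin 4) (s : F) : fk p k s = p.κ s ^ 3 ^ (k : ℕ) :=
  iterateFrobenius_def 3 k (p.κ s)

theorem prim (p : Par) : IsPrimitiveRoot (p.κ p.l) 80 :=
  (IsPrimitiveRoot.coe_units_iff.2 p.hl).map_of_injective p.κ.injective

theorem inj3 (p : Par) {k k' : ℕ} (hk : k < 4) (hk' : k' < 4)
    (h : p.κ p.l ^ 3 ^ k = p.κ p.l ^ 3 ^ k') : k = k' :=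
  Nat.pow_right_injective (show 2 ≤ 3 by norm_num) ((prim p).pow_inj
    (by interval_cases k <;> norm_num) (by interval_cases k' <;> norm_num) h)

theorem fk_surj (p : Par) : Function.Surjective (fk p) := by
  have hi : Function.Injective (fk p) := fun k k' h =>
    Fin.ext (inj3 p k.2 k'.2 (by rw [← fk_apply, ← fk_apply, h]))
  refine (hi.bijective_of_nat_card_le ?_).2
  refine (card_algHom_le_finrank (ZMod 3) F K).trans_eq ?_
  rw [GaloisField.finrank 3 (by decide)]; simp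

theorem two_sq (x : F) : ∃ a b : F, a ^ 2 + b ^ 2 = x := by
  obtain ⟨a, b, hab⟩ : ∃ a b : F, (X ^ 2 : F[X]).eval a + (X ^ 2 - C x : F[X]).eval b = 0 :=
    FiniteField.exists_root_sum_quadratic (degree_X_pow 2) (degree_X_pow_sub_C (by decide) _)
      (by rw [card_F])
  refine ⟨a, b, ?_⟩
  rw [← sub_eq_zero]
  simpa only [eval_C, eval_X, eval_pow, eval_sub, ← add_sub_assoc] using hab

theorem zy_prim (p : Par) : IsPrimitiveRoot (zy p) 40 :=
  IsPrimitiveRoot.pow (ζ := lam p) (n := 80) (a := 2) (b := 40) (by norm_num)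
    (IsPrimitiveRoot.coe_units_iff.1 (prim p)) (by norm_num)

theorem pol : PolStmt := by
  intro p
  refine ⟨fun c e ha hne hm => ?_, fun k hk k' hk' h => inj3 p hk hk' (by simpa using h p.l 1)⟩
  obtain ⟨μ, hμ⟩ : ∃ μ : K, μ = ((zy p ^ e : Kˣ) : K) := ⟨_, rfl⟩
  rw [← hμ] at hm
  have c0 : c 0 = 0 := by simpa using ha 0 0
  have cp : ∀ (i : ℕ) s, c (((p.l : F) ^ 2) ^ i * s) = μ ^ i * c s := by
    intro i
    induction i with
    | zero => simp
    | succ i ih => intro s; rw [pow_succ', mul_assoc, hm, ih, pow_succ', mul_assoc]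
  have sq : ∀ a s : F, c (a ^ 2 * s) * c 1 = c (a ^ 2) * c s := by
    intro a s
    by_cases h0 : a = 0
    · simp [h0, c0]
    · have h80 : a ^ 80 = 1 := by
        have := FiniteField.pow_card_sub_one_eq_one a h0
        rwa [card_F] at this
      obtain ⟨i, -, rfl⟩ := (IsPrimitiveRoot.coe_units_iff.2 p.hl).eq_pow_of_pow_eq_one h80
      have e1 := cp i 1
      rw [mul_one] at e1
      rw [← pow_mul, mul_comm i, pow_mul, cp, e1]; ring
  have mu : ∀ x s : F, c (x * s) * c 1 = c x * c s := by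
    intro x s
    obtain ⟨a, b, rfl⟩ := two_sq x
    rw [add_mul, ha, ha, add_mul, add_mul, sq, sq]
  have c1 : c 1 ≠ 0 := fun h => by
    obtain ⟨s, hs⟩ := hne
    exact mul_ne_zero hs hs (by rw [← mu, h, mul_zero])
  let φ : F →+* K := RingHom.mk'
    { toFun := fun s => c s / c 1
      map_one' := div_self c1
      map_mul' := fun x s => by
        rw [div_mul_div_comm, ← mu, mul_div_mul_right _ _ c1] }
    fun a b => by
      change c (a + b) / c 1 = c a / c 1 + c b / c 1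
      rw [ha, add_div]
  obtain ⟨k, hk⟩ := fk_surj p (toAlg φ)
  have hc : ∀ s, c s = c 1 * p.κ s ^ 3 ^ (k : ℕ) := fun s => by
    rw [← fk_apply, hk]
    change _ = c 1 * (c s / c 1)
    rw [mul_div_cancel₀ _ c1]
  refine ⟨k, k.2, ?_, c 1, c1, hc⟩
  have e1 : zy p ^ e = zy p ^ ((3 ^ (k : ℕ) : ℕ) : ℤ) := by
    refine Units.ext ?_
    have h1 := hm 1
    rw [mul_one, hc, mul_comm μ] at h1
    rw [← hμ, ← mul_left_cancel₀ c1 h1, zpow_natCast, map_pow]
    rfl
  have e2 : zy p ^ (((3 ^ (k : ℕ) : ℕ) : ℤ) - e) = 1 := by rw [zpow_sub, e1, mul_inv_cancel]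
  have e3 := ((zy_prim p).zpow_eq_one_iff_dvd _).1 e2
  have e4 := (ZMod.intCast_eq_intCast_iff_dvd_sub e ((3 ^ (k : ℕ) : ℕ) : ℤ) 40).2 e3
  rw [e4]; simp

end Cfsg.Agent.H90.L81Pol
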