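import Mathlib
import Cfsg.Agent.H90.HallPetresco
import Cfsg.Agent.H59.PermMod
import Cfsg.Agent.H7.PBasic

/-! Derived lengths of linear `p`-groups, permutation `p`-groups and wreath products. -/

set_option autoImplicit false

namespace Cfsg.Agent.H90

open Subgroup Module
open scoped commutatorElement

universe u v

theorem derivedSeries_add_le_map {G : Type*} [Group G] {N : Subgroup G} {a : ℕ}
    (h : derivedSeries G a ≤ N) (b : ℕ) :
    derivedSeries G (a + b) ≤ (derivedSeries N b).map N.subtype := by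
  induction b with
  | zero => simpa [← MonoidHom.range_eq_map] using h
  | succ b ih =>
    rw [← add_assoc, derivedSeries_succ, derivedSeries_succ, Subgroup.map_commutator]
    exact Subgroup.commutator_mono ih ih

theorem derivedSeries_succ_le_ker {G M : Type*} [Group G] [Monoid M] (ρ : G →* M) {k : ℕ}
    (h : derivedSeries (_root_.commutator G) k ≤ (ρ.comp (Subgroup.subtype _)).ker) :
    derivedSeries G (k + 1) ≤ ρ.ker := by
  rw [add_comm]
  refine (derivedSeries_add_le_map (derivedSeries_one G).le k).trans ?_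
  rintro _ ⟨x, hx, rfl⟩
  exact h hx

theorem commutator_mem_ker {G M : Type*} [Group G] [Monoid M] (ρ : G →* M) {x y : G}
    (h : Commute (ρ x) (ρ y)) : ⁅x, y⁆ ∈ ρ.ker := by
  rw [MonoidHom.mem_ker, commutatorElement_def, map_mul, map_mul, map_mul, h.eq, mul_assoc (ρ y),
    ← map_mul, mul_inv_cancel, map_one, mul_one, ← map_mul, mul_inv_cancel, map_one]

theorem commute_of_commutator_mem_ker {G M : Type*} [Group G] [Monoid M] (ρ : G →* M) {x y : G}
    (h : ⁅x, y⁆ ∈ ρ.ker) : Commute (ρ x) (ρ y) := by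
  rw [Commute, SemiconjBy, ← map_mul, ← map_mul,
    show x * y = ⁅x, y⁆ * (y * x) by rw [commutatorElement_def]; group, map_mul,
    MonoidHom.mem_ker.1 h, one_mul]

section CharP

variable {K V P : Type*} [Field K] [AddCommGroup V] [Module K V] [Group P]

/-- The upper Loewy series of a representation. -/
def upperFix (ρ : Representation K P V) : ℕ → Submodule K V
  | 0 => ⊥
  | i + 1 => ⨅ g, (upperFix ρ i).comap (ρ g - 1)

theorem mem_upperFix_succ {ρ : Representation K P V} {i : ℕ} {v : V} :
    v ∈ upperFix ρ (i + 1) ↔ ∀ g, ρ g v - v ∈ upperFix ρ i := by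
  simp [upperFix]

theorem upperFix_invariant (ρ : Representation K P V) (i : ℕ) (g : P) :
    upperFix ρ i ≤ (upperFix ρ i).comap (ρ g) := by
  induction i generalizing g with
  | zero => exact bot_le
  | succ i ih =>
    intro v hv
    have h := mem_upperFix_succ.1 hv g
    have : ρ g v - v ∈ upperFix ρ (i + 1) := mem_upperFix_succ.2 fun h' => sub_mem (ih h' h) h
    simpa using add_mem this hv

theorem upperFix_eq_top [FiniteDimensional K V] [Finite P] {p : ℕ} [Fact p.Prime] [CharP K p]
    (hP : IsPGroup p P) (ρ : Representation K P V) {n : ℕ} (hn : finrank K V ≤ n) :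
    upperFix ρ n = ⊤ := by
  have hle : ∀ i, upperFix ρ i ≤ upperFix ρ (i + 1) := fun i v hv =>
    mem_upperFix_succ.2 fun g => sub_mem (upperFix_invariant ρ i g hv) hv
  have : ∀ i, upperFix ρ i = ⊤ ∨ i ≤ finrank K (upperFix ρ i) := fun i => by
    induction i with
    | zero => exact Or.inr (Nat.zero_le _)
    | succ i ih =>
      by_cases h : upperFix ρ i = ⊤
      · exact Or.inl (top_unique (h ▸ hle i))
      have := Submodule.Quotient.nontrivial_iff.2 h
      obtain ⟨w, -, hw0, hw⟩ := H59.exists_ne_zero_fixed_of_isPGroup hP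
        (ρ.quotient _ (upperFix_invariant ρ i)) ⊤ (fun _ _ _ => trivial) top_ne_bot
      obtain ⟨w, rfl⟩ := Submodule.Quotient.mk_surjective _ w
      refine Or.inr ((ih.resolve_left h).trans_lt (Submodule.finrank_lt_finrank_of_lt
        (lt_of_le_not_ge (hle i) fun h' => hw0 ((Submodule.Quotient.mk_eq_zero _).2 (h' ?_)))))
      exact mem_upperFix_succ.2 fun g => (Submodule.Quotient.eq _).1 (hw g)
  exact (this n).elim id fun h => Submodule.eq_top_of_finrank_eq
    (le_antisymm (Submodule.finrank_le _) (hn.trans h))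

theorem sub_mem_upperFix (ρ : Representation K P V) (k : ℕ) : ∀ g ∈ derivedSeries P k, ∀ i,
    ∀ v ∈ upperFix ρ (i + 2 ^ k), ρ g v - v ∈ upperFix ρ i := by
  induction k with
  | zero => exact fun g _ i v hv => mem_upperFix_succ.1 hv g
  | succ k ih =>
    intro g hg
    induction hg using closure_induction with
    | mem g hg =>
      obtain ⟨x, hx, y, hy, rfl⟩ := hg
      intro i v hv
      rw [pow_succ, mul_two, ← add_assoc] at hv
      have hw := upperFix_invariant ρ _ (x⁻¹ * y⁻¹) hv
      have h1 := ih x hx i _ (ih y hy _ _ hw)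
      have h2 := ih y hy i _ (ih x hx _ _ hw)
      convert sub_mem h1 h2 using 1
      simp only [map_sub, ← Module.End.mul_apply, ← map_mul, commutatorElement_def]
      rw [show y * (x * (x⁻¹ * y⁻¹)) = 1 by group, map_one, Module.End.one_apply, mul_assoc,
        mul_assoc]
      abel
    | one => intro i v _; simp
    | mul x y _ _ hx hy =>
      intro i v hv
      have := add_mem (Submodule.mem_comap.1 (upperFix_invariant ρ i x (hy i v hv))) (hx i v hv)
      simpa using this
    | inv x _ hx =>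
      intro i v hv
      have := neg_mem (hx i _ (upperFix_invariant ρ _ x⁻¹ hv))
      simpa using this

/-- A `p`-group acting on a space of dimension at most `2 ^ k` in characteristic `p`. -/
theorem derivedSeries_le_ker_charP [FiniteDimensional K V] [Finite P] {p : ℕ} [Fact p.Prime]
    [CharP K p] (hP : IsPGroup p P) (ρ : Representation K P V) {k : ℕ}
    (hk : finrank K V ≤ 2 ^ k) : derivedSeries P k ≤ MonoidHom.ker ρ := fun g hg =>
  LinearMap.ext fun v => sub_eq_zero.1 (sub_mem_upperFix ρ k g hg 0 v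
    (by rw [zero_add, upperFix_eq_top hP ρ hk]; trivial))

end CharP

section Coprime

variable {K : Type*} [Field K]

theorem mul_finrank_le {V : Type*} [AddCommGroup V] [Module K V] [FiniteDimensional K V]
    (f : End K V) {m d : ℕ} (μ : Fin m → K) (hμ : Function.Injective μ)
    (h : ∀ j, d ≤ finrank K (f.eigenspace (μ j))) : m * d ≤ finrank K V := by
  have h1 := LinearMap.finrank_le_finrank_of_injective
    (f.eigenspaces_iSupIndep.comp hμ).dfinsupp_lsum_injective
  refine le_trans ?_ h1
  refine le_trans ?_ (finrank_directSum K fun j => f.eigenspace (μ j)).ge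
  simpa using Finset.sum_le_sum (s := Finset.univ) fun j _ => h j

theorem finrank_le_of_semilinear {V : Type*} [AddCommGroup V] [Module K V]
    [FiniteDimensional K V] {i : K → K} (hi : Function.Surjective i) (j : V →+ V)
    (hj : Function.Injective j) (hc : ∀ r m, j (r • m) = i r • j m) {U W : Submodule K V}
    (h : ∀ v ∈ U, j v ∈ W) : finrank K U ≤ finrank K W := by
  have := rank_le_of_surjective_injective (M := U) (M₁ := W) i
    ((j.comp U.subtype.toAddMonoidHom).codRestrict W fun v => h v v.2) hi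
    (fun x y hxy => Subtype.ext (hj (congrArg Subtype.val hxy))) fun r m => Subtype.ext (hc r m)
  rwa [← finrank_eq_rank, ← finrank_eq_rank, Nat.cast_le] at this

theorem iSup_eigenspace_of_pow [IsAlgClosed K] {V : Type*} [AddCommGroup V] [Module K V]
    [FiniteDimensional K V] {f : End K V} {n : ℕ} (hn : (n : K) ≠ 0) (h : f ^ n = 1) :
    ⨆ μ, f.eigenspace μ = ⊤ :=
  (End.isSemisimple_of_squarefree_aeval_eq_zero
    (Polynomial.X_pow_sub_one_separable_iff.2 hn).squarefree (by simp [h])).iSup_eigenspace_eq_top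

theorem le_ker_of_eigenspace [IsAlgClosed K] {V P : Type*} [AddCommGroup V] [Module K V]
    [FiniteDimensional K V] [Group P] (ρ : Representation K P V) {f : End K V} {n : ℕ}
    (hn : (n : K) ≠ 0) (h : f ^ n = 1) (hc : ∀ g, Commute f (ρ g)) {D : Subgroup P}
    (hD : ∀ μ, f.eigenspace μ ≠ ⊥ → D ≤ MonoidHom.ker (ρ.subrepresentation (f.eigenspace μ)
      fun g => End.mapsTo_genEigenspace_of_comm (hc g) μ 1)) : D ≤ MonoidHom.ker ρ := by
  refine fun g hg => LinearMap.ext fun v => ?_
  have hv : v ∈ ⨆ μ, f.eigenspace μ := iSup_eigenspace_of_pow hn h ▸ trivial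
  induction hv using Submodule.iSup_induction' with
  | mem μ v hv =>
    by_cases h0 : f.eigenspace μ = ⊥
    · simp [(Submodule.eq_bot_iff _).1 h0 v hv]
    · exact congrArg Subtype.val (LinearMap.congr_fun (hD μ h0 hg) ⟨v, hv⟩)
  | zero => simp
  | add v w _ _ h1 h2 => rw [map_add, map_add, h1, h2]

theorem pow_eq_one_of_eigenspace {V : Type*} [AddCommGroup V] [Module K V] {f : End K V} {n : ℕ}
    (h : f ^ n = 1) {μ : K} (hμ : f.eigenspace μ ≠ ⊥) : μ ^ n = 1 := by
  obtain ⟨v, hv, h0⟩ := Submodule.exists_mem_ne_zero_of_ne_bot hμ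
  have := End.HasEigenvector.pow_apply ⟨hv, h0⟩ n
  rw [h, End.one_apply] at this
  exact smul_left_injective K h0 (this.symm.trans (one_smul K v).symm)

theorem exists_lcs_step {P : Type*} [Group P] [Group.IsNilpotent P] {q : Subgroup P → Prop}
    (h0 : ¬ q ⊤) (h1 : q ⊥) : ∃ i, ¬ q ((⊤ : Subgroup P).lowerCentralSeries i) ∧
      q ((⊤ : Subgroup P).lowerCentralSeries (i + 1)) := by
  by_contra! h
  obtain ⟨n, hn⟩ := Subgroup.nilpotent_iff_lowerCentralSeries.1 ‹_›
  have : ∀ i, ¬ q ((⊤ : Subgroup P).lowerCentralSeries i) := fun i => Nat.rec h0 h i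
  exact this n (hn ▸ h1)

/-- A `p`-group acting on a space of dimension less than `p ^ k` in coprime characteristic. -/
theorem derivedSeries_le_ker_coprime [IsAlgClosed K] {p : ℕ} [hp : Fact p.Prime]
    (hK : (p : K) ≠ 0) (k n : ℕ) : ∀ {V : Type u} [AddCommGroup V] [Module K V]
      [FiniteDimensional K V] {P : Type v} [Group P] [Finite P], IsPGroup p P →
      ∀ ρ : Representation K P V, finrank K V = n → n < p ^ k →
        derivedSeries P k ≤ MonoidHom.ker ρ := by
  induction k generalizing n with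
  | zero =>
    intro V _ _ _ P _ _ _ ρ hn hk g _
    have : Subsingleton V := (finrank_zero_iff (R := K)).1 (by rw [pow_zero] at hk; omega)
    exact Subsingleton.elim _ _
  | succ k ih =>
  induction n using Nat.strong_induction_on with | _ n ih' => ?_
  intro V _ _ _ P _ _ hP ρ hn hk
  have hpow : ∀ z : P, ∃ m, ρ z ^ p ^ m = 1 ∧ ((p ^ m : ℕ) : K) ≠ 0 := fun z =>
    (hP z).imp fun m hm => ⟨by rw [← map_pow, hm, map_one], by simpa using fun h => (hK h).elim⟩
  by_cases hz : ∃ z, (∀ g, Commute (ρ z) (ρ g)) ∧ ∀ μ, End.eigenspace (ρ z) μ ≠ ⊤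
  · obtain ⟨z, hz, hz'⟩ := hz
    obtain ⟨m, hm, hm'⟩ := hpow z
    have hlt := fun μ => (Submodule.finrank_lt (hz' μ)).trans_eq hn
    exact le_ker_of_eigenspace ρ hm' hm hz fun μ _ => ih' _ (hlt μ) hP _ rfl ((hlt μ).trans hk)
  push Not at hz
  by_cases hc : ∀ z ∈ (⊤ : Subgroup P), ∀ g, Commute (ρ z) (ρ g)
  · exact (derivedSeries_antitone P (Nat.le_add_left 1 k)).trans
      (commutator_le.2 fun x hx y _ => commutator_mem_ker ρ (hc x hx y))
  have := hP.isNilpotent
  obtain ⟨i, h1, h2⟩ := exists_lcs_step (q := fun H => ∀ z ∈ H, ∀ g, Commute (ρ z) (ρ g)) hc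
    fun z hz g => by rw [mem_bot.1 hz, map_one]; exact Commute.one_left _
  push Not at h1
  obtain ⟨a, ha, g, hg⟩ := h1
  obtain ⟨c, hc⟩ := hz _ (h2 _ (commutator_mem_commutator ha (mem_top g)))
  have hc' : ∀ v, ρ a (ρ g v) = c • ρ g (ρ a v) := fun v => by
    rw [← End.mem_eigenspace_iff.1 (hc ▸ Submodule.mem_top), ← End.mul_apply, ← End.mul_apply,
      ← End.mul_apply, ← map_mul, ← map_mul, ← map_mul, commutatorElement_def]
    congr 2
    group
  obtain ⟨m, hm, hm'⟩ := hpow a
  refine derivedSeries_succ_le_ker ρ (le_ker_of_eigenspace _ hm' hm (fun x => ?_) fun μ hμ =>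
    ih _ (hP.to_subgroup _) _ rfl (Nat.lt_of_mul_lt_mul_left (a := p) ?_))
  · refine commute_of_commutator_mem_ker ρ ((commutator_lcs_lcs_le ⊤ i 1).trans
      (commutator_le.2 fun x hx y _ => commutator_mem_ker ρ (h2 x hx y))
        (commutator_mem_commutator ha x.2))
  have hμ0 : μ ≠ 0 := by
    rintro rfl
    simpa [hp.out.ne_zero] using pow_eq_one_of_eigenspace hm hμ
  obtain ⟨l, hl, -⟩ := hpow ⁅a, g⁆
  have hcl := pow_eq_one_of_eigenspace hl fun h =>
    hμ (eq_bot_iff.2 (le_top.trans (hc.symm.trans h).le))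
  obtain ⟨j, -, hj⟩ := (Nat.dvd_prime_pow hp.out).1 (orderOf_dvd_of_pow_eq_one hcl)
  have hpc : p ≤ orderOf c := by
    rw [hj]
    refine Nat.le_self_pow (fun h => hg ?_) p
    rw [h, pow_zero, orderOf_eq_one_iff] at hj
    exact LinearMap.ext fun v => by simpa [hj] using hc' v
  refine (mul_finrank_le (ρ a) (fun j : Fin p => c ^ (j : ℕ) * μ) (fun j l h => Fin.ext
    (pow_injOn_Iio_orderOf (j.2.trans_le hpc) (l.2.trans_le hpc) (mul_right_cancel₀ hμ0 h)))
      fun j => ?_).trans_lt (by rw [hn, ← pow_succ']; exact hk)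
  refine finrank_le_of_semilinear Function.surjective_id (ρ (g ^ (j : ℕ))).toAddMonoidHom
    (ρ.apply_bijective _).1 (map_smul (ρ _)) fun v hv => ?_
  generalize (j : ℕ) = t
  induction t with
  | zero => simpa using hv
  | succ t ih =>
    rw [End.mem_eigenspace_iff, LinearMap.toAddMonoidHom_coe] at ih ⊢
    rw [pow_succ' g, map_mul, End.mul_apply, hc', ih, map_smul, smul_smul, pow_succ', mul_assoc]

/-- The same with a Frobenius-semilinear map commuting with the action. -/
theorem derivedSeries_le_ker_frob [IsAlgClosed K] {p : ℕ} [hp : Fact p.Prime]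
    (hK : (p : K) ≠ 0) {q : ℕ} (hq : q ≠ 0) (k n : ℕ) : ∀ {V : Type u} [AddCommGroup V] [Module K V]
      [FiniteDimensional K V] {P : Type v} [Group P] [Finite P], IsPGroup p P →
      ∀ (ρ : Representation K P V) (σ : V →+ V), Function.Injective σ →
        (∀ (r : K) v, σ (r • v) = r ^ q • σ v) → (∀ g v, σ (ρ g v) = ρ g (σ v)) →
        finrank K V = n → n < orderOf (q : ZMod p) * p ^ k →
          derivedSeries P k ≤ MonoidHom.ker ρ := by
  induction n using Nat.strong_induction_on with | _ n ih => ?_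
  intro V _ _ _ P _ _ hP ρ σ hσ hσs hσc hn hk
  by_cases h0 : ⊤ ≤ MonoidHom.ker ρ
  · exact le_top.trans h0
  have := hP.isNilpotent
  obtain ⟨i, h1, h2⟩ := exists_lcs_step (q := (· ≤ MonoidHom.ker ρ)) h0 bot_le
  obtain ⟨x, hx, hx'⟩ := SetLike.not_le_iff_exists.1 h1
  obtain ⟨z, hz, hz1, hzp⟩ : ∃ z ∈ (⊤ : Subgroup P).lowerCentralSeries i,
      ρ z ≠ 1 ∧ ρ z ^ p = 1 := by
    by_contra! h
    obtain ⟨m, hm⟩ := hP x
    have : ∀ j, ρ (x ^ p ^ j) ≠ 1 := fun j => by
      induction j with
      | zero => rwa [pow_zero, pow_one]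
      | succ j ih => rw [pow_succ, pow_mul, map_pow]; exact h _ (pow_mem hx _) ih
    exact this m (by rw [hm, map_one])
  have hc : ∀ g, Commute (ρ z) (ρ g) := fun g =>
    commute_of_commutator_mem_ker ρ (h2 (commutator_mem_commutator hz (mem_top g)))
  have hσe : ∀ μ, ∀ v ∈ End.eigenspace (ρ z) μ, σ v ∈ End.eigenspace (ρ z) (μ ^ q) :=
    fun μ v hv => by rw [End.mem_eigenspace_iff, ← hσc, End.mem_eigenspace_iff.1 hv, hσs]
  refine le_ker_of_eigenspace ρ hK hzp hc fun μ hμ => ?_
  by_cases hμ1 : μ = 1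
  · subst hμ1
    have hlt : finrank K (End.eigenspace (ρ z) 1) < n :=
      (Submodule.finrank_lt fun h => hz1 (LinearMap.ext fun v =>
        (End.mem_eigenspace_iff.1 (h ▸ Submodule.mem_top : v ∈ _)).trans (one_smul K v))).trans_eq hn
    exact ih _ hlt hP _ ((σ.comp (Submodule.subtype _).toAddMonoidHom).codRestrict _
      fun v => by simpa using hσe 1 v v.2) (fun v w h => Subtype.ext (hσ (congrArg Subtype.val h)))
      (fun r v => Subtype.ext (hσs r v)) (fun g v => Subtype.ext (hσc g v)) rfl (hlt.trans hk)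
  refine derivedSeries_le_ker_coprime hK k _ hP _ rfl
    (Nat.lt_of_mul_lt_mul_left (a := orderOf (q : ZMod p)) ?_)
  have ho := orderOf_eq_prime (pow_eq_one_of_eigenspace hzp hμ) hμ1
  refine (mul_finrank_le (ρ z) (fun j : Fin _ => μ ^ q ^ (j : ℕ)) (fun j l h => Fin.ext
    (pow_injOn_Iio_orderOf j.2 l.2 ?_)) fun j => ?_).trans_lt (hn ▸ hk)
  · have := (isOfFinOrder_iff_pow_eq_one.2 ⟨p, hp.out.pos, ho ▸ pow_orderOf_eq_one μ⟩
      : IsOfFinOrder μ).pow_eq_pow_iff_modEq.1 h
    rw [ho, ← ZMod.natCast_eq_natCast_iff] at this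
    simpa using this
  · generalize (j : ℕ) = t
    induction t with
    | zero => rw [pow_zero, pow_one]
    | succ t ih =>
      rw [pow_succ, pow_mul]
      exact ih.trans (finrank_le_of_semilinear
        (fun y => IsAlgClosed.exists_pow_nat_eq y (Nat.pos_of_ne_zero hq)) σ hσ hσs (hσe _))

end Coprime

section Matrices

variable {F : Type*} [Field F] {n : ℕ} {P : Type*} [Group P]

/-- The representation over an extension field given by a matrix representation. -/
noncomputable def extRep (K : Type*) [Field K] [Algebra F K] (ρ : P →* GL (Fin n) F) :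
    Representation K P (Fin n → K) :=
  (Matrix.toLinAlgEquiv' : Matrix (Fin n) (Fin n) K ≃ₐ[K] _).toRingEquiv.toMonoidHom.comp
    ((algebraMap F K).mapMatrix.toMonoidHom.comp ((Units.coeHom _).comp ρ))

theorem extRep_apply (K : Type*) [Field K] [Algebra F K] (ρ : P →* GL (Fin n) F) (g : P)
    (v : Fin n → K) (i : Fin n) : extRep K ρ g v i = ∑ j, algebraMap F K (ρ g i j) * v j := rfl

theorem ker_extRep (K : Type*) [Field K] [Algebra F K] (ρ : P →* GL (Fin n) F) :
    MonoidHom.ker (extRep K ρ) ≤ ρ.ker := fun _ hg => Units.ext <|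
  Matrix.map_injective (algebraMap F K).injective <| (Matrix.toLinAlgEquiv'.injective
    (hg.trans (map_one _).symm)).trans (Matrix.map_one _ (map_zero _) (map_one _)).symm

theorem derivedSeries_le_ker_GL [Finite P] {p : ℕ} [hp : Fact p.Prime] (hP : IsPGroup p P)
    (ρ : P →* GL (Fin n) F) {k : ℕ} (hk : n < 2 ^ k) : derivedSeries P k ≤ ρ.ker := by
  refine le_trans ?_ (ker_extRep (AlgebraicClosure F) ρ)
  by_cases h : (p : AlgebraicClosure F) = 0
  · have := (CharP.charP_iff_prime_eq_zero hp.out).2 h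
    exact derivedSeries_le_ker_charP hP _ (by simpa using hk.le)
  · exact derivedSeries_le_ker_coprime h k n hP _ (by simp)
      (hk.trans_le (Nat.pow_le_pow_left hp.out.two_le k))

theorem orderOf_natCast_pos {p q : ℕ} [hp : Fact p.Prime] (h : ¬ p ∣ q) :
    0 < orderOf (q : ZMod p) :=
  (isOfFinOrder_iff_pow_eq_one.2 ⟨p - 1, Nat.sub_pos_of_lt hp.out.one_lt,
    ZMod.pow_card_sub_one_eq_one (mt (ZMod.natCast_eq_zero_iff q p).1 h)⟩).orderOf_pos

theorem derivedSeries_le_ker_GL_finite [Fintype F] [Finite P] {p : ℕ} [hp : Fact p.Prime]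
    (hP : IsPGroup p P) (hq : ¬ p ∣ Fintype.card F) (ρ : P →* GL (Fin n) F) {k : ℕ}
    (hk : n / orderOf (Fintype.card F : ZMod p) < p ^ k) : derivedSeries P k ≤ ρ.ker := by
  refine le_trans ?_ (ker_extRep (AlgebraicClosure F) ρ)
  let φ := FiniteField.frobeniusAlgHom F (AlgebraicClosure F)
  refine derivedSeries_le_ker_frob ?_ Fintype.card_ne_zero k n hP _
    ((φ : AlgebraicClosure F →+* AlgebraicClosure F).toAddMonoidHom.compLeft _)
    (fun v w h => funext fun i => φ.injective (congrFun h i))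
    (fun r v => funext fun i => mul_pow _ _ _) (fun g v => funext fun i => ?_) (by simp) ?_
  · rw [← map_natCast (algebraMap F _), map_ne_zero]
    exact ((isUnit_iff_not_dvd_char F p).2 (mt (prime_dvd_char_iff_dvd_card p).1 hq)).ne_zero
  · change φ (extRep _ ρ g v i) = _
    simp only [extRep_apply, map_sum, map_mul, AlgHom.commutes]
    rfl
  · rwa [Nat.div_lt_iff_lt_mul (orderOf_natCast_pos hq), mul_comm] at hk

end Matrices

theorem derivedSeries_le_of_index_le {p : ℕ} [hp : Fact p.Prime] (k : ℕ) :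
    ∀ {P : Type u} [Group P] [Finite P], IsPGroup p P → ∀ H : Subgroup P, H.index < p ^ (k + 1) →
      derivedSeries P k ≤ H := by
  induction k with
  | zero =>
    intro P _ _ hP H h
    obtain ⟨j, hj⟩ := hP.index H
    rw [hj, Nat.pow_lt_pow_iff_right hp.out.one_lt, Nat.lt_one_iff] at h
    exact (index_eq_one.1 (by rw [hj, h, pow_zero])).ge
  | succ k ih =>
    intro P _ _ hP H h
    rcases eq_or_ne H ⊤ with rfl | hH
    · exact le_top
    obtain ⟨M, hM, hHM, hi⟩ := H7.exists_le_index_eq hP hH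
    rw [← relIndex_mul_index hHM, hi, pow_succ, Nat.mul_lt_mul_right hp.out.pos] at h
    rw [add_comm]
    exact (derivedSeries_add_le_map ((derivedSeries_one P).le.trans
      (H7.commutator_le_of_index_prime (hi ▸ hp.out))) k).trans
      (map_le_iff_le_comap.2 (ih (hP.to_subgroup M) _ h))

theorem derivedSeries_wreath_ne_bot {D Q : Type*} [Group D] [Group Q] [Nontrivial Q] {k : ℕ}
    (h : derivedSeries D k ≠ ⊥) : derivedSeries (D ≀ᵣ Q) (k + 1) ≠ ⊥ := by
  classical
  let B := (RegularWreathProduct.rightHom : D ≀ᵣ Q →* Q).ker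
  let π : B →* D := MonoidHom.mk' (fun w => w.1.left 1) fun a b => by
    simp [show a.1.right = 1 from a.2]
  have : ∀ j, derivedSeries D j ≤ ((derivedSeries (D ≀ᵣ Q) (j + 1)).subgroupOf B).map π := by
    intro j
    induction j with
    | zero =>
      intro d _
      obtain ⟨q, hq⟩ := exists_ne (1 : Q)
      refine ⟨⟨⁅(⟨Pi.mulSingle 1 d, 1⟩ : D ≀ᵣ Q), RegularWreathProduct.inl q⁆, ?_⟩,
        commutator_mem_commutator (mem_top _) (mem_top _), ?_⟩
      · simp [B, commutatorElement_def]
      · simp [π, commutatorElement_def, hq]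
    | succ j ih =>
      refine commutator_le.2 fun x hx y hy => ?_
      obtain ⟨x, hx', rfl⟩ := ih hx
      obtain ⟨y, hy', rfl⟩ := ih hy
      exact ⟨⁅x, y⁆, commutator_mem_commutator hx' hy', map_commutatorElement _ _ _⟩
  exact fun h' => h (eq_bot_iff.2 ((this k).trans (by rw [h']; simp)))

theorem derivedSeries_ne_bot_of_sylow {G D : Type*} [Group G] [Finite G] [Group D] {p : ℕ}
    [Fact p.Prime] (hD : IsPGroup p D) (f : D →* G) (hf : Function.Injective f) {k : ℕ}
    (h : derivedSeries D k ≠ ⊥) (P : Sylow p G) : derivedSeries P k ≠ ⊥ := by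
  obtain ⟨Q, hQ⟩ := (hD.of_equiv (MonoidHom.ofInjective hf)).exists_le_sylow
  let g : D →* P := ((Q.equiv P).toMonoidHom.comp (inclusion hQ)).comp f.rangeRestrict
  have hg : Function.Injective g := ((Q.equiv P).injective.comp (inclusion_injective hQ)).comp
    (MonoidHom.rangeRestrict_injective_iff.2 hf)
  exact fun h' => h ((map_eq_bot_iff_of_injective _ hg).1
    (eq_bot_iff.2 ((map_derivedSeries_le_derivedSeries g k).trans h'.le)))

theorem isPGroup_wreath {D Q : Type*} [Group D] [Group Q] [Finite D] [Finite Q] {p : ℕ}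
    [Fact p.Prime] (hD : IsPGroup p D) (hQ : IsPGroup p Q) : IsPGroup p (D ≀ᵣ Q) := by
  obtain ⟨a, ha⟩ := IsPGroup.iff_card.1 hD
  obtain ⟨b, hb⟩ := IsPGroup.iff_card.1 hQ
  exact IsPGroup.of_card (by rw [RegularWreathProduct.card, ha, hb, ← pow_mul, ← pow_add])

/-- The representation of a wreath product on a power of the space. -/
def wreathRep {K V D : Type*} [Semiring K] [AddCommMonoid V] [Module K V] [Group D]
    (ρ : Representation K D V) (Q : Type*) [Group Q] : Representation K (D ≀ᵣ Q) (Q → V) where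
  toFun w := LinearMap.pi fun x => ρ (w.left x) ∘ₗ LinearMap.proj (w.right⁻¹ * x)
  map_one' := by ext; simp
  map_mul' a b := LinearMap.ext fun v => funext fun x => by simp [mul_assoc]

theorem wreathRep_injective {K V D : Type*} [Semiring K] [AddCommMonoid V] [Module K V] [Group D]
    [Nontrivial V] {ρ : Representation K D V} (h : Function.Injective ρ) (Q : Type*) [Group Q] :
    Function.Injective (wreathRep ρ Q) := by
  classical
  refine (injective_iff_map_eq_one _).2 fun w hw => ?_
  have h1 : ∀ (v : Q → V) x, ρ (w.left x) (v (w.right⁻¹ * x)) = v x := fun v x =>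
    congrFun (LinearMap.congr_fun hw v) x
  obtain ⟨u, hu⟩ := exists_ne (0 : V)
  refine RegularWreathProduct.ext (funext fun x => h (LinearMap.ext fun v => ?_)) ?_
  · simpa using h1 (fun _ => v) x
  · by_contra h2
    have := h1 (Pi.single 1 u) 1
    rw [Pi.single_eq_of_ne (by simpa using h2), map_zero, Pi.single_eq_same] at this
    exact hu this.symm

end Cfsg.Agent.H90
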