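import Cfsg.Agent.H54.O84Defs

/-! The torus lies in the subsystem subgroup of type `D₄ D₄` (characteristic two). -/

set_option autoImplicit false
set_option maxRecDepth 100000

namespace Cfsg.Agent.H90.O84Nm1

open Cfsg.Agent.H54.O84 Equiv Cfsg.Lie H37 H40 H34 H29

theorem mem_Ψ0 {r : Rt} : r ∈ Ψ0 ↔ (r : ℕ) ∈ d0L ++ d1L := by
  rw [List.mem_append, ← mem_Δ0, ← mem_Δ1]; rfl

theorem neg_mem_Ψ0 {r : Rt} (h : r ∈ Ψ0) : C8.S.neg r ∈ Ψ0 := by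
  have : ∀ r ∈ d0L ++ d1L, 239 - r ∈ d0L ++ d1L := by decide +kernel
  rw [mem_Ψ0, H54.O84.neg_val]
  exact this _ (mem_Ψ0.1 h)

theorem ng_mem {r : Rt} (h : r ∈ Ψ0) (t : K) : C8.ng K r t ∈ P8.U Ψ0 := by
  rw [Cert.ng_eq, ← C8.neg_val r]
  exact mul_mem (mul_mem (Split.mem_U h (Cert.xg_mem_X r _))
    (Split.mem_U (neg_mem_Ψ0 h) (Cert.xg_mem_X _ _))) (Split.mem_U h (Cert.xg_mem_X r _))

theorem tg_mem {r : ℕ} (h : r ∈ d0L ++ d1L) (t : Kˣ) :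
    (fun i : Ix => t ^ rcN r i) ∈ (P8.U Ψ0).comap (C8.tg K) := by
  have hl : ∀ r ∈ d0L ++ d1L, r < chevE8.nroots := by decide +kernel
  have h' : (⟨r, hl r h⟩ : Rt) ∈ Ψ0 := mem_Ψ0.2 h
  have e : (fun i : Ix => t ^ rcN r i) = fun i : Ix => t ^ co chevE8 r i := funext fun i => by
    rw [← co_val ⟨r, hl r h⟩ i, C8.co_eq]
  rw [Subgroup.mem_comap, e, ← Cert.hg_eq_tg (hl r h), Cert.hg_eq]
  exact mul_mem (ng_mem h' _) (ng_mem h' _)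

theorem nm1 : Nm1Stmt := by
  intro g hg
  obtain ⟨c, rfl⟩ := Cert.mem_H_iff.1 hg
  have key : ∀ i < 8, ∃ q ∈ [(78, 87, 104, 228), (141, 141, 0, 239), (135, 135, 0, 239),
      (130, 130, 0, 239), (126, 126, 0, 239), (11, 87, 113, 237), (121, 121, 0, 239),
      (120, 120, 0, 239)], q.1 ∈ d0L ++ d1L ∧ q.2.1 ∈ d0L ++ d1L ∧ q.2.2.1 ∈ d0L ++ d1L ∧
      q.2.2.2 ∈ d0L ++ d1L ∧ ∀ j < 8, rcN q.1 j + rcN q.2.1 j + rcN q.2.2.1 j + rcN q.2.2.2 j =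
        if j = i then 2 else 0 := by decide +kernel
  show c ∈ (P8.U Ψ0).comap (C8.tg K)
  rw [← Finset.univ_prod_mulSingle c]
  refine Subgroup.prod_mem _ fun i _ => ?_
  obtain ⟨q, -, h1, h2, h3, h4, e⟩ := key i i.2
  obtain ⟨s, hs⟩ := IsAlgClosed.exists_pow_nat_eq (c i : K) two_pos
  have h0 : s ≠ 0 := by
    rintro rfl
    exact (c i).ne_zero (by rw [← hs]; simp)
  have hs' : Units.mk0 s h0 ^ (2 : ℤ) = c i := Units.ext (by simpa using hs)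
  convert mul_mem (mul_mem (mul_mem (tg_mem h1 (Units.mk0 s h0)) (tg_mem h2 (Units.mk0 s h0)))
    (tg_mem h3 (Units.mk0 s h0))) (tg_mem h4 (Units.mk0 s h0)) using 1
  funext j
  simp only [Pi.mul_apply, ← zpow_add, e j j.2, Fin.val_inj]
  split_ifs with h
  · rw [h, Pi.mulSingle_eq_same, hs']
  · rw [Pi.mulSingle_eq_of_ne h, zpow_zero]

end Cfsg.Agent.H90.O84Nm1
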