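import Cfsg.Agent.H74.RuDefs

/-! RU-END: a proper subgroup with a point all of whose lines are good is reducible. -/

set_option autoImplicit false

namespace Cfsg.Agent.H90.RuEnd

open Cfsg Module Cfsg.Agent.H31 Cfsg.Agent.H74.Ru

theorem stab_span {F V : Type} [Field F] [AddCommGroup V] [Module F V] [FiniteDimensional F V]
    {s : Set V} {g : V ≃ₗ[F] V} (h : ∀ x ∈ s, g x ∈ s) : g ∈ stab (Submodule.span F s) :=
  mem_stab_of_le fun _ hx =>
    (Submodule.span_le.2 fun y hy => Submodule.subset_span (h y hy) :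
      Submodule.span F s ≤ (Submodule.span F s).comap (g : V →ₗ[F] V)) hx

theorem en (gb : GbStmt) (en1 : En1Stmt) : EndStmt := by
  intro F V _ _ _ _ _ S K hK hne hx
  obtain ⟨g1, -, -, g4⟩ := gb S K hK
  have h := S.herm
  have hI : K ≤ isom S.B := fun g hg => (hK hg).1
  by_cases hp : ∀ x, S.All K x → ∀ y, S.All K y → S.B x y = 0
  · obtain ⟨x, hx⟩ := hx
    refine Or.inl ⟨Submodule.span F {x | S.All K x}, fun e => hx.1 ?_, totIso_span_iff.2 hp,
      fun g hg => stab_span fun y hy => (g1 g hg y y).2.2.2.1 hy⟩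
    exact (Submodule.mem_bot F).1 (e ▸ Submodule.subset_span hx)
  push Not at hp
  clear hx
  obtain ⟨x, hx, x', hx', hxx⟩ := hp
  obtain ⟨E, e1, e2, e3, e4⟩ := en1 S K hK x x' hx hx' hxx
  have key : ∀ z, S.B z z = 0 → S.B x z = 0 → z ∉ F ∙ x → ∃ a ∈ K, a z = z - x := by
    intro z z1 z2 z3
    obtain ⟨w, w1, w2⟩ := hx.2.2 z ⟨hx.2.1, z1, z2, hx.1, z3⟩ 1
    obtain ⟨a, a1, -, a2⟩ := g4 x w hx.2.1 w1
    exact ⟨a, a1, by rw [a2 z z2, w2, one_smul]⟩
  obtain ⟨Y, hY⟩ : ∃ Y, Y = Submodule.span F {w | S.B w w = 0 ∧ HasTv S.B K w} := ⟨_, rfl⟩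
  have xY : x ∈ Y := hY ▸ Submodule.subset_span ⟨hx.2.1, hasTv_of_suOn h.toIsHermSymm e4 e3⟩
  have kY : K ≤ stab Y := fun g hg =>
    hY ▸ stab_span fun w hw => ⟨isotropic_map (hI hg) hw.1, hw.2.map (hI hg) hg⟩
  have kZ : K ≤ stab (perp S.B Y) := fun g hg => mem_stab_perp (hI hg) (kY hg)
  by_cases z0 : perp S.B Y = ⊥
  · exfalso
    have hs : ∀ r : V, r ≠ 0 → ∃ w, S.B w w = 0 ∧ HasTv S.B K w ∧ S.B r w ≠ 0 := fun r hr => by
      by_contra hc
      push Not at hc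
      refine hr ((Submodule.mem_bot F).1 (z0 ▸ ?_))
      rw [hY, mem_perp_span]
      exact fun w hw => h.flip_zero (hc w hw.1 hw.2)
    obtain ⟨E', f1, f2, f3, f4, -⟩ := h.exists_grow hI hs e1 e2.ge e4
    by_cases p0 : perp S.B E' = ⊥
    · rw [h.perp_injective (p0.trans h.perp_top.symm), h.suOn_top] at f3
      exact hne f3
    obtain ⟨r, r1, r2⟩ := Submodule.exists_mem_ne_zero_of_ne_bot p0
    obtain ⟨w, w1, w2, w3⟩ := hs r r2
    have wE : w ∉ E' := fun k => w3 (h.flip_zero (r1 w k))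
    have wP := (f4 w w1 w2).resolve_left wE
    obtain ⟨a, a1, a2⟩ := key w w1 (wP x (f1 e3)) fun k =>
      wE ((Submodule.span_singleton_le_iff_mem _ _).2 (f1 e3) k)
    rcases f4 (a w) (isotropic_map (hI a1) w1) (w2.map (hI a1) a1) with k | k <;> rw [a2] at k
    · exact wE (by simpa using E'.add_mem k (f1 e3))
    · exact h.notMem_perp_of_nondegOn f2 (f1 e3) hx.1 (by simpa using Submodule.sub_mem _ wP k)
  by_cases i0 : Y ⊓ perp S.B Y = ⊥
  swap
  · exact Or.inl ⟨_, i0, fun a ha b hb => hb.2 a ha.1, fun g hg y =>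
      and_congr (kY hg y) (kZ hg y)⟩
  have nY : NondegOn S.B Y := h.nondegOn_iff_disjoint.2 (disjoint_iff.2 i0)
  have nZ := h.nondegOn_perp nY
  by_cases d2 : 2 ≤ finrank F (perp S.B Y)
  · exfalso
    obtain ⟨z, z1, z2, z3⟩ := h.exists_isotropic nZ d2
    obtain ⟨a, a1, a2⟩ := key z z3 (z1 x xY) fun k =>
      h.notMem_perp_of_nondegOn nY ((Submodule.span_singleton_le_iff_mem _ _).2 xY k) z2 z1
    have k := (kZ a1 z).1 z1
    rw [a2] at k
    exact h.notMem_perp_of_nondegOn nY xY hx.1 (by simpa using Submodule.sub_mem _ z1 k)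
  obtain ⟨v, v1, v2⟩ := h.exists_norm_ne_zero nZ z0
  have v0 : v ≠ 0 := by rintro rfl; simp at v2
  refine Or.inr ⟨v, v2, ?_⟩
  rwa [Submodule.eq_of_le_of_finrank_le ((Submodule.span_singleton_le_iff_mem _ _).2 v1)
    (by rw [finrank_span_singleton v0]; omega)]

end Cfsg.Agent.H90.RuEnd
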