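import Cfsg.Agent.H74.RuDefs

/-! RU-GB: equivariance of good and bad flags. -/

set_option autoImplicit false

namespace Cfsg.Agent.H90.RuGb

open Cfsg Module Cfsg.Agent.H31 Cfsg.Agent.H74.Ru

variable {F V : Type} [Field F] [Fintype F] [AddCommGroup V] [Module F V] {S : Un F V}
  {K : Subgroup (V ≃ₗ[F] V)} {k : V ≃ₗ[F] V} {x y w : V}

theorem radK (hK : K ≤ S.G) (hk : k ∈ K) (h : S.Rad K x w) : S.Rad K (k x) (k w) := by
  obtain ⟨h1, c, g, hg, e⟩ := h
  have hi : k ∈ isom S.B := (hK hk).1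
  refine ⟨(hi x w).trans h1, c, _, mul_mem (mul_mem hk hg) (inv_mem hk), fun z => ?_⟩
  rw [LinearEquiv.mul_apply, LinearEquiv.mul_apply, e, map_add, map_sub, map_add, map_smul,
    map_smul, map_smul, apply_inv_apply, ← isom_adj hi, ← isom_adj hi]

theorem radS {a : F} (_ha : a ≠ 0) (h : S.Rad K (a • x) w) : S.Rad K x (S.σ a • w) := by
  obtain ⟨h1, c, g, hg, e⟩ := h
  rw [smul_left] at h1
  refine ⟨by rw [smul_right, h1], a * S.σ a * c, g, hg, fun z => ?_⟩
  rw [e z, smul_left, smul_left, S.herm.inv.invol]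
  module

theorem goodK (hK : K ≤ S.G) (hk : k ∈ K) (h : S.Good K x y) : S.Good K (k x) (k y) := fun c => by
  obtain ⟨w, w1, w2⟩ := h c
  exact ⟨k w, radK hK hk w1, ((hK hk).1 w y).trans w2⟩

theorem tiK (hi : k ∈ isom S.B) (h : S.TI x y) : S.TI (k x) (k y) := by
  obtain ⟨h1, h2, h3, h4, h5⟩ := h
  refine ⟨(hi x x).trans h1, (hi y y).trans h2, (hi x y).trans h3, by simpa using h4, fun e => ?_⟩
  obtain ⟨a, ha⟩ := Submodule.mem_span_singleton.1 e
  exact h5 (Submodule.mem_span_singleton.2 ⟨a, k.injective (by rw [map_smul, ha])⟩)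

theorem goodS {a b : F} (c : F) (ha : a ≠ 0) (hb : b ≠ 0) (h : S.Good K x y) :
    S.Good K (a • x) (b • y + c • x) := fun d => by
  obtain ⟨w, w1, w2⟩ := h (d * a / b)
  refine ⟨S.σ a⁻¹ • w, radS (inv_ne_zero ha) (by rwa [inv_smul_smul₀ ha]), ?_⟩
  rw [smul_left, S.herm.inv.invol, map_add, smul_right, smul_right, w2, S.herm.flip_zero w1.1]
  field_simp
  ring

theorem gb : GbStmt := by
  intro F V _ _ _ _ _ S K hK
  refine ⟨fun k hk x y => ⟨goodK hK hk, fun h w hw => ?_, tiK (hK hk).1, fun h => ?_,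
    fun w => radK hK hk⟩, fun a b c x y ha hb hx => ⟨goodS c ha hb, fun h w hw => ?_, fun h => ?_⟩,
    fun x y g b => ?_, fun x w hx h => ?_⟩
  · have := radK hK (inv_mem hk) hw
    rw [inv_apply_apply] at this
    rw [← h _ this, ← (hK hk).1 (k⁻¹ w) y, apply_inv_apply]
  · refine ⟨by simpa using h.1, ((hK hk).1 x x).trans h.2.1, fun z hz => ?_⟩
    have := tiK (hK (inv_mem hk)).1 hz
    rw [inv_apply_apply] at this
    have := goodK hK hk (h.2.2 _ this)
    rwa [apply_inv_apply] at this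
  · have h1 := h _ (radS ha hw)
    have h2 := S.herm.flip_zero hw.1
    rw [smul_left, S.herm.inv.invol] at h1
    rw [smul_right] at h2
    rw [map_add, smul_right, smul_right, (mul_eq_zero.1 h1).resolve_left ha,
      (mul_eq_zero.1 h2).resolve_left ha, mul_zero, mul_zero, add_zero]
  · refine ⟨smul_ne_zero ha h.1, isotropic_smul hx a, fun z hz => ?_⟩
    have h3 := hz.2.2.1
    rw [smul_left] at h3
    have := goodS 0 ha one_ne_zero (h.2.2 z ⟨hx, hz.2.1,
      (mul_eq_zero.1 h3).resolve_left ((map_ne_zero S.σ).2 ha), h.1, fun e => hz.2.2.2.2 (by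
        rwa [Submodule.span_singleton_smul_eq (Ne.isUnit ha)])⟩)
    rwa [one_smul, zero_smul, add_zero] at this
  · obtain ⟨w, w1, w2⟩ := g 1
    exact one_ne_zero (w2.symm.trans (b w w1))
  · obtain ⟨h1, c, g, hg, e⟩ := h
    exact ⟨g, hg, e.mem_uniRad S.herm.toIsHermSymm hx h1 (hK hg), fun z hz => e.apply_of_perp hz⟩

end Cfsg.Agent.H90.RuGb
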