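import Cfsg.Agent.H35.S4Defs

/-! Project S4, piece MON1: the odd order trick. -/

set_option autoImplicit false
set_option linter.unusedSectionVars false

namespace Cfsg.Agent.H90.S4Mon1

open Cfsg Cfsg.Agent.H63 Cfsg.Agent.H63.SL Cfsg.Agent.H35.S4 Subgroup
open scoped commutatorElement

universe u v

section Gen

variable {A : Type v} [CommRing A] {G : Type u} [Group G]

theorem map0 {Z : A → G} (h : ∀ a b, Z (a + b) = Z a * Z b) : Z 0 = 1 := by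
  simpa using h 0 0

theorem sq1 (two : (2 : A) = 0) {Z : A → G} (h : ∀ a b, Z (a + b) = Z a * Z b) (a : A) :
    Z a * Z a = 1 := by
  rw [← h, ← two_mul, two, zero_mul, map0 h]

/-- the elements stabilizing `S > Z > 1` -/
def St (S : Set G) (Z : A → G) (two : (2 : A) = 0) (h : ∀ a b, Z (a + b) = Z a * Z b) :
    Subgroup G where
  carrier := {g | (∀ d, g * Z d * g⁻¹ = Z d) ∧ ∀ v ∈ S, ∃ e, g * v * g⁻¹ = v * Z e}
  one_mem' := ⟨by simp, fun v _ => ⟨0, by simp [map0 h]⟩⟩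
  mul_mem' := by
    rintro a b ⟨h1, h2⟩ ⟨e1, e2⟩
    refine ⟨fun d => ?_, fun v hv => ?_⟩
    · rw [show a * b * Z d * (a * b)⁻¹ = a * (b * Z d * b⁻¹) * a⁻¹ by group, e1, h1]
    · obtain ⟨c, hc⟩ := h2 v hv
      obtain ⟨e, he⟩ := e2 v hv
      exact ⟨c + e, by rw [show a * b * v * (a * b)⁻¹ = a * (b * v * b⁻¹) * a⁻¹ by group, he,
        ← conj_mul, hc, h1, h, mul_assoc]⟩
  inv_mem' := by
    rintro a ⟨h1, h2⟩
    have k : ∀ d, a⁻¹ * Z d * a⁻¹⁻¹ = Z d := fun d => by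
      conv_lhs => rw [← h1]
      group
    refine ⟨k, fun v hv => ?_⟩
    obtain ⟨c, hc⟩ := h2 v hv
    refine ⟨c, ?_⟩
    have : v = a * v * a⁻¹ * Z c := by rw [hc, mul_assoc, sq1 two h, mul_one]
    conv_lhs => rw [this, ← conj_mul, k]
    group

theorem St_nor [Finite G] {S : Set G} {Z : A → G} (two : (2 : A) = 0)
    (h : ∀ a b, Z (a + b) = Z a * Z b) {t : G} {σ : A → A} (s2 : ∀ a, σ (σ a) = a)
    (hZ : ∀ a, t * Z a * t⁻¹ = Z (σ a)) (hS : ∀ v ∈ S, ∃ w ∈ S, v = t * w * t⁻¹) :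
    t ∈ N[St S Z two h] := mem_normalizer_fintype fun g hg => by
  refine ⟨fun d => ?_, fun v hv => ?_⟩
  · conv_lhs => rw [← s2 d, ← hZ, conj_mul, conj_inv, conj_mul, hg.1, hZ, s2]
  · obtain ⟨w, hw, rfl⟩ := hS v hv
    obtain ⟨e, he⟩ := hg.2 w hw
    exact ⟨σ e, by rw [conj_mul, conj_inv, conj_mul, he, ← hZ, conj_mul]⟩

/-- three commuting additive families -/
structure Tri (P Z Q : A → G) : Prop where
  two : (2 : A) = 0
  aP : ∀ a b, P (a + b) = P a * P b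
  aZ : ∀ a b, Z (a + b) = Z a * Z b
  aQ : ∀ a b, Q (a + b) = Q a * Q b
  pz : ∀ a b, Commute (P a) (Z b)
  pq : ∀ a b, Commute (P a) (Q b)
  zq : ∀ a b, Commute (Z a) (Q b)

/-- the product -/
def V (P Z Q : A → G) (a d c : A) : G := P a * Z d * Q c

variable {P Z Q : A → G}

theorem Tri.mul (T : Tri P Z Q) (a d c a' d' c' : A) :
    V P Z Q a d c * V P Z Q a' d' c' = V P Z Q (a + a') (d + d') (c + c') := by
  simp only [V, T.aP, T.aZ, T.aQ, mul_assoc]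
  rw [← (T.pq a' c).left_comm, ← (T.zq d' c).left_comm, ← (T.pz a' d).left_comm]

theorem Tri.eP (T : Tri P Z Q) (a : A) : P a = V P Z Q a 0 0 := by simp [V, map0 T.aZ, map0 T.aQ]

theorem Tri.eZ (T : Tri P Z Q) (a : A) : Z a = V P Z Q 0 a 0 := by simp [V, map0 T.aP, map0 T.aQ]

theorem Tri.eQ (T : Tri P Z Q) (a : A) : Q a = V P Z Q 0 0 a := by simp [V, map0 T.aP, map0 T.aZ]

theorem conj_V (g : G) (a d c : A) : g * V P Z Q a d c * g⁻¹ =
    g * P a * g⁻¹ * (g * Z d * g⁻¹) * (g * Q c * g⁻¹) := by simp only [V, conj_mul]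

theorem cj_of_comm {p u z : G} (hp : p * p = 1) (h : ⁅p, u⁆ = z) : u * p * u⁻¹ = p * z := by
  rw [← h, commutatorElement_def, inv_eq_of_mul_eq_one_right hp, ← mul_assoc, ← mul_assoc,
    ← mul_assoc, hp, one_mul]

theorem Tri.weyl (T : Tri P Z Q) {u w : G} {f g : A → A} {b b' : A} (hb : b * b' = 1)
    (uP : ∀ a, ⁅P a, u⁆ = Z (f a) * Q (a * b)) (uZ : ∀ a, Commute u (Z a))
    (uQ : ∀ a, Commute u (Q a)) (wP : ∀ a, Commute w (P a)) (wZ : ∀ a, Commute w (Z a))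
    (wQ : ∀ a, ⁅Q a, w⁆ = Z (g a) * P (a * b')) (a d c : A) :
    u * w * u * V P Z Q a d c * (u * w * u)⁻¹ =
      V P Z Q (c * b') (d + (f a + g (c + a * b) + f (c * b'))) (a * b) := by
  have h1 : ∀ a d c, u * V P Z Q a d c * u⁻¹ = V P Z Q a (d + f a) (c + a * b) := fun a d c => by
    rw [conj_V, cj_of_comm (sq1 T.two T.aP a) (uP a), (uZ d).mul_inv_cancel, (uQ c).mul_inv_cancel]
    simp only [T.eP, T.eZ, T.eQ, T.mul]
    congr 1 <;> ring
  have h2 : ∀ a d c, w * V P Z Q a d c * w⁻¹ = V P Z Q (a + c * b') (d + g c) c := fun a d c => by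
    rw [conj_V, cj_of_comm (sq1 T.two T.aQ c) (wQ c), (wZ d).mul_inv_cancel, (wP a).mul_inv_cancel]
    simp only [T.eP, T.eZ, T.eQ, T.mul]
    congr 1 <;> ring
  rw [show ∀ v, u * w * u * v * (u * w * u)⁻¹ = u * (w * (u * v * u⁻¹) * w⁻¹) * u⁻¹ from
    fun _ => by group, h1, h2, h1,
    show a + (c + a * b) * b' = c * b' by linear_combination a * hb + a * T.two]
  congr 1
  · ring
  · linear_combination c * hb + c * T.two

theorem Tri.mem (T : Tri P Z Q) {n h h' : G} {b b' p z q p' z' q' : A} {N : A → A → A}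
    (hb : b * b' = 1) (nn : n * n = 1) (nZ : ∀ a, Commute n (Z a))
    (hn : ∀ a d c, n * V P Z Q a d c * n⁻¹ = V P Z Q (c * b') (d + N a c) (a * b))
    (e1 : ∀ a, h * P a * h⁻¹ = P (p * a)) (e2 : ∀ a, h * Z a * h⁻¹ = Z (z * a))
    (e3 : ∀ a, h * Q a * h⁻¹ = Q (q * a)) (f1 : ∀ a, h' * P a * h'⁻¹ = P (q' * a))
    (f2 : ∀ a, h' * Z a * h'⁻¹ = Z (z' * a)) (f3 : ∀ a, h' * Q a * h'⁻¹ = Q (p' * a))
    (hp : p' * p = 1) (hz : z' * z = 1) (hq : q' * q = 1) :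
    h' * (n * h * n⁻¹) ∈ St {v | ∃ a d c, v = V P Z Q a d c} Z T.two T.aZ := by
  have k : ∀ v, h' * (n * h * n⁻¹) * v * (h' * (n * h * n⁻¹))⁻¹ =
      h' * (n * (h * (n * v * n⁻¹) * h⁻¹) * n⁻¹) * h'⁻¹ := fun v => by
    rw [show n * v * n⁻¹ = n⁻¹ * v * n by rw [inv_eq_of_mul_eq_one_right nn]]; group
  refine ⟨fun d => ?_, ?_⟩
  · rw [k, (nZ _).mul_inv_cancel, e2, (nZ _).mul_inv_cancel, f2, ← mul_assoc, hz, one_mul]
  · rintro _ ⟨a, d, c, rfl⟩
    refine ⟨N a c + z' * N (p * (c * b')) (q * (a * b)), ?_⟩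
    rw [k, hn, conj_V h, e1, e2, e3, ← V, hn, conj_V h', f1, f2, f3, ← V, T.eZ (_ + _), T.mul]
    congr 1
    · linear_combination q' * q * a * hb + a * hq
    · linear_combination (d + N a c) * hz
    · linear_combination p' * p * c * hb + c * hp

theorem comm_of_odd {k z : G} (h : Odd (orderOf k)) (e : Commute (k * k) z) : Commute k z := by
  obtain ⟨n, hn⟩ := h
  have : k = (k * k) ^ (n + 1) := by
    rw [← sq, ← pow_mul, show 2 * (n + 1) = orderOf k + 1 by omega, pow_succ, pow_orderOf_eq_one,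
      one_mul]
  exact this ▸ e.pow_left _

end Gen

/-- **MON1** -/
theorem mon1 : Mon1Stmt.{u, v} := by
  intro F _ _ G _ _ L x t hC A _ j σ y m H a b b' hb
  have two := H.quad.two
  have T2 : Tri (y 1) (y 2) (y 3) := ⟨two, H.add 1, H.add 2, H.add 3, H.c1 1, H.c2 1, H.c1 2⟩
  have T6 : Tri (y 7) (y 6) (y 5) := ⟨two, H.add 7, H.add 6, H.add 5, fun a b => (H.c1 6 b a).symm,
    fun a b => (H.c2 5 b a).symm, fun a b => (H.c1 5 b a).symm⟩
  have rf : ∀ k i1 i2 i3 i4 : ZMod 8, (∀ a b, ⁅y i1 a, y i2 b⁆ = y i3 (m a b) * y i4 (a * b)) →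
      ∀ a b, ⁅y (2 * k + 4 - i1) a, y (2 * k + 4 - i2) b⁆ =
        y (2 * k + 4 - i3) (m a b) * y (2 * k + 4 - i4) (a * b) := fun k i1 i2 i3 i4 h a b => by
    rw [← H.wey, ← H.wey, ← H.wey, ← H.wey, conj_mul, ← h, conjugate_commutatorElement]
  have r30 : ∀ a b, ⁅y 3 a, y 0 b⁆ = y 2 (m a b) * y 1 (a * b) := rf 0 1 4 2 3 H.rs
  have r74 : ∀ a b, ⁅y 7 a, y 4 b⁆ = y 6 (m a b) * y 5 (a * b) := rf 2 1 4 2 3 H.rs
  have r50 : ∀ a b, ⁅y 5 a, y 0 b⁆ = y 6 (m a b) * y 7 (a * b) := rf 0 7 4 6 5 r74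
  have c42 : ∀ a, Commute (y 4 b) (y 2 a) := fun a => (H.c2 2 a b).symm
  have c02 : ∀ a, Commute (y 0 b') (y 2 a) := H.c2 0 b'
  have c46 : ∀ a, Commute (y 4 b) (y 6 a) := H.c2 4 b
  have c06 : ∀ a, Commute (y 0 b') (y 6 a) := fun a => (H.c2 6 a b').symm
  have w2 := T2.weyl (u := y 4 b) (w := y 0 b') hb (fun a => H.rs a b) c42 (fun a => (H.c1 3 a b).symm) (H.c1 0 b') c02
    fun a => r30 a b'
  have w6 := T6.weyl (u := y 4 b) (w := y 0 b') hb (fun a => r74 a b) c46 (H.c1 4 b) (fun a => (H.c1 7 a b').symm) c06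
    fun a => r50 a b'
  have nn : y 4 b * y 0 b' * y 4 b * (y 4 b * y 0 b' * y 4 b) = 1 := by
    rw [mul_assoc _ (y 4 b), ← mul_assoc (y 4 b) (y 4 b * _), ← mul_assoc (y 4 b) (y 4 b),
      sq1 two (H.add 4), one_mul, mul_assoc, ← mul_assoc (y 0 b'), sq1 two (H.add 0), one_mul,
      sq1 two (H.add 4)]
  have n2' := fun a => ((c42 a).mul_left (c02 a)).mul_left (c42 a)
  have n6' := fun a => ((c46 a).mul_left (c06 a)).mul_left (c46 a)
  generalize y 4 b * y 0 b' * y 4 b = n at w2 w6 nn n2' n6'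
  obtain ⟨γ, g1, -⟩ := hC.kb.ne1
  obtain ⟨h, hh, th⟩ := hC.kp.tor 1 γ
  obtain ⟨h', hh', th'⟩ := hC.kp.tor γ⁻¹ γ
  have e := H.tor h hh.1 _ _ th
  have e' := H.tor h' hh'.1 _ _ th'
  have jw : ∀ {α β : Fˣ}, α * β = 1 → j α * j β = 1 := fun h => by
    rw [← map_mul, ← Units.val_mul, h, Units.val_one, map_one]
  have k2 := T2.mem hb nn n2' w2 (e 1) (e 2) (e 3) (e' 1) (e' 2) (e' 3)
    (jw (by simp +decide [wt])) (jw (by simp +decide [wt, sq])) (jw (by simp +decide [wt]))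
  have k6 := T6.mem hb nn n6' w6 (e 7) (e 6) (e 5) (e' 7) (e' 6) (e' 5)
    (jw (by simp +decide [wt])) (jw (by simp +decide [wt, sq])) (jw (by simp +decide [wt]))
  have tn : ∀ {i1 i i2 : ZMod 8} (T : Tri (y i1) (y i) (y i2)),
      t ∈ N[St {v | ∃ a d c, v = V (y i1) (y i) (y i2) a d c} (y i) T.two T.aZ] := fun T =>
    St_nor _ _ H.quad.sq (H.conj _) (by
      rintro _ ⟨a, d, c, rfl⟩
      exact ⟨_, ⟨σ a, σ d, σ c, rfl⟩, by simp only [conj_V, H.conj, H.quad.sq]; rfl⟩)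
  have yi : ∀ i a b, y i a = y i b → a = b := fun i a b h => by
    have := H.inj i (a + b) (by rw [H.add, h, sq1 two (H.add i)])
    linear_combination this - b * two
  have dec : ∀ (i : ZMod 8) (S : Set G) (g : G), (∀ a d c, x (i - 1) a * x i d * x (i + 1) c ∈ S) →
      g ∈ St S (y i) two (H.add i) → Commute g t → ∃ v ∈ A3 x i, ∃ k ∈ C[L], g = v * k := by
    intro i S g hS hg c
    refine hC.kn.cA i g ⟨hC.tc.cN (mem_centralizer_singleton_iff.2 c), fun z hz => ?_⟩ fun v hv => ?_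
    · obtain ⟨a, rfl⟩ := (hC.kp.memX i z).1 hz
      rw [← H.res]
      exact (mul_inv_eq_iff_eq_mul.1 (hg.1 _)).symm
    · obtain ⟨a, d, c', rfl⟩ := (hC.kp.memA i v).1 hv
      have vL : x (i - 1) a * x i d * x (i + 1) c' ∈ L :=
        mul_mem (mul_mem (hC.kb.xL ..) (hC.kb.xL ..)) (hC.kb.xL ..)
      have cv : ∀ e, Commute (x (i - 1) a * x i d * x (i + 1) c') (y i e) := fun e => by
        simp only [← H.res]
        refine ((?_ : Commute _ _).mul_left ?_).mul_left (H.c1 i _ _).symm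
        · simpa using H.c1 (i - 1) (j a) e
        · rw [Commute, SemiconjBy, ← H.add, ← H.add, add_comm]
      obtain ⟨e, he⟩ := hg.2 _ (hS a d c')
      generalize x (i - 1) a * x i d * x (i + 1) c' = v at vL cv he
      have e1 : ⁅g, v⁆ = y i e := by
        rw [commutatorElement_def, he, (cv e).mul_inv_cancel]
      have e2 : t * ⁅g, v⁆ * t⁻¹ = ⁅g, v⁆ := by
        rw [conjugate_commutatorElement, c.symm.mul_inv_cancel, (hC.kb.tL v vL).mul_inv_cancel]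
      rw [e1, H.conj] at e2
      obtain ⟨u, rfl⟩ := (H.quad.fix e).1 (yi _ _ _ e2)
      rw [e1, H.res]
      exact (hC.kp.memX i _).2 ⟨u, rfl⟩
  have odd := hC.kb.oddN _ (inf_normalizer_le_normalizer_inf ⟨tn T2, tn T6⟩) (fun g hg c g2 => by
    obtain ⟨v, hv, k, hk, e1⟩ := dec 2 {v | ∃ a d c, v = V (y 1) (y 2) (y 3) a d c} g
      (fun a d c => ⟨j a, j d, j c, by simp only [V, H.res]; rfl⟩) hg.1 c
    obtain ⟨v', hv', k', hk', e2⟩ := dec 6 {v | ∃ a d c, v = V (y 7) (y 6) (y 5) a d c} g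
      (fun a d c => ⟨j c, j d, j a, by
      rw [← H.res, ← H.res, ← H.res]
      change y 5 _ * y 6 _ * y 7 _ = _
      rw [T6.eQ, T6.eZ, T6.eP, T6.mul, T6.mul]
      simp⟩) hg.2 c
    have aL : ∀ i, ∀ v ∈ A3 x i, v ∈ L := fun i v hv => by
      obtain ⟨a, d, c', rfl⟩ := (hC.kp.memA i v).1 hv
      exact mul_mem (mul_mem (hC.kb.xL ..) (hC.kb.xL ..)) (hC.kb.xL ..)
    have e3 : v'⁻¹ * v = k' * k⁻¹ := by
      rw [inv_mul_eq_iff_eq_mul, ← mul_assoc, ← e2, e1, mul_inv_cancel_right]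
    have e4 : v'⁻¹ * v ∈ Z[L] :=
      mem_inf.2 ⟨mul_mem (inv_mem (aL _ _ hv')) (aL _ _ hv), e3 ▸ mul_mem hk' (inv_mem hk)⟩
    rw [hC.mod.zL, mem_bot, inv_mul_eq_one] at e4
    have e5 : v ∈ A3 x 2 ⊓ A3 x (2 + 4) := ⟨hv, e4 ▸ hv'⟩
    rw [hC.kp.opp, mem_bot] at e5
    rw [e5, one_mul] at e1
    refine (hC.tc.one g (e1 ▸ hk) c g2).resolve_right fun e => ?_
    obtain ⟨ω, hω⟩ := H.quad.tr
    have e6 := hg.1.1 ω
    rw [e, H.conj, hω] at e6
    have e7 : x 2 1 = 1 := by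
      rw [← H.res, map_one, show (1 : A) = 0 by linear_combination yi _ _ _ e6, map0 (H.add 2)]
    exact one_ne_zero (hC.mod.pin.inj _ _ e7)) _ ⟨k2, k6⟩
  have w := w2 a 0 0
  rw [← T2.eP] at w
  have c1 : Commute (h' * (n * h * n⁻¹)) (n * y 1 a * n⁻¹) := comm_of_odd odd (by
    obtain ⟨d, hd⟩ := k2.2 _ ⟨_, _, _, w⟩
    have hz := k2.1 d
    generalize h' * (n * h * n⁻¹) = k at hd hz
    generalize n * y 1 a * n⁻¹ = z at hd
    rw [Commute, SemiconjBy, ← mul_inv_eq_iff_eq_mul,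
      show k * k * z * (k * k)⁻¹ = k * (k * z * k⁻¹) * k⁻¹ by group, hd, ← conj_mul, hd, hz,
      mul_assoc, sq1 two (H.add 2), mul_one])
  have c2 : Commute (n * h * n⁻¹) (n * y 1 a * n⁻¹) := Commute.conj (by
    rw [Commute, SemiconjBy, ← mul_inv_eq_iff_eq_mul, e]
    simp +decide [wt]) n
  have c3 := (c1.mul_left c2.inv_left).mul_inv_cancel
  have m0 : m 0 b = 0 := by simpa using H.madd 0 0 b
  rw [mul_inv_cancel_right, w, conj_V, e', e', e', V] at c3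
  simp +decide only [wt, if_true, if_false, zero_mul, mul_zero, zero_add, m0, add_zero,
    inv_mul_cancel, Units.val_one, map_one, one_mul, mul_left_inj, mul_right_inj] at c3
  have c4 := yi _ _ _ c3
  have u : j γ * j ((γ⁻¹ ^ 2 * γ : Fˣ) : F) = 1 := jw (by simp [sq])
  have u2 : j ((γ : F) - 1)⁻¹ * (j γ - 1) = 1 := by
    rw [← map_one j, ← map_sub, ← map_mul, inv_mul_cancel₀ (sub_ne_zero.2 (by simpa using g1))]
  linear_combination (-j ((γ : F) - 1)⁻¹ * j γ) * c4 + j ((γ : F) - 1)⁻¹ * (m a b + m (a * b) b') * u -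
    (m a b + m (a * b) b') * u2 - m (a * b) b' * two

end Cfsg.Agent.H90.S4Mon1
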