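import Cfsg.Agent.H56.SpDefs

/-! Project CY, chapter SP: piece C2. -/

set_option autoImplicit false

namespace Cfsg.Agent.H90.SpC2

open Subgroup Cfsg.Agent.H11.Cy Cfsg.Agent.H56.Sp

theorem syl {G : Type} [Group G] [Finite G] (K : Subgroup G) {u : G}
    (hu : u ∈ normalizer (K : Set G)) (uu : u * u = 1) : ∃ S ≤ K, IsPGroup 2 S ∧
      (∀ s ∈ S, u * s * u⁻¹ ∈ S) ∧ ∀ n, 2 ^ n ∣ Nat.card K → 2 ^ n ∣ Nat.card S := by
  have : Fact (Nat.Prime 2) := ⟨Nat.prime_two⟩
  let X := normalizer (K : Set G)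
  let K' := K.subgroupOf X
  have h2 : IsPGroup 2 (zpowers (⟨u, hu⟩ : X)) := by
    rintro ⟨_, k, rfl⟩
    refine ⟨1, Subtype.ext ?_⟩
    have e : (⟨u, hu⟩ : X) * ⟨u, hu⟩ = 1 := Subtype.ext uu
    change ((⟨u, hu⟩ : X) ^ k) ^ 2 ^ 1 = 1
    rw [pow_one, ← zpow_natCast, ← zpow_mul, mul_comm, zpow_mul, zpow_natCast, pow_two, e, one_zpow]
  obtain ⟨P, hP⟩ := h2.exists_le_sylow
  have uP : (⟨u, hu⟩ : X) ∈ (P : Subgroup X) := hP (mem_zpowers _)
  refine ⟨(K' ⊓ P).map X.subtype, ?_, (P.2.to_le inf_le_right).map _, ?_, fun n hn => ?_⟩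
  · rintro _ ⟨s, hs, rfl⟩; exact hs.1
  · rintro _ ⟨s, hs, rfl⟩
    exact ⟨⟨u, hu⟩ * s * ⟨u, hu⟩⁻¹, ⟨Normal.conj_mem inferInstance s hs.1 _,
      (P : Subgroup X).mul_mem ((P : Subgroup X).mul_mem uP hs.2) ((P : Subgroup X).inv_mem uP)⟩, rfl⟩
  · rw [card_map_of_injective X.subtype_injective]
    have c1 : Nat.card K' = Nat.card K := Nat.card_congr (subgroupOfEquivOfLe le_normalizer).toEquiv
    have c2 := K'.card_mul_index
    have c3 := (P : Subgroup X).card_mul_index
    have c4 := (K'.subgroupOf P).card_mul_index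
    have c5 : Nat.card (K'.subgroupOf P) = Nat.card ↥(K' ⊓ P) := by
      rw [← card_map_of_injective (f := (P : Subgroup X).subtype) (P : Subgroup X).subtype_injective,
        subgroupOf_map_subtype]
    obtain ⟨t, ht⟩ : (K'.subgroupOf P).index ∣ K'.index := relIndex_dvd_index_of_normal K' P
    have hpos : 0 < (K'.subgroupOf P).index := Nat.pos_of_ne_zero index_ne_zero_of_finite
    have e : Nat.card K * t = Nat.card ↥(K' ⊓ P) * (P : Subgroup X).index := by
      refine Nat.eq_of_mul_eq_mul_left hpos ?_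
      rw [← c1, ← c5]
      calc _ = Nat.card K' * K'.index := by rw [ht]; ring
        _ = Nat.card (P : Subgroup X) * (P : Subgroup X).index := by rw [c2, c3]
        _ = _ := by rw [← c4]; ring
    exact (Nat.Coprime.pow_left n ((Nat.Prime.coprime_iff_not_dvd Nat.prime_two).2
      P.not_dvd_index)).dvd_of_dvd_mul_right (e ▸ hn.mul_right t)

theorem c2 : C2Stmt := by
  intro G _ _ Ω _ _ p A st hy uq fi w1 x y x' y' z u pr j hj
  have lf := hy.lf x y pr.ne
  have pg := hy.pg x y pr.ne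
  have iu : Iv A u := ⟨x', y', pr.ne', pr.hu⟩
  obtain ⟨hi, fp⟩ := hy.cz.hi x y pr.ne z pr.hz u iu pr.zu pr.cm
  have uu : u * u = 1 := pr.hu.2.2
  have zz : z * z = 1 := pr.hz.2.2
  have ui : u⁻¹ = u := inv_eq_of_mul_eq_one_right uu
  have zF := pr.hz.1
  have zK := lf.cen z pr.hz
  have uK : u ∈ normalizer (Kl A x y : Set G) := mem_normalizer_fintype fun k hk g hg => by
    have := hk _ ((mem_normalizer_iff''.1 hi.1 g).1 hg)
    calc g * (u * k * u⁻¹) = u * (u⁻¹ * g * u * k) * u⁻¹ := by group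
      _ = u * k * u⁻¹ * g := by rw [this]; group
  have inv : ∀ c k : G, c * u * c⁻¹ = u * k → u * k * u = k⁻¹ := fun c k e => by
    rw [eq_inv_iff_mul_eq_one, mul_assoc, ← e]
    calc c * u * c⁻¹ * (c * u * c⁻¹) = c * (u * u) * c⁻¹ := by group
      _ = 1 := by rw [uu]; group
  have two : ∀ k ∈ Kl A x y, k * k = 1 → k = 1 ∨ k = z := fun k hk h =>
    (uq x y pr.ne k hk h).imp id fun h' => lf.uq _ _ h' pr.hz
  have key : ∀ c ∈ Kl A x y, ∀ k ∈ Kl A x y, c * u * c⁻¹ = u * k → k * k ≠ z := by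
    intro c hc k hk e kk
    have ik := inv c k e
    obtain ⟨f, hf, ff, fu, ft⟩ := pg.inv u hi fp z pr.hz
    have cz : z * c = c * z := hc z zF
    have kz : z * k = k * z := hk z zF
    have kf : f * k = k * f := hk f hf
    have fz : f * z = z * f := zK f hf
    have fu' : f * u = u * z * f := by rw [← fu]; group
    have i1 : Iv A (u * k) := ⟨c • x', c • y', fun h => pr.ne' (smul_left_cancel c h),
      e ▸ hy.cz.cj c x' y' u pr.hu⟩
    have n1 : u * k ≠ z := fun h => pr.zu (by
      rw [h, mul_inv_eq_iff_eq_mul, cz] at e; exact mul_left_cancel e)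
    have c1 : u * k * z = z * (u * k) := by rw [mul_assoc, ← kz, ← mul_assoc, pr.cm, mul_assoc]
    have ww : f * (u * k) * (f * (u * k)) = 1 := by
      calc f * (u * k) * (f * (u * k)) = f * u * (k * f) * u * k := by group
        _ = f * u * f * u * (u * k * u) * k := by
          rw [← kf]
          calc f * u * (f * k) * u * k = f * u * f * (u * u) * k * u * k := by rw [uu]; group
            _ = _ := by group
        _ = f * u * f * u := by rw [ik]; group
        _ = u * z * (f * f) * u := by rw [fu']; group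
        _ = 1 := by rw [ff, mul_assoc u, zz, mul_one, uu]
    have iw := (fi x y pr.ne z pr.hz (u * k) i1 n1 c1 f hf ww).1
    have wz : f * (u * k) * z = z * (f * (u * k)) := by
      rw [mul_assoc, c1, ← mul_assoc, fz, mul_assoc]
    have wu : f * (u * k) * u = u * (f * (u * k)) := by
      have k3 : k⁻¹ = z * k := by rw [inv_eq_iff_mul_eq_one, ← mul_assoc, ← kz, mul_assoc, kk, zz]
      calc f * (u * k) * u = f * (u * k * u) := by group
        _ = f * z * k := by rw [ik, k3, mul_assoc]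
        _ = u * u * z * f * k := by rw [uu, one_mul, fz]
        _ = u * (u * z * f) * k := by group
        _ = _ := by rw [← fu']; group
    have cen : ∀ t ∈ Tl A x y u, f * (u * k) * t = t * (f * (u * k)) := fun t ht => by
      have tz : t * z = z * t := zK t ht.1
      have tu : t * u = u * t := mem_centralizer_singleton_iff.1 ht.2
      rcases w1 x y x' y' z u pr _ iw wz wu with h | h | h <;> rw [h]
      · exact tz.symm
      · exact tu.symm
      · rw [mul_assoc, ← tu, ← mul_assoc, ← tz, mul_assoc]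
    obtain ⟨cy, cT⟩ := pg.tor u hi fp
    obtain ⟨t, ht⟩ := IsCyclic.exists_ofOrder_eq_natCard (α := Tl A x y u)
    have t2 : t ^ 2 = 1 := by
      refine Subtype.ext ?_
      have tu : (t : G) * u = u * t := mem_centralizer_singleton_iff.1 t.2.2
      have tk : (t : G) * k = k * t := hk t t.2.1
      have h1 := ft t t.2
      have h2 := cen t t.2
      have h3 : f * (u * k) * t = f * t * (u * k) := by
        rw [mul_assoc, mul_assoc u, ← tk, ← mul_assoc u, ← tu]; group
      rw [h3, ← mul_assoc (t : G), mul_left_inj] at h2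
      rw [h2, mul_inv_cancel_right] at h1
      change (t : G) ^ 2 = 1
      rw [pow_two, mul_eq_one_iff_eq_inv]; exact h1
    have := Nat.le_of_dvd two_pos (orderOf_dvd_of_pow_eq_one t2)
    have := st.pp.two_le
    omega
  have ind : ∀ m : ℕ, ∀ c ∈ Kl A x y, ∀ k ∈ Kl A x y, c * u * c⁻¹ = u * k → k ^ 2 ^ m = 1 →
      k * k = 1 := by
    intro m
    induction m with
    | zero => intro c _ k _ _ h; rw [pow_zero, pow_one] at h; rw [h, one_mul]
    | succ m ih =>
      intro c hc k hk e h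
      have h4 := ih k⁻¹ (inv_mem hk) (k * k) (mul_mem hk hk) (by
        calc k⁻¹ * u * k⁻¹⁻¹ = u * k * u * u * k := by rw [inv c k e, inv_inv]
          _ = u * (k * k) := by rw [mul_assoc (u * k), uu]; group)
        (by rw [← pow_two, ← pow_mul, ← pow_succ', h])
      exact (two _ (mul_mem hk hk) h4).resolve_right (key c hc k hk e)
  obtain ⟨S, hS, p2, nS, dS⟩ := syl (Kl A x y) uK uu
  have alt : ∀ c ∈ S, c * u * c⁻¹ = u ∨ c * u * c⁻¹ = u * z := fun c hc => by
    have hk : u * c * u⁻¹ * c⁻¹ ∈ S := mul_mem (nS c hc) (inv_mem hc)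
    have e : c * u * c⁻¹ = u * (u * c * u⁻¹ * c⁻¹) := by
      rw [ui, ← mul_assoc, ← mul_assoc, ← mul_assoc, uu, one_mul]
    obtain ⟨m, hm⟩ := p2 ⟨_, hk⟩
    rcases two _ (hS hk) (ind m c (hS hc) _ (hS hk) e (congrArg Subtype.val hm)) with h | h
    · left; rw [e, h, mul_one]
    · right; rw [e, h]
  have mH : ∀ c : S, c ∈ (centralizer ({u} : Set G)).subgroupOf S ↔ (c : G) * u * (c : G)⁻¹ = u :=
    fun c => by rw [mem_subgroupOf, mem_centralizer_singleton_iff, mul_inv_eq_iff_eq_mul]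
  have idx : ((centralizer ({u} : Set G)).subgroupOf S).index ∣ 2 := by
    rw [index_dvd_two_iff]
    by_cases h : ∃ a : S, (a : G) * u * (a : G)⁻¹ = u * z
    · obtain ⟨a, ha⟩ := h
      refine ⟨a, fun b => ((alt b b.2).imp (mH b).2 fun hb => (mH _).2 ?_).symm⟩
      have bz : z * b = b * z := hS b.2 z zF
      calc ((b * a : S) : G) * u * ((b * a : S) : G)⁻¹ = b * ((a : G) * u * (a : G)⁻¹) * (b : G)⁻¹ := by
            rw [coe_mul]; group
        _ = b * u * (b : G)⁻¹ * (b * z * (b : G)⁻¹) := by rw [ha]; group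
        _ = u := by rw [hb, ← bz, mul_inv_cancel_right, mul_assoc, zz, mul_one]
    · exact ⟨1, fun b => .inr ((mH b).2 ((alt b b.2).resolve_right fun hb => h ⟨b, hb⟩))⟩
  have h1 := dS _ hj
  rw [← ((centralizer ({u} : Set G)).subgroupOf S).card_mul_index] at h1
  have h2 : 2 ^ j ∣ Nat.card ((centralizer ({u} : Set G)).subgroupOf S) :=
    Nat.dvd_of_mul_dvd_mul_right two_pos (pow_succ 2 j ▸ h1.trans (Nat.mul_dvd_mul_left _ idx))
  refine h2.trans ?_
  rw [← card_map_of_injective (f := S.subtype) S.subtype_injective, subgroupOf_map_subtype]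
  exact card_dvd_of_le fun g hg => ⟨hS hg.2, hg.1⟩

end Cfsg.Agent.H90.SpC2
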