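import Cfsg.Agent.H4.SvDefs

/-! Project SV: the arithmetic of the trace values. -/

set_option autoImplicit false

namespace Cfsg.Agent.H90.SvNum

open Cfsg.Agent.H4.SV

/-- the admissible traces of an element of order four whose square has trace `t` -/
def opt (t : ℤ) : List ℤ := if t = -8 then [0, 8, 64] else [-4, 4, 28, 132]

/-- non-negative multiples of `512` -/
def ok (x : ℤ) : Bool := decide (0 ≤ x) && decide (x % 512 = 0)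

theorem ok_of {x : ℤ} (m n : ℕ) (h : x = 512 * ((m : ℤ) + n)) : ok x = true := by
  have h1 : 0 ≤ x := by omega
  have h2 : x % 512 = 0 := by omega
  simp [ok, h1, h2]

theorem mem_opt {t u : ℤ} (ht : t = -8 ∨ t = 24) (h : Opt t u) : u ∈ opt t := by
  rcases ht with rfl | rfl
  · simpa [opt] using h.1 rfl
  · simpa [opt] using h.2 rfl

set_option synthInstance.maxSize 100000 in
set_option synthInstance.maxHeartbeats 400000 in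
theorem key : ∀ t1 ∈ [(-8 : ℤ), 24], ∀ t2 ∈ [(-8 : ℤ), 24], ∀ t3 ∈ [(-8 : ℤ), 24],
    ∀ t4 ∈ [(-8 : ℤ), 24], ∀ t5 ∈ opt t2, ∀ t8 ∈ opt t2, ∀ t6 ∈ opt t3, ∀ t7 ∈ opt t3, ∀ t9 ∈ opt t3,
    ok (496 + 14 * t1 + 6 * t2 + 34 * t3 + 40 * t4 - 8 * t5 - 16 * t6 - 16 * t7 - 24 * t8 - 32 * t9) = true →
    ok (496 - 10 * t1 + 22 * t2 + 10 * t3 - 24 * t4 - 8 * t5 - 48 * t6 + 16 * t7 + 8 * t8 + 32 * t9) = true →
    ok (496 + 6 * t1 + 22 * t2 - 6 * t3 - 24 * t4 - 8 * t5 + 48 * t6 - 16 * t7 + 8 * t8 - 32 * t9) = true →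
    ok (496 - 2 * t1 + 6 * t2 - 14 * t3 - 24 * t4 - 8 * t5 + 16 * t6 + 16 * t7 - 24 * t8 + 32 * t9) = true →
    ok (496 - 2 * t1 + 38 * t2 + 18 * t3 + 40 * t4 + 24 * t5 - 48 * t6 - 48 * t7 + 72 * t8 - 96 * t9) = true →
    ok (496 + 6 * t1 + 22 * t2 + 26 * t3 + 72 * t4 + 24 * t5 + 48 * t6 + 48 * t7 + 104 * t8 + 160 * t9) = true →
    t1 = 24 ∧ t2 = -8 ∧ t3 = 24 ∧ t4 = -8 ∧ t5 = 64 ∧ t6 = 4 ∧ t7 = 4 ∧ t8 = 0 ∧ t9 = 4 := by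
  decide +kernel

theorem val0 (τ : ℕ → ℤ) : val 0 τ = (1) * τ 0 + (7) * τ 1 + (27) * τ 2 + (41) * τ 3 + (68) * τ 4 + (20) * τ 5 + (40) * τ 6 + (40) * τ 7 + (92) * τ 8 + (112) * τ 9 + (32) * τ 10 + (32) * τ 11 := by
  simp [val, cnt, Finset.sum_range_succ]

theorem val1 (τ : ℕ → ℤ) : val 1 τ = (1) * τ 0 + (7) * τ 1 + (11) * τ 2 + (25) * τ 3 + (36) * τ 4 + (4) * τ 5 + (8) * τ 6 + (8) * τ 7 + (-20) * τ 8 + (-16) * τ 9 + (-32) * τ 10 + (-32) * τ 11 := by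
  simp [val, cnt, Finset.sum_range_succ]

theorem val2 (τ : ℕ → ℤ) : val 2 τ = (1) * τ 0 + (7) * τ 1 + (11) * τ 2 + (25) * τ 3 + (36) * τ 4 + (4) * τ 5 + (8) * τ 6 + (8) * τ 7 + (-20) * τ 8 + (-16) * τ 9 + (-32) * τ 10 + (-32) * τ 11 := by
  simp [val, cnt, Finset.sum_range_succ]

theorem val3 (τ : ℕ → ℤ) : val 3 τ = (1) * τ 0 + (7) * τ 1 + (-5) * τ 2 + (9) * τ 3 + (4) * τ 4 + (-12) * τ 5 + (-24) * τ 6 + (-24) * τ 7 + (-4) * τ 8 + (-16) * τ 9 + (32) * τ 10 + (32) * τ 11 := by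
  simp [val, cnt, Finset.sum_range_succ]

theorem val4 (τ : ℕ → ℤ) : val 4 τ = (1) * τ 0 + (-1) * τ 1 + (27) * τ 2 + (17) * τ 3 + (4) * τ 4 + (4) * τ 5 + (-24) * τ 6 + (-24) * τ 7 + (76) * τ 8 + (-16) * τ 9 + (-32) * τ 10 + (-32) * τ 11 := by
  simp [val, cnt, Finset.sum_range_succ]

theorem val5 (τ : ℕ → ℤ) : val 5 τ = (1) * τ 0 + (-1) * τ 1 + (11) * τ 2 + (1) * τ 3 + (36) * τ 4 + (20) * τ 5 + (-24) * τ 6 + (-24) * τ 7 + (-4) * τ 8 + (-80) * τ 9 + (32) * τ 10 + (32) * τ 11 := by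
  simp [val, cnt, Finset.sum_range_succ]

theorem val6 (τ : ℕ → ℤ) : val 6 τ = (1) * τ 0 + (-1) * τ 1 + (11) * τ 2 + (1) * τ 3 + (-28) * τ 4 + (-12) * τ 5 + (8) * τ 6 + (8) * τ 7 + (-36) * τ 8 + (-16) * τ 9 + (32) * τ 10 + (32) * τ 11 := by
  simp [val, cnt, Finset.sum_range_succ]

theorem val7 (τ : ℕ → ℤ) : val 7 τ = (1) * τ 0 + (-1) * τ 1 + (-5) * τ 2 + (-15) * τ 3 + (4) * τ 4 + (4) * τ 5 + (8) * τ 6 + (8) * τ 7 + (12) * τ 8 + (48) * τ 9 + (-32) * τ 10 + (-32) * τ 11 := by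
  simp [val, cnt, Finset.sum_range_succ]

theorem val8 (τ : ℕ → ℤ) : val 8 τ = (1) * τ 0 + (3) * τ 1 + (19) * τ 2 + (5) * τ 3 + (4) * τ 4 + (-12) * τ 5 + (24) * τ 6 + (-8) * τ 7 + (12) * τ 8 + (-48) * τ 9 + (32) * τ 10 + (-32) * τ 11 := by
  simp [val, cnt, Finset.sum_range_succ]

theorem val9 (τ : ℕ → ℤ) : val 9 τ = (1) * τ 0 + (3) * τ 1 + (3) * τ 2 + (-11) * τ 3 + (-28) * τ 4 + (4) * τ 5 + (24) * τ 6 + (-8) * τ 7 + (-4) * τ 8 + (16) * τ 9 + (-32) * τ 10 + (32) * τ 11 := by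
  simp [val, cnt, Finset.sum_range_succ]

theorem val12 (τ : ℕ → ℤ) : val 12 τ = (1) * τ 0 + (-5) * τ 1 + (19) * τ 2 + (13) * τ 3 + (-28) * τ 4 + (4) * τ 5 + (-40) * τ 6 + (-8) * τ 7 + (28) * τ 8 + (16) * τ 9 + (-32) * τ 10 + (32) * τ 11 := by
  simp [val, cnt, Finset.sum_range_succ]

theorem val13 (τ : ℕ → ℤ) : val 13 τ = (1) * τ 0 + (-5) * τ 1 + (3) * τ 2 + (-3) * τ 3 + (4) * τ 4 + (-12) * τ 5 + (-8) * τ 6 + (24) * τ 7 + (-20) * τ 8 + (16) * τ 9 + (32) * τ 10 + (-32) * τ 11 := by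
  simp [val, cnt, Finset.sum_range_succ]

theorem num : NumStmt := by
  intro τ h0 h1 h2 h3 h4
  have a1 := h1 1 (by simp)
  have a2 := h1 2 (by simp)
  have a3 := h1 3 (by simp)
  have a4 := h1 4 (by simp)
  obtain ⟨m0, e0⟩ := h4 0 (by decide)
  obtain ⟨m1, e1⟩ := h4 1 (by decide)
  obtain ⟨m2, e2⟩ := h4 2 (by decide)
  obtain ⟨m3, e3⟩ := h4 3 (by decide)
  obtain ⟨m4, e4⟩ := h4 4 (by decide)
  obtain ⟨m5, e5⟩ := h4 5 (by decide)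
  obtain ⟨m6, e6⟩ := h4 6 (by decide)
  obtain ⟨m7, e7⟩ := h4 7 (by decide)
  obtain ⟨m8, e8⟩ := h4 8 (by decide)
  obtain ⟨m9, e9⟩ := h4 9 (by decide)
  obtain ⟨m12, e12⟩ := h4 12 (by decide)
  obtain ⟨m13, e13⟩ := h4 13 (by decide)
  rw [val0, val1, val2, val4]
  rw [val0] at e0
  rw [val1] at e1
  rw [val2] at e2
  rw [val3] at e3
  rw [val4] at e4
  rw [val5] at e5
  rw [val6] at e6
  rw [val7] at e7
  rw [val8] at e8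
  rw [val9] at e9
  rw [val12] at e12
  rw [val13] at e13
  obtain ⟨b1, b2, b3, b4, b5, b6, b7, b8, b9⟩ := key (τ 1) (by simpa using a1) (τ 2) (by simpa using a2)
    (τ 3) (by simpa using a3) (τ 4) (by simpa using a4)
    (τ 5) (mem_opt a2 (h2 5 (by simp))) (τ 8) (mem_opt a2 (h2 8 (by simp)))
    (τ 6) (mem_opt a3 (h3 6 (by simp))) (τ 7) (mem_opt a3 (h3 7 (by simp)))
    (τ 9) (mem_opt a3 (h3 9 (by simp)))
    (ok_of m3 m1 (by linear_combination e3 + e1 - 2 * h0))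
    (ok_of m13 m12 (by linear_combination e13 + e12 - 2 * h0))
    (ok_of m8 m9 (by linear_combination e8 + e9 - 2 * h0))
    (ok_of m6 m7 (by linear_combination e6 + e7 - 2 * h0))
    (ok_of m5 m4 (by linear_combination e5 + e4 - 2 * h0))
    (ok_of m0 m7 (by linear_combination e0 + e7 - 2 * h0))
  rw [h0, b1, b2, b3, b4, b5, b6, b7, b8, b9] at e3 e4 ⊢
  clear * - e3 e4
  omega

end Cfsg.Agent.H90.SvNum
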