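import Cfsg.Agent.H53.TCKit

/-! Project TC, piece ENC-I: orthogonal independent pairs are encoded by pairs of vectors. -/

set_option autoImplicit false

namespace Cfsg.Agent.H90.TcE

open MulAction Cfsg.Agent.H53.MW Cfsg.Agent.H53.TC

universe u

section Comb

variable {W M : Type*} [AddCommGroup W] [CommGroup M] {f g : W → M} {ζ η : M} {a a' : W}

/-- two characters with dual vectors -/
structure Du (f g : W → M) (ζ η : M) (a a' : W) : Prop where
  f_add : ∀ x y, f (x + y) = f x * f y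
  g_add : ∀ x y, g (x + y) = g x * g y
  fa : f a = ζ
  ga : g a = 1
  fa' : f a' = 1
  ga' : g a' = η
  z1 : ζ ≠ 1
  e1 : η ≠ 1
  fp : ∀ x, ∃ i : ℕ, f x = ζ ^ i
  gp : ∀ x, ∃ i : ℕ, g x = η ^ i

theorem map_zero' {f : W → M} (h : ∀ x y, f (x + y) = f x * f y) : f 0 = 1 := by
  have := h 0 0
  rw [add_zero] at this
  exact mul_eq_left.1 this.symm

theorem map_sub' {f : W → M} (h : ∀ x y, f (x + y) = f x * f y) (x y : W) :
    f (x - y) = f x / f y := by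
  rw [eq_div_iff_mul_eq', ← h, sub_add_cancel]

theorem map_nsmul' {f : W → M} (h : ∀ x y, f (x + y) = f x * f y) (n : ℕ) (x : W) :
    f (n • x) = f x ^ n := by
  induction n with
  | zero => rw [zero_smul, pow_zero, map_zero' h]
  | succ n ih => rw [succ_nsmul, h, ih, pow_succ]

theorem Du.dec (h : Du f g ζ η a a') (w : W) :
    ∃ z, f z = 1 ∧ g z = 1 ∧ ∃ i j : ℕ, f w = ζ ^ i ∧ g w = η ^ j ∧ w = z + i • a + j • a' := by
  obtain ⟨i, hi⟩ := h.fp w
  obtain ⟨j, hj⟩ := h.gp w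
  refine ⟨w - i • a - j • a', ?_, ?_, i, j, hi, hj, by abel⟩
  · simp [map_sub' h.f_add, map_nsmul' h.f_add, hi, h.fa, h.fa']
  · simp [map_sub' h.g_add, map_nsmul' h.g_add, hj, h.ga, h.ga']

theorem Du.fin (h : Du f g ζ η a a') (ρ : W →+ W)
    (hz : ∀ z, f z = 1 → g z = 1 → f (ρ z) = 1 ∧ g (ρ z) = 1) (h1 : f (ρ a) = ζ ∧ g (ρ a) = 1)
    (h2 : f (ρ a') = 1 ∧ g (ρ a') = η) (w : W) : f (ρ w) = f w ∧ g (ρ w) = g w := by
  obtain ⟨z, z1, z2, i, j, hi, hj, e⟩ := h.dec w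
  rw [hi, hj, e]
  simp [h.f_add, h.g_add, map_nsmul' h.f_add, map_nsmul' h.g_add, hz z z1 z2, h1, h2]

/-- the support for `r ≥ 5` -/
def A5 (f g : W → M) (ζ η : M) : Set W :=
  {w | (f w = ζ ∧ g w = 1) ∨ (f w = ζ ^ 2 ∧ g w = 1) ∨ (f w = 1 ∧ g w = η)}

theorem Du.ker5 (h : Du f g ζ η a a') (ρ ρ' : W →+ W) (e : ∀ w, ρ (ρ' w) = w)
    (hρ : ∀ w ∈ A5 f g ζ η, ρ w ∈ A5 f g ζ η) (hρ' : ∀ w ∈ A5 f g ζ η, ρ' w ∈ A5 f g ζ η)
    {z : W} (z1 : f z = 1) (z2 : g z = 1) : f (ρ z) = 1 ∧ g (ρ z) = 1 := by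
  have k : ∀ w ∈ A5 f g ζ η, w + ρ z ∈ A5 f g ζ η := fun w hw => by
    have := hρ (ρ' w + z) (by simpa [A5, h.f_add, h.g_add, z1, z2] using hρ' w hw)
    rwa [map_add, e] at this
  have k1 := k a (Or.inl ⟨h.fa, h.ga⟩)
  have k2 := k (a + a) (Or.inr (Or.inl ⟨by rw [h.f_add, h.fa, sq], by rw [h.g_add, h.ga, one_mul]⟩))
  have k3 := k a' (Or.inr (Or.inr ⟨h.fa', h.ga'⟩))
  simp only [A5, Set.mem_ofPred_eq, h.f_add, h.g_add, h.fa, h.ga, h.fa', h.ga', one_mul] at k1 k2 k3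
  have g1 : g (ρ z) = 1 := by
    by_contra c
    have e1 := ((k1.resolve_left fun e => c e.2).resolve_left fun e => c e.2).1
    have e2 := ((k2.resolve_left fun e => c e.2).resolve_left fun e => c e.2).1
    rw [mul_assoc, e1, mul_one] at e2
    exact h.z1 e2
  rw [g1, mul_one] at k3
  exact ⟨((k3.resolve_left fun e => h.e1 e.2).resolve_left fun e => h.e1 e.2).1, g1⟩

theorem Du.five (h : Du f g ζ η a a') (z2 : ζ ^ 2 ≠ 1) (z3 : ζ ^ 3 ≠ 1) (e2 : η ^ 2 ≠ 1)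
    (ρ ρ' : W →+ W) (e : ∀ w, ρ (ρ' w) = w) (e' : ∀ w, ρ' (ρ w) = w)
    (hρ : ∀ w ∈ A5 f g ζ η, ρ w ∈ A5 f g ζ η) (hρ' : ∀ w ∈ A5 f g ζ η, ρ' w ∈ A5 f g ζ η)
    (w : W) : f (ρ w) = f w ∧ g (ρ w) = g w := by
  have k1 := hρ a (Or.inl ⟨h.fa, h.ga⟩)
  have k2 := hρ (a + a)
    (Or.inr (Or.inl ⟨by rw [h.f_add, h.fa, sq], by rw [h.g_add, h.ga, one_mul]⟩))
  have k3 := hρ a' (Or.inr (Or.inr ⟨h.fa', h.ga'⟩))
  simp only [A5, Set.mem_ofPred_eq, map_add, h.f_add, h.g_add] at k1 k2 k3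
  have h1 : f (ρ a) = ζ ∧ g (ρ a) = 1 := by
    rcases k1 with k1 | k1 | k1
    · exact k1
    · rw [k1.1, k1.2] at k2
      rcases k2 with k2 | k2 | k2
      · exact absurd (mul_right_cancel (b := ζ) (by
          rw [one_mul, ← pow_succ]; exact (pow_add ζ 2 2).trans k2.1)) z3
      · exact absurd (mul_eq_left.1 k2.1) z2
      · exact absurd (by rw [← k2.2, one_mul]) h.e1
    · rw [k1.1, k1.2] at k2
      rcases k2 with k2 | k2 | k2
      · exact absurd (by rw [sq, k2.2]) e2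
      · exact absurd (by rw [sq, k2.2]) e2
      · exact absurd (mul_eq_left.1 k2.2) h.e1
  have k4 : ∀ n : ℕ, ¬ (f (ρ a') = ζ ^ n ∧ g (ρ a') = 1) := fun n c => by
    have := (h.ker5 ρ' ρ e' hρ' hρ (z := ρ (a' - n • a))
      (by simp [map_sub' h.f_add, map_nsmul' h.f_add, c, h1])
      (by simp [map_sub' h.g_add, map_nsmul' h.g_add, c, h1])).2
    rw [e'] at this
    exact h.e1 (by simpa [map_sub' h.g_add, map_nsmul' h.g_add, h.ga, h.ga'] using this)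
  exact h.fin ρ (fun z => h.ker5 ρ ρ' e hρ hρ') h1
    ((k3.resolve_left (by simpa using k4 1)).resolve_left (k4 2)) w

/-- the support for `r = 3` -/
def A3 (f g : W → M) (ζ : M) (a' : W) (D : AddSubgroup W) : Set W :=
  {w | (f w = ζ ∧ g w = 1) ∨ w - a' ∈ D}

theorem Du.row3 (h : Du f g ζ η a a') (h3 : ∀ w : W, w + w + w = 0) {D : AddSubgroup W}
    (hD : ∀ w ∈ D, f w = 1 ∧ g w = 1) {z : W} (z1 : f z = 1) (z2 : g z = 1) (z3 : z ∉ D)
    (ρ : W →+ W) (e : ∀ w, ρ w ∈ D → w ∈ D)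
    (hρ : ∀ w ∈ A3 f g ζ a' D, ρ w ∈ A3 f g ζ a' D) {u : W} (u1 : f u = ζ) (u2 : g u = 1) :
    f (ρ u) = ζ ∧ g (ρ u) = 1 := by
  refine (hρ u (Or.inl ⟨u1, u2⟩)).resolve_right fun c => ?_
  have k : ∀ y, f y = 1 → g y = 1 → y ∉ D → g (ρ (u + y)) = 1 := fun y y1 y2 y3 =>
    ((hρ (u + y) (Or.inl ⟨by rw [h.f_add, u1, y1, mul_one],
      by rw [h.g_add, u2, y2, mul_one]⟩)).resolve_right fun c' => y3 (e _ (by
        have := D.sub_mem c' c
        rwa [sub_sub_sub_cancel_right, ← map_sub, add_sub_cancel_left] at this))).2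
  have k1 := k z z1 z2 z3
  have k2 := k (0 - z) (by rw [map_sub' h.f_add, map_zero' h.f_add, z1, div_one])
    (by rw [map_sub' h.g_add, map_zero' h.g_add, z2, div_one]) (by simpa using z3)
  have k3 := (hD _ c).2
  rw [map_sub' h.g_add, h.ga', div_eq_one] at k3
  have k4 : g (ρ (u + (u + z) + (u + (0 - z)))) = η := by
    rw [map_add, map_add ρ u, h.g_add, h.g_add, k1, k2, k3, mul_one, mul_one]
  rw [show u + (u + z) + (u + (0 - z)) = u + u + u by abel, h3, map_zero,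
    map_zero' h.g_add] at k4
  exact h.e1 k4.symm

theorem Du.three (h : Du f g ζ η a a') (h3 : ∀ w : W, w + w + w = 0) {D : AddSubgroup W}
    (hD : ∀ w ∈ D, f w = 1 ∧ g w = 1) {z : W} (z1 : f z = 1) (z2 : g z = 1) (z3 : z ∉ D)
    (ρ ρ' : W →+ W) (e : ∀ w, ρ (ρ' w) = w) (e' : ∀ w, ρ' (ρ w) = w)
    (d : ∀ w ∈ D, ρ w ∈ D) (d' : ∀ w ∈ D, ρ' w ∈ D)
    (hρ : ∀ w ∈ A3 f g ζ a' D, ρ w ∈ A3 f g ζ a' D)
    (hρ' : ∀ w ∈ A3 f g ζ a' D, ρ' w ∈ A3 f g ζ a' D) (w : W) :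
    f (ρ w) = f w ∧ g (ρ w) = g w := by
  have r1 := @Du.row3 _ _ _ _ _ _ _ _ _ _ h h3 _ hD _ z1 z2 z3 ρ (fun w hw => e' w ▸ d' _ hw) hρ
  have r2 := @Du.row3 _ _ _ _ _ _ _ _ _ _ h h3 _ hD _ z1 z2 z3 ρ' (fun w hw => e w ▸ d _ hw) hρ'
  have h1 := r1 h.fa h.ga
  refine h.fin ρ (fun y y1 y2 => ?_) h1 ?_ w
  · have := r1 (u := a + y) (by rw [h.f_add, h.fa, y1, mul_one]) (by rw [h.g_add, h.ga, y2, mul_one])
    rwa [map_add, h.f_add, h.g_add, h1.1, h1.2, mul_eq_left, one_mul] at this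
  · rcases hρ a' (Or.inr (by simp)) with c | c
    · have := (r2 c.1 c.2).2
      rw [e', h.ga'] at this
      exact absurd this h.e1
    · have := hD _ c
      rwa [map_sub' h.f_add, map_sub' h.g_add, h.fa', h.ga', div_one, div_eq_one] at this

end Comb

section Enc

variable {L V K W : Type*} [Group L] [AddCommGroup V] [DistribMulAction L V] [Field K]
  [Module K V] [AddCommGroup W] [DistribMulAction L W] {σ : L →* RingAut K} {G T : Subgroup L}
  {π : L → W} {b : W → W → Kˣ} {r : ℕ}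

/-- a union of cosets of a Lagrangian is encoded by a pair of vectors -/
theorem enc [Finite V] [Nontrivial V] [Finite W] (N : Nrm L V K W σ G T π b r) (hr : r ≠ 2)
    {D : AddSubgroup W} (hD : N.alt.perp D = D) (A : Set W) (hA : ∀ a ∈ A, ∀ d ∈ D, a + d ∈ A)
    (h0 : ∀ a ∈ A, a ∉ D) (ζ : Kˣ) : ∃ x y : V, ∀ h : L, h • x = x → h • y = y →
      σ h ζ = ζ ∧ (∀ w ∈ D, h • w ∈ D) ∧ ∀ a ∈ A, h • a ∈ A := by
  classical
  obtain ⟨x, hx, he⟩ := N.exists_vec hr hD.ge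
  choose τ τ1 τ2 using N.surj
  let ι := {q : W ⧸ D // q = 0 ∨ q.out ∈ A}
  have := Fintype.ofFinite ι
  let t : ι → L := fun i => if i.1 = 0 then 1 else τ i.1.out
  let c : ι → K := fun i => if i.1 = 0 then ζ else 1
  have ht : ∀ i, t i ∈ T := fun i => by
    dsimp only [t]; split_ifs; exacts [T.one_mem, τ1 _]
  have hπ : ∀ i, (π (t i) : W ⧸ D) = i.1 := fun i => by
    dsimp only [t]; split_ifs with e
    · rw [N.one, e]; rfl
    · rw [τ2, QuotientAddGroup.out_eq']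
  have hc : ∀ i, c i ≠ 0 := fun i => by
    dsimp only [c]; split_ifs; exacts [ζ.ne_zero, one_ne_zero]
  refine ⟨x, ∑ i, c i • t i • x, fun h h1 h2 => ?_⟩
  have s := N.supp hD hx he t ht (fun i j e => Subtype.ext (by
    rw [← hπ, ← hπ, QuotientAddGroup.eq_iff_sub_mem]; exact e)) c hc h1 h2
  have d1 : ∀ w ∈ D, h • w ∈ D := fun w hw => N.smul_mem hD hx he h1 hw
  refine ⟨?_, d1, fun a ha => ?_⟩
  · obtain ⟨j, j1, j2⟩ := s ⟨0, Or.inl rfl⟩
    have e : t ⟨0, Or.inl rfl⟩ = 1 := if_pos rfl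
    rw [e, N.one, smul_zero, zero_sub, neg_mem_iff, ← QuotientAddGroup.eq_zero_iff, hπ] at j1
    rw [e, one_smul, h1, show t j = 1 from if_pos j1, show c j = ζ from if_pos j1, one_smul,
      show c ⟨0, Or.inl rfl⟩ = ζ from if_pos rfl] at j2
    exact unique_scal hx j2
  · have a1 : (a : W ⧸ D).out - a ∈ D := by
      rw [← QuotientAddGroup.eq_iff_sub_mem, QuotientAddGroup.out_eq']
    obtain ⟨j, j1, -⟩ := s ⟨a, Or.inr (by simpa using hA a ha _ a1)⟩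
    have a2 : π (t ⟨a, Or.inr (by simpa using hA a ha _ a1)⟩) - a ∈ D := by
      rw [← QuotientAddGroup.eq_iff_sub_mem, hπ]
    have a3 := D.sub_mem j1 (d1 _ a2)
    rw [smul_sub, sub_sub_sub_cancel_left] at a3
    have j0 : j.1 ≠ 0 := fun e => h0 a ha (by
      rw [show t j = 1 from if_pos e, N.one, sub_zero] at a3
      simpa using N.smul_mem hD hx he (inv_smul_eq_iff.2 h1.symm) a3)
    rw [show t j = τ j.1.out from if_neg j0, τ2] at a3
    simpa using hA _ (j.2.resolve_left j0) _ a3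

theorem pow_of (N : Nrm L V K W σ G T π b r) {x y : W} (h : b x y ≠ 1) (u v : W) :
    ∃ i : ℕ, b u v = b x y ^ i := by
  have : NeZero r := ⟨N.prime.ne_zero⟩
  obtain ⟨i, -, e⟩ := (N.prim h).eq_pow_of_pow_eq_one (ξ := (b u v : K))
    (by rw [← Units.val_pow_eq_pow_val, N.b_pow, Units.val_one])
  exact ⟨i, Units.ext (by rw [Units.val_pow_eq_pow_val, e])⟩

theorem exists_dual (N : Nrm L V K W σ G T π b r) {d d' : W}
    (h : ∀ i j : ℤ, i • d + j • d' = 0 → (r : ℤ) ∣ j) (h0 : d ≠ 0) :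
    ∃ a, b d a = 1 ∧ b d' a ≠ 1 := by
  by_contra c
  push Not at c
  obtain ⟨u, hu⟩ := N.alt.exists_ne h0
  obtain ⟨i, hi⟩ := pow_of N hu d' u
  have e : d' = i • d := N.alt.ext fun w => by
    obtain ⟨k, hk⟩ := pow_of N hu d w
    have := c (w - k • u) (by rw [N.alt.sub_right, N.alt.nsmul_right, hk, div_self'])
    rw [N.alt.sub_right, N.alt.nsmul_right, div_eq_one] at this
    rw [this, hi, N.alt.nsmul_left, hk, ← pow_mul, ← pow_mul, mul_comm]
  have := h (-i) 1 (by rw [e]; simp)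
  exact N.prime.one_lt.ne' (Int.natCast_dvd_natCast.1 this |> Nat.dvd_one.1)

end Enc

theorem encI : EncIStmt.{u} := by
  intro L V K W _ _ _ _ _ _ _ _ _ _ _ _ σ G T π b r N hr hW d d' hb hi
  have r1 : ¬ (r : ℤ) ∣ 1 := fun e =>
    N.prime.one_lt.ne' (Int.natCast_dvd_natCast.1 e |> Nat.dvd_one.1)
  obtain ⟨a', a1, a2⟩ := exists_dual N (fun i j e => (hi i j e).2)
    fun e => r1 (hi 1 0 (by simp [e])).1
  obtain ⟨a, a3, a4⟩ := exists_dual N (d := d') (d' := d)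
    (fun i j e => (hi j i (by rwa [add_comm])).1) fun e => r1 (hi 0 1 (by simp [e])).2
  have du : Du (b d) (b d') (b d a) (b d' a') a a' :=
    ⟨N.alt.r d, N.alt.r d', rfl, a3, a1, rfl, a4, a2, pow_of N a4 d, pow_of N a2 d'⟩
  obtain ⟨D, d1, d2, hD⟩ := N.alt.exists_lagr_pair hb
  have DZ : ∀ w ∈ D, b d w = 1 ∧ b d' w = 1 := fun w hw =>
    ⟨hD.ge hw d d1, hD.ge hw d' d2⟩
  have fin : ∀ (h : L) (u : W), σ h (b d a) = b d a → (∀ w, b u (h • w) = b u w) → h • u = u :=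
    fun h u h1 h2 => N.alt.ext fun w => Units.ext (by
      obtain ⟨i, e⟩ := pow_of N a4 u (h⁻¹ • w)
      rw [← smul_inv_smul h w, N.bs, h2, e, Units.val_pow_eq_pow_val, map_pow, h1])
  have pw : ∀ {x y : W} (n : ℕ), b x y ≠ 1 → b x y ^ n = 1 → r ∣ n := fun n h e =>
    (N.prim h).dvd_of_pow_eq_one n (by rw [← Units.val_pow_eq_pow_val, e, Units.val_one])
  have r2 : ¬ r ∣ 2 := fun e => hr ((Nat.prime_dvd_prime_iff_eq N.prime Nat.prime_two).1 e)
  by_cases r3 : r = 3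
  · subst r3
    have h3 : ∀ w : W, w + w + w = 0 := fun w => by rw [← N.rW w]; abel
    obtain ⟨z, z1, z2, z3⟩ : ∃ z, b d z = 1 ∧ b d' z = 1 ∧ z ∉ D := by
      by_contra c
      push Not at c
      have h1 := Nat.card_le_card_of_surjective
        (fun p : D × Fin 3 × Fin 3 => (p.1 : W) + p.2.1.1 • a + p.2.2.1 • a') fun w => by
          obtain ⟨z, z1, z2, i, j, -, -, e⟩ := du.dec w
          have k : ∀ (n : ℕ) (u : W), (n % 3) • u = n • u := fun n u => by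
            conv_rhs => rw [← Nat.mod_add_div n 3, add_smul, mul_comm, mul_smul, N.rW, smul_zero,
              add_zero]
          exact ⟨(⟨z, c z z1 z2⟩, ⟨i % 3, Nat.mod_lt _ (by decide)⟩,
            ⟨j % 3, Nat.mod_lt _ (by decide)⟩), by simp only [k, e]⟩
      have h2 := N.alt.card_mul D
      rw [hD] at h2
      rw [Nat.card_prod, Nat.card_prod, Nat.card_eq_fintype_card (α := Fin 3),
        Fintype.card_fin] at h1
      have h4 := hW.resolve_left (by decide)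
      nlinarith
    obtain ⟨x, y, e⟩ := enc N hr hD (A3 (b d) (b d') (b d a) a' D) (fun w hw u hu => hw.imp
        (fun e => by rwa [N.alt.r, N.alt.r, (DZ u hu).1, (DZ u hu).2, mul_one, mul_one])
        fun e => by rw [add_sub_right_comm]; exact D.add_mem e hu)
      (fun w hw e => hw.elim (fun k => a4 (k.1.symm.trans (DZ w e).1)) fun k =>
        a2 (DZ a' (by simpa using D.sub_mem e k)).2) (b d a)
    refine ⟨x, y, fun h h1 h2 => ?_⟩
    obtain ⟨k1, k2, k3⟩ := e h h1 h2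
    obtain ⟨-, k4, k5⟩ := e h⁻¹ (inv_smul_eq_iff.2 h1.symm) (inv_smul_eq_iff.2 h2.symm)
    have := du.three h3 DZ z1 z2 z3 (DistribSMul.toAddMonoidHom W h)
      (DistribSMul.toAddMonoidHom W h⁻¹) (smul_inv_smul h) (inv_smul_smul h) k2 k4 k3 k5
    exact ⟨fin h d k1 fun w => (this w).1, fin h d' k1 fun w => (this w).2⟩
  · have r3' : ¬ r ∣ 3 := fun e => r3 ((Nat.prime_dvd_prime_iff_eq N.prime Nat.prime_three).1 e)
    obtain ⟨x, y, e⟩ := enc N hr hD (A5 (b d) (b d') (b d a) (b d' a')) (fun w hw u hu => by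
        simpa only [A5, Set.mem_ofPred_eq, N.alt.r, DZ u hu, mul_one] using hw)
      (fun w hw e => by
        rcases hw with k | k | k
        · exact a4 (k.1.symm.trans (DZ w e).1)
        · exact r2 (pw 2 a4 (k.1.symm.trans (DZ w e).1))
        · exact a2 (k.2.symm.trans (DZ w e).2)) (b d a)
    refine ⟨x, y, fun h h1 h2 => ?_⟩
    obtain ⟨k1, -, k3⟩ := e h h1 h2
    obtain ⟨-, -, k5⟩ := e h⁻¹ (inv_smul_eq_iff.2 h1.symm) (inv_smul_eq_iff.2 h2.symm)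
    have := du.five (fun e => r2 (pw 2 a4 e)) (fun e => r3' (pw 3 a4 e)) (fun e => r2 (pw 2 a2 e))
      (DistribSMul.toAddMonoidHom W h) (DistribSMul.toAddMonoidHom W h⁻¹)
      (smul_inv_smul h) (inv_smul_smul h) k3 k5
    exact ⟨fin h d k1 fun w => (this w).1, fin h d' k1 fun w => (this w).2⟩

end Cfsg.Agent.H90.TcE
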