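import Cfsg.Agent.H42.VpDefs

/-! The Frobenius complement modulo the centre. -/

set_option autoImplicit false

namespace Cfsg.Agent.H90.VpF2

open Subgroup Cfsg Cfsg.Agent.H42.Vp
open scoped Pointwise

universe u

theorem f2 : F2Stmt.{u} := by
  intro G _ _ p hp K _ hK ⟨e, he⟩ hK0 loc ⟨x, ⟨m, hm⟩, hx⟩ hZ
  haveI : Fact p.Prime := ⟨hp⟩
  have px : IsPGroup p (zpowers x) := by
    refine IsPGroup.iff_card.2 ?_
    rw [Nat.card_zpowers]
    obtain ⟨j, -, hj⟩ := (Nat.dvd_prime_pow hp).1 (orderOf_dvd_of_pow_eq_one hm)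
    exact ⟨j, hj⟩
  obtain ⟨P, hP⟩ := px.exists_le_sylow
  have xP : x ∈ (P : Subgroup G) := hP (mem_zpowers x)
  have ZP : center G ≤ (P : Subgroup G) := hZ.le_sylow_of_normal P
  obtain ⟨n, hn⟩ := IsPGroup.iff_card.1 P.isPGroup'
  have dis : ∀ y, y ∈ (P : Subgroup G) → y ∈ K → y = 1 := fun y h1 h2 => by
    have d1 : orderOf y ∣ p ^ n := hn ▸ Subgroup.orderOf_dvd_natCard _ h1
    have d2 : orderOf y ∣ Nat.card K := Subgroup.orderOf_dvd_natCard _ h2
    exact orderOf_eq_one_iff.1 (Nat.eq_one_of_dvd_coprimes (hK.pow_right n) d2 d1)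
  have top : K ⊔ (P : Subgroup G) = ⊤ := by
    rw [← index_eq_one]
    have d1 : (K ⊔ (P : Subgroup G)).index ∣ p ^ e := he ▸ index_dvd_of_le le_sup_left
    have d2 : (K ⊔ (P : Subgroup G)).index ∣ (P : Subgroup G).index := index_dvd_of_le le_sup_right
    have c : Nat.Coprime (p ^ e) (P : Subgroup G).index :=
      ((Nat.Prime.coprime_iff_not_dvd hp).2 P.not_dvd_index).pow_left e
    exact Nat.eq_one_of_dvd_coprimes c d1 d2
  have mem : ∀ y : G, (y : G ⧸ center G) ∈ (P : Subgroup G).map (QuotientGroup.mk' (center G)) ↔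
      y ∈ (P : Subgroup G) := fun y => by
    constructor
    · rintro ⟨a, ha, e⟩
      have : a⁻¹ * y ∈ center G := QuotientGroup.eq.1 e
      simpa using mul_mem ha (ZP this)
    · exact fun h => ⟨y, h, rfl⟩
  refine ⟨(P : Subgroup G).map (QuotientGroup.mk' (center G)), ⟨fun h => ?_, fun h => ?_, ?_⟩,
    P.isPGroup'.map _⟩
  · have := (mem x).2 xP
    rw [h, mem_bot, QuotientGroup.eq_one_iff] at this
    exact hx this
  · refine hK0 (eq_bot_iff.2 fun k hk => dis k ((mem k).1 (h ▸ mem_top _)) hk)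
  · intro gb hg
    obtain ⟨g, rfl⟩ := QuotientGroup.mk_surjective gb
    rw [mem] at hg
    obtain ⟨k, hk, v, hv, rfl⟩ := mem_sup_of_normal_left.1 (top ▸ mem_top g)
    have k1 : k ≠ 1 := fun e => hg (by simpa [e] using hv)
    refine eq_bot_iff.2 fun ab ⟨h1, h2⟩ => ?_
    obtain ⟨a, rfl⟩ := QuotientGroup.mk_surjective ab
    have aP : a ∈ (P : Subgroup G) := (mem a).1 h1
    have h3 : (k * v)⁻¹ * a * (k * v) ∈ (P : Subgroup G) := by
      rw [← mem]
      have := (mem_pointwise_smul_iff_inv_smul_mem).1 h2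
      simpa [MulAut.smul_def, mul_assoc] using this
    have h4 : k⁻¹ * a * k ∈ (P : Subgroup G) := by
      have := mul_mem (mul_mem hv h3) (inv_mem hv)
      simpa [mul_assoc] using this
    have h5 : k⁻¹ * a * k * a⁻¹ = 1 := dis _ (mul_mem h4 (inv_mem aP)) (by
      have := mul_mem (inv_mem hk) ((inferInstance : K.Normal).conj_mem k hk a)
      simpa [mul_assoc] using this)
    have h6 : Commute a k := by
      have : a * k = k * (k⁻¹ * a * k * a⁻¹) * a := by group
      rw [h5, mul_one] at this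
      exact this
    have h7 : a ^ p ^ n = 1 := by
      rw [← orderOf_dvd_iff_pow_eq_one, ← hn]; exact Subgroup.orderOf_dvd_natCard _ aP
    rw [mem_bot, QuotientGroup.eq_one_iff]
    exact loc a ⟨n, h7⟩ k hk k1 h6

end Cfsg.Agent.H90.VpF2
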