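import Cfsg.Agent.H56.W2Defs
import Cfsg.Agent.H15.GWKAut
import Cfsg.Agent.H29.Solvable

/-! Subgroups `L₂(q) ≤ L₂(q')`, square roots in `PGL₂(q)` and an arithmetic lemma. -/

set_option autoImplicit false

namespace Cfsg.Agent.H90.W2

open Subgroup Cfsg.Agent.H29 Cfsg.Agent.H15 Cfsg.Agent.H63 Cfsg.Agent.H56.W2
open scoped MatrixGroups

universe u

theorem TB.mod {G : Type u} [Group G] {D : Subgroup G} {q k : ℕ} {ε : ℤ} (h : TB D q k ε) :
    (q % 8 = 3 ∨ q % 8 = 5) ∧ 11 ≤ q := by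
  have := h.q_eq
  have := h.eps
  have := h.three
  have := Nat.odd_iff.1 h.odd
  omega

theorem sq_mod_eight {q : ℕ} (h : q % 8 = 3 ∨ q % 8 = 5) (s : ℕ) : s ^ 2 ≠ q := by
  rintro rfl
  rw [Nat.pow_mod] at h
  have := Nat.mod_lt s (show 0 < 8 by decide)
  generalize s % 8 = a at *
  interval_cases a <;> simp at h

theorem cube_inj {a b : ℕ} (h : (a + 1 + 1) * ((a + 1) * a) = (b + 1 + 1) * ((b + 1) * b)) : a = b :=
  (show StrictMono fun a : ℕ => (a + 1 + 1) * ((a + 1) * a) from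
    strictMono_nat_of_lt_succ fun a => by nlinarith).injective h

theorem cube_ne {a b : ℕ} (ha : a % 8 = 2 ∨ a % 8 = 4) (hb : b % 2 = 0) :
    2 * ((b + 1 + 1) * ((b + 1) * b)) ≠ (a + 1 + 1) * ((a + 1) * a) := fun e => by
  obtain ⟨c, rfl⟩ : ∃ c, b = 2 * c := ⟨b / 2, by omega⟩
  have h := (Nat.even_mul_succ_self c).mul_right (2 * c + 1)
  obtain ⟨m, rfl | rfl⟩ : ∃ m, a = 8 * m + 2 ∨ a = 8 * m + 4 := ⟨a / 8, by omega⟩
  · rw [show c * (c + 1) * (2 * c + 1) = (2 * m + 1) * (8 * m + 3) * (4 * m + 1) by linarith] at h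
    simp [parity_simps] at h
  · rw [show c * (c + 1) * (2 * c + 1) = (2 * m + 1) * (8 * m + 5) * (4 * m + 3) by linarith] at h
    simp [parity_simps] at h

theorem sub : SubStmt.{u} := by
  intro G X _ _ _ _ D L q k q' k' ε ε' h h' f hf hL
  obtain ⟨F, _, _, hF, ⟨e⟩⟩ := h.iso
  obtain ⟨F', _, _, hF', ⟨e'⟩⟩ := h'.iso
  obtain ⟨m1, m2⟩ := TB.mod h
  obtain ⟨m1', -⟩ := TB.mod h'
  rw [← Nat.card_eq_fintype_card] at hF hF'
  let φ : D →* PGL(2, F') := pslp.comp (e'.toMonoidHom.comp (f.codRestrict L hL))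
  have hφ : Function.Injective φ :=
    pslp_injective.comp (e'.injective.comp ((f.injective_codRestrict L hL).2 hf))
  let g : PSL(2, F) ≃* φ.range := e.symm.trans (MonoidHom.ofInjective hφ)
  have hs : ¬ Group.IsSolvable φ.range := fun _ =>
    not_isSolvable_PSL2 (F := F) (by omega) (isSolvable_of_equiv g)
  have hc : 2 * Nat.card φ.range = (q + 1) * (q * (q - 1)) := by
    rw [← Nat.card_congr g.toEquiv, card_PSL2_eq, card_L_of_odd (Nat.odd_iff.2 (by omega)), hF]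
  have h5 : ¬ Nonempty (φ.range ≃* alternatingGroup (Fin 5)) := fun ⟨a⟩ => by
    rw [Nat.card_congr a.toEquiv, nat_card_alternatingGroup] at hc
    have := Nat.mul_le_mul (show 12 ≤ q + 1 by omega) (Nat.mul_le_mul m2 (show 10 ≤ q - 1 by omega))
    rw [← hc] at this
    simp [Nat.factorial] at this
  obtain ⟨p, _⟩ := CharP.exists F'
  have : Fact p.Prime := ⟨CharP.char_is_prime F' p⟩
  rcases dickson p φ.range with ⟨x, hx⟩ | ⟨T, D', hT, -, hx⟩ | ⟨-, ⟨⟨a⟩⟩ | ⟨⟨a⟩⟩ | a⟩ | ⟨-, a⟩ |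
    ⟨c, K, h3, hK⟩
  · exact (hs (isSolvable_of_le_stabilizer hx)).elim
  · have := hT.isSolvable
    exact (hs (isSolvable_of_le hx)).elim
  · have := isSolvable_A4
    exact (hs (isSolvable_of_equiv a)).elim
  · have := isSolvable_S4
    exact (hs (isSolvable_of_equiv a)).elim
  · exact (h5 a).elim
  · exact (h5 a).elim
  have hr : Nat.card F' = Nat.card K ^ Module.finrank K F' := Module.natCard_eq_pow_finrank
  have ho : Odd (Nat.card K) := (Nat.odd_pow_iff Module.finrank_pos.ne').1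
    (by rw [← hr, Nat.odd_iff]; omega)
  rw [← card_map_conj _ c] at hc
  obtain ⟨a, rfl⟩ : ∃ a, q = a + 1 := ⟨q - 1, by omega⟩
  obtain ⟨b, hb⟩ : ∃ b, Nat.card K = b + 1 := ⟨Nat.card K - 1, by omega⟩
  rcases hK with hK | hK <;> rw [hK] at hc
  · rw [card_PGLsub, card_PGL2, hb] at hc
    exact (cube_ne (by omega) (by have := Nat.odd_iff.1 ho; omega) hc).elim
  rw [card_PSLsub, card_L_of_odd ho, hb] at hc
  rw [hb, cube_inj hc, hF'] at hr
  refine ⟨_, Nat.not_even_iff_odd.1 fun ⟨s, hs⟩ => ?_, hr⟩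
  exact sq_mod_eight m1' ((a + 1) ^ s) (by rw [hr, hs]; ring)

theorem sqrt_pgl {F : Type*} [Field F] [Finite F] (ho : Odd (Nat.card F)) {t a b : PGL(2, F)}
    (h1 : t ≠ 1) (h2 : t * t = 1) (ha : a * a = t) (hb : b * b = t) : b * a⁻¹ = 1 ∨ b * a⁻¹ = t := by
  obtain ⟨T, D, hT, ht⟩ := exists_torus_of_invol ho h1 h2
  have key : ∀ c, c * c = t → c ∈ T := fun c hc => by
    by_contra h
    exact h1 (hc.symm.trans (hT.invol (hT.mem_D_of_commute ht h1 (by rw [← hc, mul_assoc])) h))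
  have h3 := mul_mem (key b hb) (inv_mem (key a ha))
  refine or_iff_not_imp_left.2 fun h => hT.eq_of_invol h3 ht h h1 ?_ h2
  rw [mul_assoc, ← mul_assoc a⁻¹, ← hT.comm (key b hb) (inv_mem (key a ha)), mul_assoc,
    ← mul_inv_rev, ha, ← mul_assoc, hb, mul_inv_cancel]

theorem pgl : PglStmt.{u} := by
  intro G _ _ D q k ε h t ht ho x hx y hy hxx hyy
  obtain ⟨F, _, _, hF, ⟨e⟩⟩ := h.iso
  obtain ⟨m1, -⟩ := TB.mod h
  rw [← Nat.card_eq_fintype_card] at hF
  let β : N[D] →* MulAut PSL(2, F) := (MulAut.congr e).toMonoidHom.comp D.normalizerMonoidHom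
  have hβ : ∀ d : D, β ⟨d, le_normalizer d.2⟩ = jA F (pslp (e d)) := fun d => by
    rw [jA_pslp]
    ext1 z
    obtain ⟨z, rfl⟩ := e.surjective z
    rw [MulAut.conj_apply, ← map_inv, ← map_mul, ← map_mul]
    exact congrArg (fun w => e (D.normalizerMonoidHom _ w)) (e.symm_apply_apply z)
  have hy' : y ∈ N[D] := by simpa using mul_mem (le_normalizer hy) hx
  have ex : β ⟨x, hx⟩ * β ⟨x, hx⟩ = jA F (pslp (e ⟨t, ht⟩)) := by
    rw [← map_mul, ← hβ]; congr 1; exact Subtype.ext hxx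
  have ey : β ⟨y, hy'⟩ * β ⟨y, hy'⟩ = jA F (pslp (e ⟨t, ht⟩)) := by
    rw [← map_mul, ← hβ]; congr 1; exact Subtype.ext hyy
  have ez : β ⟨y, hy'⟩ = jA F (pslp (e ⟨_, hy⟩)) * β ⟨x, hx⟩ := by
    rw [← hβ, ← map_mul]; congr 1; exact Subtype.ext (by simp)
  obtain ⟨χ, -, hker, -⟩ := H73.exists_chi_two (ι := Fin 2) (F := F) (by simp)
  have h1 : χ (β ⟨x, hx⟩) ^ 2 = 1 := by
    obtain ⟨A, hA⟩ := pmk_surj (pslp (e ⟨t, ht⟩))
    rw [← map_pow, pow_two, ex, ← hA, ← MonoidHom.mem_ker, hker]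
    exact ⟨A, rfl⟩
  obtain ⟨A, hA⟩ : β ⟨x, hx⟩ ∈ (H73.diagPSL (Fin 2) F).range := by
    rw [← hker, MonoidHom.mem_ker]
    by_contra h2
    have := H73.card_fixF_pow (χ (β ⟨x, hx⟩))
    rw [orderOf_eq_prime h1 h2, hF] at this
    exact sq_mod_eight m1 _ this
  rw [← jA_pmk] at hA
  rw [ez, ← hA, ← map_mul, ← map_mul] at ey
  rw [← hA, ← map_mul] at ex
  have inj : Function.Injective fun d : D => pslp (e d) := pslp_injective.comp e.injective
  obtain ⟨t1, t2⟩ := orderOf_eq_prime_iff.1 ho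
  have h3 := sqrt_pgl (Nat.odd_iff.2 (by omega)) (fun e1 => t2 (congrArg Subtype.val
    (inj (a₂ := 1) (by simpa using e1)))) (by
      rw [← map_mul, ← map_mul, show (⟨t, ht⟩ * ⟨t, ht⟩ : D) = 1 from
        Subtype.ext ((pow_two t).symm.trans t1), map_one, map_one])
    (jA_injective ex) (jA_injective ey)
  rw [mul_inv_cancel_right] at h3
  rcases h3 with h3 | h3
  · exact .inl (mul_inv_eq_one.1 (congrArg Subtype.val (inj (a₂ := 1) (by simpa using h3))))
  · refine .inr ((mul_inv_eq_iff_eq_mul.1 (congrArg Subtype.val (inj h3))).trans ?_)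
    exact (congrArg (· * x) hxx).symm.trans ((mul_assoc x x x).trans (congrArg (x * ·) hxx))

theorem size {Q Y K ε : ℤ} (he : ε = 1 ∨ ε = -1) (hq : 11 ≤ Q) (y1 : 1 ≤ Y) (z3 : 3 ≤ Y * K)
    (q3 : Q ^ 3 ≤ K * (Q - ε) + ε) (e5 : Y ^ 2 * ((K * (Q - ε) + ε) * (K * (Q - ε) + ε + ε)) =
      Q * (Q + ε) * (1 + (Y * K - 1) ^ 2)) : False := by
  rcases he with rfl | rfl
  · have k1 : Q ^ 2 ≤ K := by nlinarith
    have e6 : Y * (Y * (K ^ 2 * (3 * Q - 1) - 3 * K * (Q - 1) - 2)) =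
        Q * (Q + 1) * (2 * (Y * K) - 2) := by linear_combination -e5
    have k2 : 2 * Q * (Q + 1) + 3 * Q ≤ K * (3 * Q - 1) := by nlinarith
    have k3 : 2 * Q * (Q + 1) * K ≤ K ^ 2 * (3 * Q - 1) - 3 * K * (Q - 1) - 2 := by nlinarith
    have k4 : 0 ≤ 2 * Q * (Q + 1) * K := by nlinarith
    have k5 := mul_le_mul_of_nonneg_left (k3.trans (le_mul_of_one_le_left (k4.trans k3) y1))
      (zero_le_one.trans y1)
    nlinarith
  · have k1 : 2 ≤ K := by
      by_contra k1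
      have := mul_le_mul_of_nonneg_right (show K ≤ 1 by omega) (show 0 ≤ Q + 1 by omega)
      nlinarith [mul_nonneg (show 0 ≤ Q - 2 by omega) (sq_nonneg Q)]
    have e6 : Y ^ 2 * (K ^ 2 * (3 * Q + 1) - 3 * K * (Q + 1) + 2) =
        Q * (Q - 1) * (2 - 2 * (Y * K)) := by linear_combination e5
    have k2 : 0 ≤ K * (3 * Q + 1) - 3 * (Q + 1) := by
      nlinarith [mul_nonneg (show 0 ≤ K - 2 by omega) (show 0 ≤ 3 * Q + 1 by omega)]
    have k3 := mul_nonneg (sq_nonneg Y) (add_nonneg (mul_nonneg (show 0 ≤ K by omega) k2) zero_le_two)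
    have k4 := mul_pos (mul_pos (show 0 < Q by omega) (show 0 < Q - 1 by omega))
      (show 0 < 2 * (Y * K) - 2 by omega)
    linarith

theorem arB : ArBStmt := by
  rintro q k q' _ r h h' y i j α d d2 ε ε' hk k3 he he' hq hq' hr hqr ⟨κ, rfl⟩ hh hh' hα hj hd2 e1 e2
    hd e3
  have odd1 : ∀ n : ℕ, Odd n → n ∣ j → n = 1 := fun n hn h1 =>
    (Nat.Coprime.pow_right α (Nat.coprime_two_right.2 hn)).eq_one_of_dvd (hj ▸ h1)
  have j2 : 2 ≤ j := hj ▸ Nat.le_self_pow (by omega) 2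
  have qo : q % 2 = 1 := by omega
  obtain rfl : ε = ε' := by
    obtain ⟨s, rfl⟩ := hr
    have h1 : q ^ 2 % 4 = 1 := by
      rw [Nat.pow_mod]
      rcases (by omega : q % 4 = 1 ∨ q % 4 = 3) with h1 | h1 <;> rw [h1]
    have h2 : q' % 4 = q % 4 := by
      rw [hqr, pow_succ, pow_mul, Nat.mul_mod, Nat.pow_mod, h1]; simp
    omega
  have hkj : k ∣ d2 * j := (Nat.dvd_add_right dvd_rfl).1 (e1 ▸ ⟨y * κ, by ring⟩)
  have h2h : (2 * h : ℤ) = q * (q + ε) := by rw [hh, hq]; ring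
  have h2h' : (2 * h' : ℤ) = q' * (q' + ε) := by rw [hh', hq']; ring
  have h0 : 1 < h := by rcases he with rfl | rfl <;> nlinarith
  rcases hd2 with rfl | rfl | hd2 | rfl
  · have h1 : y * κ = 1 := Nat.eq_of_mul_eq_mul_left (show 0 < k by omega) (by linarith)
    obtain rfl := Nat.eq_one_of_mul_eq_one_right h1
    obtain rfl := Nat.eq_one_of_mul_eq_one_left h1
    obtain rfl : i = j := Nat.eq_of_mul_eq_mul_left (show 0 < k by omega) (by simpa using e2)
    obtain rfl : h = h' := by rw [mul_one, ← hh] at hh'; omega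
    have : 0 < d * i := Nat.mul_pos (by omega) (by omega)
    omega
  · exact absurd (odd1 k hk (by simpa using hkj)) (by omega)
  swap
  · exact absurd (odd1 k hk ((Nat.dvd_add_right (dvd_mul_right k j)).1 (by rwa [← add_one_mul])))
      (by omega)
  subst d2
  have h1 : y * κ = j + 1 := Nat.eq_of_mul_eq_mul_left (show 0 < k by omega) (by linarith)
  obtain rfl : i = j * j := Nat.eq_of_mul_eq_mul_left (show 0 < k by omega) (by
    obtain ⟨j, rfl⟩ : ∃ m, j = m + 1 := ⟨j - 1, by omega⟩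
    rw [e2, Nat.add_sub_cancel]; ring)
  by_cases r1 : r = 1
  · subst r1
    obtain rfl : κ = 1 := Nat.eq_of_mul_eq_mul_left (show 0 < k by omega) (by
      rw [pow_one] at hqr
      zify
      push_cast at hq'
      omega)
    obtain rfl : h = h' := by rw [mul_one, ← hh] at hh'; omega
    rw [mul_one] at h1
    have h2 : (j + 2) * h = d * j := Nat.eq_of_mul_eq_mul_left (show 0 < j by omega) (by
      rw [h1] at e3; linarith)
    rcases hd with rfl | rfl | rfl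
    · nlinarith
    · nlinarith
    · refine absurd (odd1 h ?_ ⟨2, by linarith⟩) (by omega)
      rw [← Int.odd_coe_nat, hh]
      exact Odd.mul (Int.odd_iff.2 (by omega)) (Int.odd_iff.2 (by omega))
  have r3 : 3 ≤ r := by have := Nat.odd_iff.1 hr; omega
  have q11 : 11 ≤ q := by omega
  have d1 : q ∣ h := Int.natCast_dvd_natCast.1 ⟨2 * k + ε, by rw [hh, hq]⟩
  have d2 : q ∣ h' := (hqr ▸ dvd_pow_self q (by omega) : q ∣ q').trans
    (Int.natCast_dvd_natCast.1 ⟨2 * (k * κ : ℕ) + ε, by rw [hh', hq']⟩)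
  have d3 : q ∣ d * (j * j) := (Nat.dvd_add_right d1).1 (e3 ▸ d2.mul_left _)
  have d4 : ¬ q ∣ j * j := fun h2 => by
    have := (Nat.Coprime.pow_right (α + α) (Nat.coprime_two_right.2 (Nat.odd_iff.2 qo))).eq_one_of_dvd
      (by rwa [pow_add, ← hj])
    omega
  rcases hd with rfl | hd | rfl
  · exact d4 (by simpa using d3)
  swap
  · exact d4 ((Nat.dvd_add_right (d1.mul_right _)).1 (by rwa [← add_one_mul]))
  subst d
  have q3 : (q : ℤ) ^ 3 ≤ q' := by exact_mod_cast hqr ▸ Nat.pow_le_pow_right (by omega) r3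
  have e4 : (q' : ℤ) = κ * (q - ε) + ε := by rw [hq', hq]; push_cast; ring
  have e5 : (y : ℤ) ^ 2 * (q' * (q' + ε)) = q * (q + ε) * (1 + (y * κ - 1) ^ 2) := by
    zify at e3 h1
    rw [← h2h, ← h2h', h1]
    linear_combination 2 * e3
  have y1 : (1 : ℤ) ≤ y := by
    rcases Nat.eq_zero_or_pos y with rfl | h2
    · omega
    · exact_mod_cast h2
  have z3 : (3 : ℤ) ≤ y * κ := by exact_mod_cast (by omega : 3 ≤ y * κ)
  rw [e4] at e5 q3
  exact size he (by exact_mod_cast q11) y1 z3 q3 e5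

end Cfsg.Agent.H90.W2
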